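import Cfsg.Agent.Base

/-! Definitions for the `Y₅₂₂`-type presentation of `PΩ₈⁺(3)` (job P8-FIN). -/

namespace CL.P8

/-- edges of the diagram `Y₅₂₂` on the letters `a b1 c1 d1 e1 f1 b2 c2 b3 c3 = 0..9` -/
def edges : List (ℕ × ℕ) := [(0,1),(0,6),(0,8),(1,2),(2,3),(3,4),(4,5),(6,7),(8,9)]

def cox (i j : ℕ) : ℕ := if i = j then 1 else if (i,j) ∈ edges ∨ (j,i) ∈ edges then 3 else 2

def alt {G : Type*} [Group G] (g : ℕ → G) : List ℕ → G
  | i :: j :: w => g i * (g j)⁻¹ * alt g w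
  | _ => 1

def wf : List ℕ := (List.replicate 9 [0,1,6,8,2,7,3]).flatten ++ [5]

def wz : List ℕ := (List.replicate 15 [0,1,6,8,2,7,3,4]).flatten

structure Y5 {G : Type*} [Group G] (g : ℕ → G) : Prop where
  cox : ∀ i < 10, ∀ j < 10, (g i * (g j)⁻¹) ^ cox i j = 1
  f : alt g wf = 1
  f' : alt g (wf.rotate 1) = 1
  z : alt g wz = 1
  z' : alt g (wz.rotate 1) = 1

def evS {G : Type*} [Group G] (g : ℕ → G) : Subgroup G :=
  Subgroup.closure {x | ∃ i < 10, ∃ j < 10, x = g i * (g j)⁻¹}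

end CL.P8
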