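/-
The central product of four quaternion groups in coordinates, and the action of an involution centraliser on it
(helper84, S2920).
-/
import Cfsg.Agent.Base

set_option autoImplicit false

namespace CL.P8

/-- the plane `Q₈ / Z` -/
abbrev P2 : Type := ZMod 2 × ZMod 2

/-- four planes -/
abbrev V : Type := Fin 4 → P2

/-- the cocycle of `Q₈` in the coordinates `a ^ x * b ^ y` -/
def c2 (p q : P2) : ZMod 2 := p.2 * q.1 + p.1 * q.1 + p.2 * q.2

def coc (v w : V) : ZMod 2 := c2 (v 0) (w 0) + c2 (v 1) (w 1) + c2 (v 2) (w 2) + c2 (v 3) (w 3)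

/-- the symplectic form -/
def B (v w : V) : ZMod 2 := coc v w + coc w v

/-- the number of non-zero blocks -/
def sup (v : V) : ℕ := (if v 0 = 0 then 0 else 1) + (if v 1 = 0 then 0 else 1) + (if v 2 = 0 then 0 else 1) +
  (if v 3 = 0 then 0 else 1)

/-- the vector with the single block `p` at the place `k` -/
def sg (k : Fin 4) (p : P2) : V := fun j => if j = k then p else 0

def ea (k : Fin 4) : V := sg k (1, 0)
def eb (k : Fin 4) : V := sg k (0, 1)

/-- `2^{1+8}_+` -/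
@[ext] structure QM where
  v : V
  e : ZMod 2

instance : DecidableEq QM := fun p q => decidable_of_iff (p.v = q.v ∧ p.e = q.e) QM.ext_iff.symm

instance : Fintype QM := Fintype.ofEquiv (V × ZMod 2)
  ⟨fun p => ⟨p.1, p.2⟩, fun q => (q.v, q.e), fun _ => rfl, fun _ => rfl⟩

theorem coc_add_left (u v w : V) : coc (u + v) w = coc u w + coc v w := by
  simp only [coc, c2, Pi.add_apply, Prod.fst_add, Prod.snd_add]; ring

theorem coc_add_right (u v w : V) : coc u (v + w) = coc u v + coc u w := by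
  simp only [coc, c2, Pi.add_apply, Prod.fst_add, Prod.snd_add]; ring

theorem coc_zero_left (v : V) : coc 0 v = 0 := by simp [coc, c2]

theorem coc_zero_right (v : V) : coc v 0 = 0 := by simp [coc, c2]

theorem z2_add_self (t : ZMod 2) : t + t = 0 := by revert t; decide

theorem V_add_self (v : V) : v + v = 0 := by
  funext k; exact Prod.ext (z2_add_self _) (z2_add_self _)

instance : Group QM where
  mul p q := ⟨p.v + q.v, p.e + q.e + coc p.v q.v⟩
  one := ⟨0, 0⟩
  inv p := ⟨p.v, p.e + coc p.v p.v⟩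
  mul_assoc p q r := QM.ext (add_assoc _ _ _) (by
    change p.e + q.e + coc p.v q.v + r.e + coc (p.v + q.v) r.v = p.e + (q.e + r.e + coc q.v r.v) + coc p.v (q.v + r.v)
    rw [coc_add_left, coc_add_right]; ring)
  one_mul p := QM.ext (zero_add _) (by change 0 + p.e + coc 0 p.v = p.e; rw [coc_zero_left]; ring)
  mul_one p := QM.ext (add_zero _) (by change p.e + 0 + coc p.v 0 = p.e; rw [coc_zero_right]; ring)
  inv_mul_cancel p := QM.ext (V_add_self _) (by
    change p.e + coc p.v p.v + p.e + coc p.v p.v = 0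
    rw [show p.e + coc p.v p.v + p.e + coc p.v p.v = (p.e + p.e) + (coc p.v p.v + coc p.v p.v) by ring,
      z2_add_self, z2_add_self, add_zero])

@[simp] theorem QM.mul_v (p q : QM) : (p * q).v = p.v + q.v := rfl
@[simp] theorem QM.mul_e (p q : QM) : (p * q).e = p.e + q.e + coc p.v q.v := rfl
@[simp] theorem QM.one_v : (1 : QM).v = 0 := rfl
@[simp] theorem QM.one_e : (1 : QM).e = 0 := rfl
@[simp] theorem QM.inv_v (p : QM) : p⁻¹.v = p.v := rfl
@[simp] theorem QM.inv_e (p : QM) : p⁻¹.e = p.e + coc p.v p.v := rfl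

/-- the centre -/
def zq : QM := ⟨0, 1⟩
def aq (k : Fin 4) : QM := ⟨ea k, 0⟩
def bq (k : Fin 4) : QM := ⟨eb k, 0⟩

theorem card_QM : Nat.card QM = 512 := by rw [Nat.card_eq_fintype_card]; decide +kernel

theorem card_V : Nat.card V = 256 := by rw [Nat.card_eq_fintype_card]; decide +kernel

theorem zq_ne : zq ≠ 1 := by decide

theorem zq_sq : zq * zq = 1 := by decide

theorem zq_comm (q : QM) : q * zq = zq * q :=
  QM.ext (add_comm _ _) (by simp only [QM.mul_e, zq, coc_zero_left, coc_zero_right]; ring)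

theorem z2_cases (t : ZMod 2) : t = 0 ∨ t = 1 := by revert t; decide

/-- two elements with the same vector -/
theorem QM.eq_or {p q : QM} (h : p.v = q.v) : p = q ∨ p = q * zq := by
  have h1 : ∀ s t : ZMod 2, s = t ∨ s = t + 1 := by decide
  refine (h1 p.e q.e).imp (QM.ext h) fun e => QM.ext (by simp [zq, h]) (by simp [zq, coc_zero_right, e])

theorem QM.v_eq_zero {p : QM} (h : p.v = 0) : p = 1 ∨ p = zq := by
  simpa using QM.eq_or (q := 1) h

theorem QM.sq (p : QM) : p * p = ⟨0, coc p.v p.v⟩ := QM.ext (V_add_self _) (by simp [z2_add_self])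

theorem QM.conj (p q : QM) : p * q * p⁻¹ = ⟨q.v, q.e + B p.v q.v⟩ := by
  refine QM.ext ?_ ?_
  · simp only [QM.mul_v, QM.inv_v]; rw [add_comm p.v, add_assoc, V_add_self, add_zero]
  · simp only [QM.mul_e, QM.inv_e, QM.mul_v, QM.inv_v, coc_add_left, B]
    linear_combination (z2_add_self p.e) + (z2_add_self (coc p.v p.v))

theorem QM.comm_iff (p q : QM) : p * q = q * p ↔ B p.v q.v = 0 := by
  rw [← mul_inv_eq_iff_eq_mul, QM.conj, QM.ext_iff]; simp

theorem coc_self (v : V) : coc v v = 0 ↔ sup v % 2 = 0 := by revert v; decide +kernel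

theorem B_nondeg {v : V} (h : ∀ k, B v (ea k) = 0 ∧ B v (eb k) = 0) : v = 0 := by revert v; decide +kernel

theorem V_eq_sum (v : V) : v = (v 0).1.val • ea 0 + (v 0).2.val • eb 0 + ((v 1).1.val • ea 1 + (v 1).2.val • eb 1) +
    ((v 2).1.val • ea 2 + (v 2).2.val • eb 2) + ((v 3).1.val • ea 3 + (v 3).2.val • eb 3) := by
  revert v; decide +kernel

/-- additive maps agreeing on the basis -/
theorem V_ext {f g : V → V} (hf : ∀ v w, f (v + w) = f v + f w) (hg : ∀ v w, g (v + w) = g v + g w)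
    (h : ∀ k, f (ea k) = g (ea k) ∧ f (eb k) = g (eb k)) : f = g := by
  have : AddMonoidHom.mk' f hf = AddMonoidHom.mk' g hg := by
    refine AddMonoidHom.ext fun v => ?_
    rw [V_eq_sum v]
    simp only [map_add, map_nsmul, AddMonoidHom.mk'_apply, (h _).1, (h _).2]
  exact funext fun v => DFunLike.congr_fun this v

section
variable {K : Type*} [Group K]

/-- four commuting quaternion groups with the common centre `z` -/
structure Q8s (z : K) (a b : Fin 4 → K) : Prop where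
  zz : z * z = 1
  aa : ∀ k, a k * a k = z
  bb : ∀ k, b k * b k = z
  ba : ∀ k, b k * a k = a k * b k * z
  caa : ∀ j k, j ≠ k → Commute (a j) (a k)
  cab : ∀ j k, j ≠ k → Commute (a j) (b k)
  cbb : ∀ j k, j ≠ k → Commute (b j) (b k)

variable {z : K} {a b : Fin 4 → K}

/-- the element of one block -/
def blk (a b : Fin 4 → K) (k : Fin 4) (p : P2) : K := a k ^ p.1.val * b k ^ p.2.val

theorem Q8s.za (h : Q8s z a b) (k : Fin 4) : Commute z (a k) := by rw [← h.aa k]; exact (Commute.refl _).mul_left (.refl _)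

theorem Q8s.zb (h : Q8s z a b) (k : Fin 4) : Commute z (b k) := by rw [← h.bb k]; exact (Commute.refl _).mul_left (.refl _)

theorem Q8s.zblk (h : Q8s z a b) (k : Fin 4) (p : P2) : Commute z (blk a b k p) :=
  ((h.za k).pow_right _).mul_right ((h.zb k).pow_right _)

theorem Q8s.cblk (h : Q8s z a b) {j k : Fin 4} (hjk : j ≠ k) (p q : P2) : Commute (blk a b j p) (blk a b k q) :=
  (((h.caa j k hjk).pow_pow _ _).mul_right ((h.cab j k hjk).pow_pow _ _)).mul_left
    (((h.cab k j hjk.symm).symm.pow_pow _ _).mul_right ((h.cbb j k hjk).pow_pow _ _))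

theorem Q8s.zpow_add (h : Q8s z a b) (s t : ZMod 2) : z ^ (s + t).val = z ^ s.val * z ^ t.val := by
  rcases z2_cases s with rfl | rfl <;> rcases z2_cases t with rfl | rfl
  · simp
  · simp
  · simp
  · rw [z2_add_self, show (1 : ZMod 2).val = 1 from rfl, pow_one, h.zz]; simp

theorem Q8s.blk_mul (h : Q8s z a b) (k : Fin 4) (p q : P2) :
    blk a b k p * blk a b k q = blk a b k (p + q) * z ^ (c2 p q).val := by
  obtain ⟨p1, p2⟩ := p
  obtain ⟨q1, q2⟩ := q
  have h1 := h.aa k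
  have h2 := h.bb k
  have h3 := h.ba k
  have h4 := (h.za k).eq
  have h5 := (h.zb k).eq
  have h6 := h.zz
  have v0 : (0 : ZMod 2).val = 0 := rfl
  have v1 : (1 : ZMod 2).val = 1 := rfl
  have e1 : ∀ x, a k * (a k * x) = z * x := fun x => by rw [← mul_assoc, h1]
  have e2 : ∀ x, b k * (b k * x) = z * x := fun x => by rw [← mul_assoc, h2]
  have e3 : ∀ x, b k * (a k * x) = a k * (b k * (z * x)) := fun x => by rw [← mul_assoc, h3]; simp only [mul_assoc]
  have e4 : ∀ x, z * (a k * x) = a k * (z * x) := fun x => by rw [← mul_assoc, h4, mul_assoc]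
  have e5 : ∀ x, z * (b k * x) = b k * (z * x) := fun x => by rw [← mul_assoc, h5, mul_assoc]
  have e6 : ∀ x, z * (z * x) = x := fun x => by rw [← mul_assoc, h6, one_mul]
  rw [← mul_left_inj (1 : K)]
  rcases z2_cases p1 with rfl | rfl <;> rcases z2_cases p2 with rfl | rfl <;> rcases z2_cases q1 with rfl | rfl <;>
    rcases z2_cases q2 with rfl | rfl <;>
    simp only [blk, c2, Prod.mk_add_mk, add_zero, zero_add, mul_zero, zero_mul, z2_add_self, v0, v1, pow_zero, pow_one,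
      one_mul, mul_assoc, show (1 : ZMod 2) * 1 = 1 from rfl, e1, e2, e3, e4, e5, e6]

/-- the homomorphism from the model -/
def Q8s.hom (h : Q8s z a b) : QM →* K := MonoidHom.mk'
  (fun q => blk a b 0 (q.v 0) * blk a b 1 (q.v 1) * blk a b 2 (q.v 2) * blk a b 3 (q.v 3) * z ^ q.e.val) (fun p q => by
    simp only [QM.mul_v, QM.mul_e, Pi.add_apply, coc, h.zpow_add]
    have m := fun k => eq_mul_inv_of_mul_eq (h.blk_mul k (p.v k) (q.v k)).symm
    have c : ∀ (n : ℕ) k t x, z ^ n * (blk a b k t * x) = blk a b k t * (z ^ n * x) := fun n k t x => by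
      rw [← mul_assoc, ((h.zblk k t).pow_left n).eq, mul_assoc]
    have c' : ∀ (n : ℕ) k t x, (z ^ n)⁻¹ * (blk a b k t * x) = blk a b k t * ((z ^ n)⁻¹ * x) := fun n k t x => by
      rw [← mul_assoc, ((h.zblk k t).pow_left n).inv_left.eq, mul_assoc]
    have d : ∀ j k, j < k → ∀ s t x, blk a b k t * (blk a b j s * x) = blk a b j s * (blk a b k t * x) :=
      fun j k hjk s t x => by rw [← mul_assoc, (h.cblk hjk.ne' t s).eq, mul_assoc]
    rw [m 0, m 1, m 2, m 3]
    simp only [mul_assoc, c, c', d 0 1 (by decide), d 0 2 (by decide), d 0 3 (by decide), d 1 2 (by decide),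
      d 1 3 (by decide), d 2 3 (by decide)]
    group)

theorem Q8s.hom_z (h : Q8s z a b) : h.hom zq = z := by
  simp [Q8s.hom, blk, zq, show (1 : ZMod 2).val = 1 from rfl]

theorem Q8s.hom_a (h : Q8s z a b) (k : Fin 4) : h.hom (aq k) = a k := by
  fin_cases k <;> simp [Q8s.hom, blk, aq, ea, sg, show (1 : ZMod 2).val = 1 from rfl]

theorem Q8s.hom_b (h : Q8s z a b) (k : Fin 4) : h.hom (bq k) = b k := by
  fin_cases k <;> simp [Q8s.hom, blk, bq, eb, sg, show (1 : ZMod 2).val = 1 from rfl]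

theorem QM.eq_prod (q : QM) : q = aq 0 ^ (q.v 0).1.val * bq 0 ^ (q.v 0).2.val * (aq 1 ^ (q.v 1).1.val * bq 1 ^ (q.v 1).2.val) *
    (aq 2 ^ (q.v 2).1.val * bq 2 ^ (q.v 2).2.val) * (aq 3 ^ (q.v 3).1.val * bq 3 ^ (q.v 3).2.val) *
    (aq 0 * aq 0) ^ q.e.val := by
  revert q; decide +kernel

/-- induction over the generators of `QM` -/
theorem QM.ind {H : Subgroup QM} (h : ∀ k, aq k ∈ H ∧ bq k ∈ H) (q : QM) : q ∈ H := by
  rw [QM.eq_prod q]
  have m := fun k (i j : ℕ) => H.mul_mem (H.pow_mem (h k).1 i) (H.pow_mem (h k).2 j)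
  exact H.mul_mem (H.mul_mem (H.mul_mem (H.mul_mem (m _ _ _) (m _ _ _)) (m _ _ _)) (m _ _ _))
    (H.pow_mem (H.mul_mem (h 0).1 (h 0).1) _)

theorem QM.hom_ext {f g : QM →* K} (h : ∀ k, f (aq k) = g (aq k) ∧ f (bq k) = g (bq k)) : f = g :=
  MonoidHom.ext fun q => QM.ind (H := f.eqLocus g) h q

/-- a homomorphism that keeps the centre is injective -/
theorem QM.injective {f : QM →* K} (h : f zq ≠ 1) : Function.Injective f := by
  rw [injective_iff_map_eq_one]
  intro q hq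
  have h1 : ∀ p : QM, B q.v p.v = 0 := fun p => by
    have h2 : f (q * p * q⁻¹ * p⁻¹) = 1 := by simp [hq]
    rcases z2_cases (B q.v p.v) with e | e
    · exact e
    · refine absurd ?_ h
      rw [← h2, QM.conj, e]
      congr 1
      exact QM.ext (V_add_self _).symm (by
        simp only [zq, QM.mul_e, QM.inv_e, QM.inv_v]
        linear_combination -(z2_add_self p.e) - (z2_add_self (coc p.v p.v)))
  rcases QM.v_eq_zero (B_nondeg fun k => ⟨h1 (aq k), h1 (bq k)⟩) with e | e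
  · exact e
  · exact absurd (e ▸ hq) h

end

section
variable {G : Type*} [Group G]

/-- `x` normalises the image of `ψ` -/
def Nq (ψ : QM →* G) (x : G) : Prop := ∀ q, ∃ q', x * ψ q * x⁻¹ = ψ q'

open Classical in
/-- the action on `Q / Z(Q)` -/
noncomputable def act (ψ : QM →* G) (x : G) (v : V) : V :=
  if h : ∃ q : QM, x * ψ ⟨v, 0⟩ * x⁻¹ = ψ q then h.choose.v else 0

/-- `Q = ψ.range` is normal in `C(z)` and is the kernel of the action on `Q / Z(Q)` -/
structure XQ (ψ : QM →* G) : Prop where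
  inj : Function.Injective ψ
  nq : ∀ x, Commute x (ψ zq) → Nq ψ x
  cq : ∀ x, Commute x (ψ zq) → (∀ v, act ψ x v = v) → x ∈ ψ.range

variable {ψ : QM →* G} {x y : G}

theorem Nq.of_gens (h : ∀ k, x * ψ (aq k) * x⁻¹ ∈ ψ.range ∧ x * ψ (bq k) * x⁻¹ ∈ ψ.range) : Nq ψ x := fun q => by
  have := QM.ind (H := ψ.range.comap ((MulAut.conj x).toMonoidHom.comp ψ)) h q
  obtain ⟨q', e⟩ := this
  exact ⟨q', e.symm⟩

/-- the value of `act` from one conjugation -/
theorem act_eq (hi : Function.Injective ψ) (hz : Commute x (ψ zq)) {q q' : QM} (h : x * ψ q * x⁻¹ = ψ q') :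
    act ψ x q.v = q'.v := by
  have h1 : ∃ p : QM, p.v = q'.v ∧ x * ψ ⟨q.v, 0⟩ * x⁻¹ = ψ p := by
    rcases QM.eq_or (p := ⟨q.v, 0⟩) (q := q) rfl with e | e
    · exact ⟨q', rfl, by rw [e, h]⟩
    · exact ⟨q' * zq, by simp [zq], by
        rw [e, map_mul, map_mul, ← h, mul_assoc _ x⁻¹, hz.inv_left.eq]; simp only [mul_assoc]⟩
  obtain ⟨p, hp, e⟩ := h1
  have h2 : ∃ p : QM, x * ψ ⟨q.v, 0⟩ * x⁻¹ = ψ p := ⟨p, e⟩
  rw [act, dif_pos h2, ← hp, hi (h2.choose_spec.symm.trans e)]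

attribute [irreducible] act

theorem act_spec (hi : Function.Injective ψ) (hz : Commute x (ψ zq)) (hn : Nq ψ x) (q : QM) :
    ∃ e, x * ψ q * x⁻¹ = ψ ⟨act ψ x q.v, e⟩ := by
  obtain ⟨q', h⟩ := hn q
  exact ⟨q'.e, by rw [act_eq hi hz h, h]⟩

theorem act_add' (hi : Function.Injective ψ) (hz : Commute x (ψ zq)) (hn : Nq ψ x) (v w : V) :
    act ψ x (v + w) = act ψ x v + act ψ x w := by
  obtain ⟨e, h1⟩ := act_spec hi hz hn ⟨v, 0⟩
  obtain ⟨f, h2⟩ := act_spec hi hz hn ⟨w, 0⟩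
  refine act_eq hi hz (q := ⟨v, 0⟩ * ⟨w, 0⟩) (q' := ⟨act ψ x v, e⟩ * ⟨act ψ x w, f⟩) ?_
  rw [map_mul, map_mul, ← h1, ← h2]; group

/-- the action of an element from its action on the generators -/
theorem act_of_gens (hi : Function.Injective ψ) (hz : Commute x (ψ zq)) {f : V → V}
    (hf : ∀ v w, f (v + w) = f v + f w)
    (h : ∀ k, (∃ e, x * ψ (aq k) * x⁻¹ = ψ ⟨f (ea k), e⟩) ∧ ∃ e, x * ψ (bq k) * x⁻¹ = ψ ⟨f (eb k), e⟩) :
    act ψ x = f := by
  have hn : Nq ψ x := Nq.of_gens fun k => ⟨let ⟨_, e⟩ := (h k).1; ⟨_, e.symm⟩, let ⟨_, e⟩ := (h k).2; ⟨_, e.symm⟩⟩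
  exact V_ext (act_add' hi hz hn) hf fun k =>
    ⟨let ⟨_, e⟩ := (h k).1; act_eq hi hz e, let ⟨_, e⟩ := (h k).2; act_eq hi hz e⟩

theorem comm_z (ψ : QM →* G) (q : QM) : Commute (ψ q) (ψ zq) := by
  rw [Commute, SemiconjBy, ← map_mul, ← map_mul, zq_comm]

namespace XQ
variable (h : XQ ψ)
include h

theorem z_ne : ψ zq ≠ 1 := fun e => zq_ne (h.inj (e.trans (map_one ψ).symm))

theorem spec (hx : Commute x (ψ zq)) (q : QM) : ∃ e, x * ψ q * x⁻¹ = ψ ⟨act ψ x q.v, e⟩ :=
  act_spec h.inj hx (h.nq x hx) q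

theorem act_add (hx : Commute x (ψ zq)) (v w : V) : act ψ x (v + w) = act ψ x v + act ψ x w :=
  act_add' h.inj hx (h.nq x hx) v w

theorem act_zero (hx : Commute x (ψ zq)) : act ψ x 0 = 0 :=
  act_eq h.inj hx (q := 1) (q' := 1) (by simp)

theorem act_one (v : V) : act ψ 1 v = v := act_eq h.inj (.one_left _) (q := ⟨v, 0⟩) (q' := ⟨v, 0⟩) (by simp)

theorem act_mul (hx : Commute x (ψ zq)) (hy : Commute y (ψ zq)) (v : V) :
    act ψ (x * y) v = act ψ x (act ψ y v) := by
  obtain ⟨e, h1⟩ := h.spec hy ⟨v, 0⟩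
  obtain ⟨f, h2⟩ := h.spec hx ⟨act ψ y v, e⟩
  refine act_eq h.inj (hx.mul_left hy) (q := ⟨v, 0⟩) (q' := ⟨act ψ x (act ψ y v), f⟩) ?_
  rw [← h2, ← h1]; group

theorem act_inv (hx : Commute x (ψ zq)) (v : V) : act ψ x⁻¹ (act ψ x v) = v := by
  rw [← h.act_mul hx.inv_left hx, inv_mul_cancel, h.act_one]

theorem act_inv' (hx : Commute x (ψ zq)) (v : V) : act ψ x (act ψ x⁻¹ v) = v := by
  rw [← h.act_mul hx hx.inv_left, mul_inv_cancel, h.act_one]

theorem act_inj (hx : Commute x (ψ zq)) : Function.Injective (act ψ x) :=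
  Function.LeftInverse.injective (h.act_inv hx)

theorem act_psi (q : QM) (v : V) : act ψ (ψ q) v = v :=
  act_eq h.inj (comm_z ψ q) (q := ⟨v, 0⟩) (q' := q * ⟨v, 0⟩ * q⁻¹) (by simp) |>.trans (by rw [QM.conj])

theorem act_coc (hx : Commute x (ψ zq)) (v : V) : coc (act ψ x v) (act ψ x v) = coc v v := by
  obtain ⟨e, h1⟩ := h.spec hx ⟨v, 0⟩
  have h2 : x * ψ (⟨v, 0⟩ * ⟨v, 0⟩) * x⁻¹ = ψ (⟨act ψ x v, e⟩ * ⟨act ψ x v, e⟩) := by
    rw [map_mul, map_mul, ← h1]; group
  rw [QM.sq, QM.sq] at h2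
  have h3 : x * ψ ⟨0, coc v v⟩ * x⁻¹ = ψ ⟨0, coc v v⟩ := by
    rcases QM.v_eq_zero (p := ⟨0, coc v v⟩) rfl with e | e <;> rw [e]
    · simp
    · rw [hx.eq, mul_inv_cancel_right]
  exact (congrArg QM.e (h.inj (h3.symm.trans h2))).symm

theorem act_B (hx : Commute x (ψ zq)) (v w : V) : B (act ψ x v) (act ψ x w) = B v w := by
  have h1 := h.act_coc hx (v + w)
  rw [h.act_add hx] at h1
  simp only [coc_add_left, coc_add_right, h.act_coc hx] at h1
  unfold B
  linear_combination h1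

/-- the centraliser of `Q` is its centre -/
theorem cent (hx : ∀ k, Commute x (ψ (aq k)) ∧ Commute x (ψ (bq k))) : x = 1 ∨ x = ψ zq := by
  have h1 : ∀ q, Commute x (ψ q) := fun q =>
    QM.ind (H := (Subgroup.centralizer {x}).comap ψ)
      (fun k => ⟨Subgroup.mem_centralizer_singleton_iff.2 (hx k).1.symm.eq,
        Subgroup.mem_centralizer_singleton_iff.2 (hx k).2.symm.eq⟩) q |> fun m =>
      (Subgroup.mem_centralizer_singleton_iff.1 m).symm
  obtain ⟨p, rfl⟩ := h.cq x (h1 _) fun v => act_eq h.inj (h1 _) (q := ⟨v, 0⟩) (q' := ⟨v, 0⟩) (by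
    rw [(h1 _).eq, mul_inv_cancel_right])
  have h2 : ∀ q : QM, B p.v q.v = 0 := fun q => (QM.comm_iff p q).1 (h.inj (by rw [map_mul, map_mul, (h1 q).eq]))
  rcases QM.v_eq_zero (B_nondeg fun k => ⟨h2 (aq k), h2 (bq k)⟩) with e | e <;> rw [e]
  · exact Or.inl (map_one ψ)
  · exact Or.inr rfl

/-- elements of order dividing three are determined by their action on `Q` -/
theorem eq_of_cube (hx : x ^ 3 = 1) (hy : y ^ 3 = 1) (hz : Commute x (ψ zq))
    (he : ∀ k, x * ψ (aq k) * x⁻¹ = y * ψ (aq k) * y⁻¹ ∧ x * ψ (bq k) * x⁻¹ = y * ψ (bq k) * y⁻¹) : x = y := by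
  have h1 : ∀ g : G, x * g * x⁻¹ = y * g * y⁻¹ → Commute (x⁻¹ * y) g := fun g e => by
    have : x⁻¹ * y * g = x⁻¹ * (y * g * y⁻¹) * y := by group
    rw [Commute, SemiconjBy, this, ← e]; group
  rcases h.cent (x := x⁻¹ * y) fun k => ⟨h1 _ (he k).1, h1 _ (he k).2⟩ with e | e
  · exact inv_mul_eq_one.1 e
  · exfalso
    rw [eq_mul_of_inv_mul_eq e, hz.mul_pow, hx, one_mul, ← map_pow] at hy
    exact h.z_ne (by rw [← hy]; congr 1)

end XQ
end

end CL.P8
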