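/-
The group `Γ0 = W(E₈)'/±1 ≅ Ω₈⁺(2)` with named elements, and `W0 = W(E₈)/±1` (helper84, S2920).
-/
import Cfsg.Agent.P8.QM
import Cfsg.Agent.P8.Mod
import Cfsg.Agent.P8.ModW
import Cfsg.Agent.Spor.XW4

set_option autoImplicit false

namespace CL.P8
open CL.PG Cfsg

/-! ### expressions -/

/-- group expressions in numbered letters -/
inductive Ex where
  | l (i : ℕ) : Ex
  | one : Ex
  | mul (x y : Ex) : Ex
  | inv (x : Ex) : Ex
  | pow (x : Ex) (n : ℕ) : Ex

instance : One Ex := ⟨.one⟩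
instance : Mul Ex := ⟨.mul⟩
instance : Inv Ex := ⟨.inv⟩
instance : Pow Ex ℕ := ⟨.pow⟩

/-- the value of an expression -/
def Ex.ev {K : Type*} [Group K] (g : ℕ → K) : Ex → K
  | .l i => g i
  | .one => 1
  | .mul x y => x.ev g * y.ev g
  | .inv x => (x.ev g)⁻¹
  | .pow x n => x.ev g ^ n

/-- the word of an expression -/
noncomputable def Ex.wd : Ex → List ℕ :=
  Ex.rec (fun i => [Nat.mul 2 i]) [] (fun _ _ u v => app u v) (fun _ u => invW u) (fun _ n u => powW u n)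

theorem Ex.ev_eq {K : Type*} [Group K] (gs : List K) : ∀ x : Ex, x.ev (fun i => gs.getD i 1) = wordG gs x.wd
  | .l i => by show _ = wordG gs [2 * i]; rw [wordG_single, letG_even]; rfl
  | .one => rfl
  | .mul x y => by show _ = wordG gs (app x.wd y.wd); rw [wordG_app, ← x.ev_eq, ← y.ev_eq]; rfl
  | .inv x => by show _ = wordG gs (invW x.wd); rw [wordG_invW, ← x.ev_eq]; rfl
  | .pow x n => by show _ = wordG gs (powW x.wd n); rw [wordG_powW, ← x.ev_eq]; rfl

theorem Ex.map_ev {K L : Type*} [Group K] [Group L] (f : K →* L) (g : ℕ → K) :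
    ∀ x : Ex, f (x.ev g) = x.ev (fun i => f (g i))
  | .l _ => rfl
  | .one => map_one f
  | .mul x y => by show f (_ * _) = _; rw [map_mul, x.map_ev, y.map_ev]; rfl
  | .inv x => by show f _⁻¹ = _; rw [map_inv, x.map_ev]; rfl
  | .pow x n => by show f (_ ^ n) = _; rw [map_pow, x.map_ev]; rfl

theorem subW_lets {K : Type*} [Group K] (gs : List K) (l : List ℕ) :
    subW gs (l.map fun i => [2 * i]) = Subgroup.closure {x | x ∈ l.map fun i => gs.getD i 1} := by
  refine le_antisymm (subW_le.2 fun w hw => ?_) ((Subgroup.closure_le _).2 fun x hx => ?_)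
  · obtain ⟨i, hi, rfl⟩ := List.mem_map.1 hw
    rw [wordG_single, letG_even]
    exact Subgroup.subset_closure (List.mem_map.2 ⟨i, hi, rfl⟩)
  · obtain ⟨i, hi, rfl⟩ := List.mem_map.1 hx
    rw [← letG_even, ← wordG_single]
    exact mem_subW (List.mem_map.2 ⟨i, hi, rfl⟩)

section
variable {n : ℕ} (L : List (Equiv.Perm (Fin n)))

/-- the letters as elements of the group they generate -/
def lifts : List (Subgroup.closure {g | g ∈ L}) := L.pmap (fun g h => ⟨g, h⟩) fun _ hg => Subgroup.subset_closure hg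

theorem lifts_map : (lifts L).map (Subgroup.closure {g | g ∈ L}).subtype = L := by
  simp [lifts, List.map_pmap]

theorem lifts_top : Subgroup.closure {g | g ∈ lifts L} = ⊤ := by
  apply Subgroup.map_injective (Subgroup.closure {g | g ∈ L}).subtype_injective
  rw [MonoidHom.map_closure, ← MonoidHom.range_eq_map, Subgroup.range_subtype]
  congr 1
  ext x
  conv_rhs => rw [← lifts_map L]
  simp

theorem lifts_faithful [NeZero n] : Faithful (eF n) n (⊤ : Subgroup (Subgroup.closure {g | g ∈ L})) :=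
  fun g _ h => Subtype.ext (faithful_eF n g trivial h)

theorem lifts_ctx {P : Par} [NeZero P.n] (hP : P.Ok) {ns : List Net} (h : allL (keepB P.n P.N) ns = true) :
    Ctx P (eF P.n) (lifts (permsOf P.n P.N ns)) ns [] chk0 :=
  Ctx.mk0 hP (injLt_eF _) (Good.comap (Subgroup.subtype _) (fun _ _ => rfl)
    (by rw [lifts_map]; exact good_permsOf hP.1 h))

end

theorem getD_ext_lifts {n : ℕ} (L : List (Equiv.Perm (Fin n))) (ws : List (List ℕ)) {i : ℕ} (hi : i < L.length) :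
    (((ext (lifts L) ws).getD i 1 : Subgroup.closure {g | g ∈ L}) : Equiv.Perm (Fin n)) = L.getD i 1 := by
  have h1 : (lifts L).length = L.length := by simp [lifts]
  obtain ⟨t, ht⟩ := ext_prefix (lifts L) ws
  rw [← ht, List.getD_append _ _ _ _ (h1 ▸ hi)]
  conv_rhs => rw [← lifts_map L]
  exact (List.getD_map (lifts L) 1 (Subgroup.closure {g | g ∈ L}).subtype).symm

/-! ### the group `Γ0` -/

noncomputable section

/-- `W(E₈)'/±1` -/
def Γs : Subgroup (Equiv.Perm (Fin M.P.n)) := Subgroup.closure {g | g ∈ M.gs0}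

/-- `W(E₈)'/±1` as a type -/
def Γ0 : Type := Γs

instance grpΓ0 : Group Γ0 := inferInstanceAs (Group Γs)
instance : Finite Γ0 := inferInstanceAs (Finite Γs)
instance : MulAction Γ0 (Fin M.P.n) := inferInstanceAs (MulAction Γs (Fin M.P.n))

def gs : List Γ0 := ext (lifts M.gs0 : List Γ0) M.ws

theorem c0 : Ctx M.P (eF M.P.n) gs M.ns M.D M.chk :=
  M.ctx (G := Γ0) (lifts_ctx M.hP M.keep0) (lifts_faithful M.gs0) fun _ _ => trivial

/-- the letters -/
def g (i : ℕ) : Γ0 := gs.getD i 1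

theorem ev_wd (x : Ex) : x.ev g = wordG gs x.wd := Ex.ev_eq gs x

theorem g_wd (i : ℕ) : g i = wordG gs [2 * i] := ev_wd (.l i)

/-- the subgroup generated by some letters -/
def gen (l : List ℕ) : Subgroup Γ0 := Subgroup.closure {x | x ∈ l.map g}

theorem gen_eq (l : List ℕ) : gen l = subW gs (l.map fun i => [2 * i]) := (subW_lets gs l).symm

theorem gen_67 : subW gs (gensW 67) = ⊤ :=
  (subW_eq_closure (M.len (G := Γ0) (lifts_ctx M.hP M.keep0)) M.ws rfl).trans (lifts_top M.gs0)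

/-- the underlying permutation -/
def pΓ : Γ0 →* Equiv.Perm (Fin 120) := Γs.subtype

theorem pΓ_inj : Function.Injective pΓ := Γs.subtype_injective

set_option maxRecDepth 20000 in
theorem pΓ_g {i : ℕ} (hi : i < 15) : pΓ (g i) = (permsOf 120 128 M.ns0).getD i 1 :=
  getD_ext_lifts M.gs0 M.ws (hi.trans_le (by simp [M.gs0, permsOf, M.ns0]))

attribute [irreducible] g pΓ grpΓ0 gs

/-- relations in `Γ0`; the hypothesis is proved by `decide +kernel` -/
theorem rel (x y : Ex) (h : M.chk [(x.wd, y.wd)] = true) : x.ev g = y.ev g := by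
  rw [ev_wd, ev_wd]; exact c0.eq h

/-- non-trivial elements of `Γ0`; the hypothesis is proved by `decide +kernel` -/
theorem ne1 (x : Ex) (h : (List.range 120).any (fun i => movB M.P.n M.P.N M.ns x.wd i) = true) : x.ev g ≠ 1 := by
  obtain ⟨i, -, hi⟩ := List.any_eq_true.1 h
  rw [ev_wd]; exact c0.ne_one hi

namespace X
/-- names of the letters as expressions -/
abbrev a (k : Fin 4) : Ex := .l k
abbrev b (k : Fin 4) : Ex := .l (4 + k)
abbrev d1 : Ex := .l 8
abbrev d2 : Ex := .l 9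
abbrev d3 : Ex := .l 10
abbrev s1 : Ex := .l 11
abbrev s2 : Ex := .l 12
abbrev s3 : Ex := .l 13
abbrev n0 : Ex := .l 14
abbrev z : Ex := .l 15
abbrev zp : Ex := .l 16
abbrev sA : Ex := .l 17
abbrev sB : Ex := .l 18
abbrev e1 : Ex := .l 19
abbrev e2 : Ex := .l 20
abbrev w1 : Ex := .l 21
abbrev w2 : Ex := .l 22
abbrev w3 : Ex := .l 23
abbrev w4 : Ex := .l 24
abbrev x1 : Ex := .l 25
abbrev x2 : Ex := .l 26
abbrev x3 : Ex := .l 27
abbrev x4 : Ex := .l 28
abbrev ro : Ex := .l 29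
abbrev hh : Ex := .l 30
abbrev t1 : Ex := .l 31
abbrev t2 : Ex := .l 32
abbrev t3 : Ex := .l 33
abbrev t2m : Ex := .l 34
abbrev t3m : Ex := .l 35
abbrev k1 : Ex := .l 36
abbrev k2 : Ex := .l 37
abbrev k3 : Ex := .l 38
abbrev k2m : Ex := .l 39
abbrev k3m : Ex := .l 40
abbrev g89 : Ex := .l 41
abbrev g56 : Ex := .l 42
abbrev g59 : Ex := .l 43
abbrev g69 : Ex := .l 44
abbrev g67 : Ex := .l 45
abbrev g12 : Ex := .l 46
abbrev g34 : Ex := .l 47
abbrev g39 : Ex := .l 48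
abbrev g49 : Ex := .l 49
abbrev g29 : Ex := .l 50
abbrev g23 : Ex := .l 51
abbrev g45 : Ex := .l 52
abbrev cj (i : ℕ) : Ex := .l (53 + i)
/-- the reflection, a letter of `W0` only -/
abbrev r : Ex := .l 15
end X

section
/-- names of the letters as elements of `Γ0` -/
abbrev a (k : Fin 4) : Γ0 := g k
abbrev b (k : Fin 4) : Γ0 := g (4 + k)
abbrev d1 : Γ0 := g 8
abbrev d2 : Γ0 := g 9
abbrev d3 : Γ0 := g 10
abbrev s1 : Γ0 := g 11
abbrev s2 : Γ0 := g 12
abbrev s3 : Γ0 := g 13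
abbrev n0 : Γ0 := g 14
abbrev z : Γ0 := g 15
abbrev zp : Γ0 := g 16
abbrev sA : Γ0 := g 17
abbrev sB : Γ0 := g 18
abbrev e1 : Γ0 := g 19
abbrev e2 : Γ0 := g 20
abbrev w1 : Γ0 := g 21
abbrev w2 : Γ0 := g 22
abbrev w3 : Γ0 := g 23
abbrev w4 : Γ0 := g 24
abbrev x1 : Γ0 := g 25
abbrev x2 : Γ0 := g 26
abbrev x3 : Γ0 := g 27
abbrev x4 : Γ0 := g 28
abbrev ro : Γ0 := g 29
abbrev hh : Γ0 := g 30
abbrev t1 : Γ0 := g 31
abbrev t2 : Γ0 := g 32
abbrev t3 : Γ0 := g 33
abbrev t2m : Γ0 := g 34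
abbrev t3m : Γ0 := g 35
abbrev k1 : Γ0 := g 36
abbrev k2 : Γ0 := g 37
abbrev k3 : Γ0 := g 38
abbrev k2m : Γ0 := g 39
abbrev k3m : Γ0 := g 40
abbrev g89 : Γ0 := g 41
abbrev g56 : Γ0 := g 42
abbrev g59 : Γ0 := g 43
abbrev g69 : Γ0 := g 44
abbrev g67 : Γ0 := g 45
abbrev g12 : Γ0 := g 46
abbrev g34 : Γ0 := g 47
abbrev g39 : Γ0 := g 48
abbrev g49 : Γ0 := g 49
abbrev g29 : Γ0 := g 50
abbrev g23 : Γ0 := g 51
abbrev g45 : Γ0 := g 52
abbrev cj (i : ℕ) : Γ0 := g (53 + i)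
end

theorem mem_gen {l : List ℕ} {i : ℕ} (h : i ∈ l) : g i ∈ gen l := Subgroup.subset_closure (List.mem_map.2 ⟨i, h, rfl⟩)

theorem gen_le {l : List ℕ} {H : Subgroup Γ0} (h : ∀ i ∈ l, g i ∈ H) : gen l ≤ H :=
  (Subgroup.closure_le _).2 fun _ hx => let ⟨i, hi, e⟩ := List.mem_map.1 hx; e ▸ h i hi

theorem gen_all : gen (List.range 15) = ⊤ := by
  rw [gen_eq, eq_top_iff, ← gen_67]
  exact M.all_le c0

theorem card_Γ0 : Nat.card Γ0 = 174182400 := by
  rw [← Subgroup.card_top, ← gen_all, gen_eq]; exact M.G_card c0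

theorem iso_Γ0 {F : Type*} [Field F] [Fintype F] (hF : Fintype.card F = 2) :
    Nonempty (Γ0 ≃* Omega F (quadFormPlus 4 F)) := by
  obtain ⟨f⟩ := M.iso c0
  obtain ⟨k⟩ := Std.O8p2.iso hF
  exact ⟨(Subgroup.topEquiv.symm.trans (MulEquiv.subgroupCongr (gen_all.symm.trans (gen_eq _)))).trans (f.trans k)⟩

/-- `Q = ⟨a k, b k⟩` -/
def Qg : Subgroup Γ0 := gen (List.range 8)
/-- the Sylow 2-subgroup `⟨Q, s1, s2, s3⟩` -/
def S0 : Subgroup Γ0 := gen [0, 1, 2, 3, 4, 5, 6, 7, 11, 12, 13]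
/-- `⟨Q, d1, d2, d3, s1, s2, s3⟩` -/
def C0 : Subgroup Γ0 := gen (List.range 14)
/-- `C_{S0}(zp)` -/
def T0 : Subgroup Γ0 := S0 ⊓ Subgroup.centralizer {zp}
/-- `⟨e1, e2, a 2, b 2, a 3, b 3, w1⟩` -/
def TT : Subgroup Γ0 := gen [19, 20, 2, 6, 3, 7, 21]
/-- `⟨a 2, b 2, a 3, b 3, w1⟩` -/
def T1 : Subgroup Γ0 := gen [2, 6, 3, 7, 21]

theorem card_S0 : Nat.card S0 = 4096 := by rw [S0, gen_eq]; exact M.S0_card c0
theorem card_C0 : Nat.card C0 = 110592 := by rw [C0, gen_eq]; exact M.C0_card c0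
theorem card_TT : Nat.card TT = 256 := by rw [TT, gen_eq]; exact M.T_card c0
theorem card_T1 : Nat.card T1 = 64 := by rw [T1, gen_eq]; exact M.T1_card c0
theorem core_C0 : pCoreOf 2 C0 = Qg := by rw [C0, Qg, gen_eq, gen_eq]; exact M.core c0

theorem T0_eq : T0 = subW gs [[22], [24], [26], [414], [416], [418], [420], [422], [424], [426]] := by
  rw [← M.T0_eq c0, T0, S0, gen_eq]
  congr 1
  ext x
  rw [centralizer_subW, Subgroup.mem_centralizer_singleton_iff]
  simp only [List.mem_singleton, forall_eq]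
  rw [show wordG gs [32] = zp from (g_wd 16).symm]

theorem card_T0 : Nat.card T0 = 2048 := by rw [T0_eq]; exact M.T0_card c0

theorem n0_T0 : n0 ∈ Subgroup.normalizer (T0 : Set Γ0) := by
  rw [T0_eq]
  refine M.T0_n0 c0 ?_
  rw [show n0 = wordG gs [28] from g_wd 14]
  exact mem_subW (by simp)

theorem cube_T0 : (n0 * a 0) ^ 3 ∈ T0 := by
  rw [T0_eq]
  refine M.T0_cube c0 ?_
  have e : (n0 * a 0) ^ 3 = wordG gs ((X.n0 * X.a 0) ^ 3).wd := (ev_wd ((X.n0 * X.a 0) ^ 3) :)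
  rw [e]
  exact mem_subW (List.mem_singleton.2 (by decide +kernel))

/-- `T1` is isomorphic to a subgroup of order 64 of `A₈` -/
theorem T1_A8 : ∃ Y : Subgroup (Equiv.Perm (Fin 8)), Y ≤ alternatingGroup (Fin 8) ∧ Nonempty (T1 ≃* Y) := by
  have c' := A8.xctx Std.A8.c1 (faithful_eF _) fun _ _ => trivial
  refine ⟨subW (ext Std.A8.gs1 A8.xws) [[20], [22], [24]], (A8.xY_le c').trans ?_, ?_⟩
  · rw [← Std.A8.eq]
    exact (subW_ext (b := 10) (Std.A8.c1.good.length_eq (by decide +kernel)) _ (by decide +kernel)).le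
  · have e : T1 = subW gs [[534], [536], [538]] := by rw [T1, gen_eq]; exact (M.X_eq c0).symm
    rw [e]
    exact (M.toA8 c0 c' ((faithful_eF _).mono le_top)).equiv_of_card (UB.of_card (e ▸ card_T1) (by norm_num))
      (LB.of_card (A8.xY_card c'))

/-- the nodes of the diagram generate `Γ0` -/
theorem gen_nodes {H : Subgroup Γ0} (h : ∀ x ∈ [g56, g45, g34, g23, g12, w1, g89, z], x * g67⁻¹ ∈ H) : H = ⊤ := by
  have h1 : subW gs [[552], [554], [556], [558], [560], [562], [564], [566]] ≤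
      subW gs [[84, 91], [104, 91], [94, 91], [102, 91], [92, 91], [42, 91], [82, 91], [30, 91]] :=
    subW_le_of_rels (c0.rels _ (by decide +kernel))
  have h2 := (UB.top_of_card card_Γ0 (by norm_num) ⊤).eq_of_lb (M.U_lb c0) le_top
  rw [eq_top_iff, ← h2]
  refine h1.trans (subW_le.2 ?_)
  have e : ∀ i, wordG gs [2 * i, 91] = g i * g67⁻¹ := fun i => (ev_wd (.mul (.l i) (.inv X.g67))).symm
  simp only [List.forall_mem_cons] at h ⊢
  exact ⟨e 42 ▸ h.1, e 52 ▸ h.2.1, e 47 ▸ h.2.2.1, e 51 ▸ h.2.2.2.1, e 46 ▸ h.2.2.2.2.1, e 21 ▸ h.2.2.2.2.2.1,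
    e 41 ▸ h.2.2.2.2.2.2.1, e 15 ▸ h.2.2.2.2.2.2.2.1, by simp⟩

instance simple_Γ0 : IsSimpleGroup Γ0 :=
  haveI := CL.XW.simple_o8
  (iso_Γ0 (F := ZMod 2) (ZMod.card 2)).some.isSimpleGroup

theorem q8s : Q8s z a b where
  zz := rel (X.z * X.z) 1 (by decide +kernel)
  aa k := rel (X.a k * X.a k) X.z (by revert k; decide +kernel)
  bb k := rel (X.b k * X.b k) X.z (by revert k; decide +kernel)
  ba k := rel (X.b k * X.a k) (X.a k * X.b k * X.z) (by revert k; decide +kernel)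
  caa j k h := rel (X.a j * X.a k) (X.a k * X.a j) (by revert j k; decide +kernel)
  cab j k h := rel (X.a j * X.b k) (X.b k * X.a j) (by revert j k; decide +kernel)
  cbb j k h := rel (X.b j * X.b k) (X.b k * X.b j) (by revert j k; decide +kernel)

/-- the coordinates of `Q` -/
def φ : QM →* Γ0 := q8s.hom

theorem φ_z : φ zq = z := q8s.hom_z
theorem φ_a (k : Fin 4) : φ (aq k) = a k := q8s.hom_a k
theorem φ_b (k : Fin 4) : φ (bq k) = b k := q8s.hom_b k

theorem z_ne : z ≠ 1 := ne1 X.z (by decide +kernel)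

theorem φ_inj : Function.Injective φ := QM.injective (by rw [φ_z]; exact z_ne)

theorem φ_range : φ.range = Qg := by
  refine le_antisymm ?_ (gen_le fun i hi => ?_)
  · rintro _ ⟨q, rfl⟩
    refine QM.ind (H := Qg.comap φ) (fun k => ⟨?_, ?_⟩) q
    · rw [Subgroup.mem_comap, φ_a]; exact mem_gen (List.mem_range.2 (by omega))
    · rw [Subgroup.mem_comap, φ_b]; exact mem_gen (List.mem_range.2 (by omega))
  · have := List.mem_range.1 hi
    by_cases h : i < 4
    · exact ⟨_, φ_a ⟨i, h⟩⟩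
    · refine ⟨_, (φ_b ⟨i - 4, by omega⟩).trans ?_⟩
      exact congrArg g (show 4 + (i - 4) = i by omega)

/-- the expression of an element of `Q` -/
def qx (q : QM) : Ex := X.a 0 ^ (q.v 0).1.val * X.b 0 ^ (q.v 0).2.val * (X.a 1 ^ (q.v 1).1.val * X.b 1 ^ (q.v 1).2.val) *
    (X.a 2 ^ (q.v 2).1.val * X.b 2 ^ (q.v 2).2.val) * (X.a 3 ^ (q.v 3).1.val * X.b 3 ^ (q.v 3).2.val) * X.z ^ q.e.val

theorem qx_ev (q : QM) : (qx q).ev g = φ q := rfl

/-! ### the group `W0` -/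

/-- `W(E₈)/±1` -/
def Ws : Subgroup (Equiv.Perm (Fin MW.P.n)) := Subgroup.closure {g | g ∈ MW.gs0}

/-- `W(E₈)/±1` as a type -/
def W0 : Type := Ws

instance grpW0 : Group W0 := inferInstanceAs (Group Ws)
instance : Finite W0 := inferInstanceAs (Finite Ws)
instance : MulAction W0 (Fin MW.P.n) := inferInstanceAs (MulAction Ws (Fin MW.P.n))

def gsW : List W0 := ext (lifts MW.gs0 : List W0) MW.ws

theorem cW : Ctx MW.P (eF MW.P.n) gsW MW.ns MW.D MW.chk :=
  MW.ctx (G := W0) (lifts_ctx MW.hP MW.keep0) (lifts_faithful MW.gs0) fun _ _ => trivial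

/-- the letters of `W0`: `0, …, 14` as in `Γ0`, `15` the reflection `r`, `16` is `z` -/
def gW (i : ℕ) : W0 := gsW.getD i 1

theorem ev_wdW (x : Ex) : x.ev gW = wordG gsW x.wd := Ex.ev_eq gsW x

theorem gW_wd (i : ℕ) : gW i = wordG gsW [2 * i] := ev_wdW (.l i)

def genW (l : List ℕ) : Subgroup W0 := Subgroup.closure {x | x ∈ l.map gW}

theorem genW_eq (l : List ℕ) : genW l = subW gsW (l.map fun i => [2 * i]) := (subW_lets gsW l).symm

theorem genW_all : genW (List.range 16) = ⊤ := by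
  rw [genW_eq]
  exact (subW_eq_closure (MW.len (G := W0) (lifts_ctx MW.hP MW.keep0)) MW.ws rfl).trans (lifts_top MW.gs0)

/-- the underlying permutation -/
def pW : W0 →* Equiv.Perm (Fin 120) := Ws.subtype

theorem pW_inj : Function.Injective pW := Ws.subtype_injective

set_option maxRecDepth 20000 in
theorem pW_g {i : ℕ} (hi : i < 15) : pW (gW i) = (permsOf 120 128 MW.ns0).getD i 1 :=
  getD_ext_lifts MW.gs0 MW.ws (hi.trans_le (by simp [MW.gs0, permsOf, MW.ns0]))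

attribute [irreducible] gW pW grpW0 gsW

theorem relW (x y : Ex) (h : MW.chk [(x.wd, y.wd)] = true) : x.ev gW = y.ev gW := by
  rw [ev_wdW, ev_wdW]; exact cW.eq h

theorem ne1W (x : Ex) (h : (List.range 120).any (fun i => movB MW.P.n MW.P.N MW.ns x.wd i) = true) : x.ev gW ≠ 1 := by
  obtain ⟨i, -, hi⟩ := List.any_eq_true.1 h
  rw [ev_wdW]; exact cW.ne_one hi

theorem mem_genW {l : List ℕ} {i : ℕ} (h : i ∈ l) : gW i ∈ genW l :=
  Subgroup.subset_closure (List.mem_map.2 ⟨i, h, rfl⟩)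

theorem genW_le {l : List ℕ} {H : Subgroup W0} (h : ∀ i ∈ l, gW i ∈ H) : genW l ≤ H :=
  (Subgroup.closure_le _).2 fun _ hx => let ⟨i, hi, e⟩ := List.mem_map.1 hx; e ▸ h i hi

theorem card_W0 : Nat.card W0 = 348364800 := by
  rw [← Subgroup.card_top, ← genW_all, genW_eq]; exact MW.W_card cW

theorem p_let {i : ℕ} (hi : i < 15) : pΓ (g i) = pW (gW i) := by
  have e : ∀ ns : List Net, (permsOf 120 128 ns).getD i 1 = ((ns.take 15).map (permOf 120 128)).getD i 1 := fun ns => by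
    simp [permsOf, List.getD_eq_getElem?_getD, hi]
  have e' : M.ns0.take 15 = MW.ns0.take 15 := by
    simp only [M.ns0, MW.ns0, List.take_succ_cons, List.take_zero]
    rfl
  rw [pΓ_g hi, pW_g hi, e, e, e']

theorem pΓ_le : pΓ.range ≤ pW.range := by
  rw [MonoidHom.range_eq_map, ← gen_all, Subgroup.map_le_iff_le_comap]
  exact gen_le fun i hi => ⟨gW i, (p_let (List.mem_range.1 hi)).symm⟩

/-- the inclusion -/
def inc : Γ0 →* W0 := ((MonoidHom.ofInjective pW_inj).symm.toMonoidHom.comp (Subgroup.inclusion pΓ_le)).comp pΓ.rangeRestrict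

theorem pW_inc (x : Γ0) : pW (inc x) = pΓ x :=
  congrArg Subtype.val ((MonoidHom.ofInjective pW_inj).apply_symm_apply ⟨pΓ x, pΓ_le ⟨x, rfl⟩⟩)

attribute [irreducible] inc

theorem inc_inj : Function.Injective inc := fun x y h => pΓ_inj (by rw [← pW_inc, h, pW_inc])

theorem inc_g {i : ℕ} (hi : i < 15) : inc (g i) = gW i := pW_inj (by rw [pW_inc, p_let hi])

theorem inc_gen {l : List ℕ} (h : ∀ i ∈ l, i < 15) : (gen l).map inc = genW l := by
  rw [gen, genW, MonoidHom.map_closure]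
  congr 1
  ext x
  simp only [List.mem_map, Set.mem_image, Set.mem_setOf_eq]
  exact ⟨fun ⟨_, ⟨i, hi, e⟩, e'⟩ => ⟨i, hi, by rw [← e', ← e, inc_g (h i hi)]⟩,
    fun ⟨i, hi, e⟩ => ⟨_, ⟨i, hi, rfl⟩, (inc_g (h i hi)).trans e⟩⟩

theorem inc_range : inc.range = genW (List.range 15) := by
  rw [MonoidHom.range_eq_map, ← gen_all, inc_gen fun _ => List.mem_range.1]

theorem inc_z : inc z = gW 16 := by
  rw [← q8s.aa 0, map_mul, inc_g (by decide)]
  exact relW (X.a 0 * X.a 0) (.l 16) (by decide +kernel)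

/-- the reflection -/
abbrev r : W0 := gW 15

theorem cent_W0 {x : W0} (h : ∀ y : Γ0, Commute x (inc y)) : x = 1 := by
  have h1 := MW.cent cW
  rw [subW_nil] at h1
  refine Subgroup.mem_bot.1 (h1 ▸ ⟨?_, ?_⟩)
  · have := genW_all; rw [genW_eq] at this; exact this.ge trivial
  · have := inc_range
    rw [genW_eq] at this
    intro y hy
    obtain ⟨y, rfl⟩ := this.ge hy
    exact (h y).eq.symm

/-- the Sylow 2-subgroup `⟨Q, s1, s2, s3, r⟩` -/
def SW : Subgroup W0 := genW [0, 1, 2, 3, 4, 5, 6, 7, 11, 12, 13, 15]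
/-- `⟨Q, d1, d2, d3, s1, s2, s3, r⟩` -/
def CW : Subgroup W0 := genW [0, 1, 2, 3, 4, 5, 6, 7, 8, 9, 10, 11, 12, 13, 15]
/-- `C_{SW}(r)`: `r, s2, s3, a 2, b 2, a 3, b 3, a 0 * (b 1)⁻¹, b 0 * (a 1)⁻¹, z` -/
def RW : Subgroup W0 := genW [15, 12, 13, 2, 6, 3, 7, 17, 18, 16]

theorem card_SW : Nat.card SW = 8192 := by rw [SW, genW_eq]; exact MW.S_card cW
theorem card_RW : Nat.card RW = 1024 := by rw [RW, genW_eq]; exact MW.R_card cW
theorem core_CW : pCoreOf 2 CW = Qg.map inc := by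
  rw [CW, Qg, inc_gen fun _ h => (List.mem_range.1 h).trans (by decide), genW_eq, genW_eq]; exact MW.core cW

theorem RW_le : RW ≤ SW := by rw [RW, SW, genW_eq, genW_eq]; exact cW.le (by decide +kernel)

theorem RW_r {x : W0} (h : x ∈ RW) : Commute x r := by
  rw [RW, genW_eq] at h
  exact MW.R_r cW x h _ (by rw [show r = wordG gsW [30] from gW_wd 15]; exact mem_subW (by simp))

theorem RW_lcs : ⁅⁅⁅RW, RW⁆, RW⁆, RW⁆ = Subgroup.zpowers (inc z) := by
  rw [RW, genW_eq, inc_z]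
  refine Eq.trans ?_ ((genW_eq [16]).symm.trans (by simp [genW, Subgroup.zpowers_eq_closure]))
  exact (congrArg (⁅·, _⁆) ((congrArg (⁅·, _⁆) (MW.com2 cW)).trans (MW.com3 cW))).trans (MW.com4 cW)

end

end CL.P8
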