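/-
Project P8 (S2920): groups with a subgroup `Ω₈⁺(2)` of odd index. Definitions and basic tools (helper84).
-/
import Cfsg.Agent.P8.Gam
import Cfsg.Agent.P8.FinDefs
import Cfsg.Prelude.Def_CaseTheorems

set_option autoImplicit false

namespace CL.P8
open CL.PG Cfsg Subgroup

universe u

/-! ### maps of `V` -/

/-- `a ↦ b ↦ a b ↦ a` -/
def R2 (p : P2) : P2 := (p.2, p.1 + p.2)
/-- `a ↔ b` -/
def Sw (p : P2) : P2 := (p.2, p.1)
/-- `b ↔ a b` -/
def Fw (p : P2) : P2 := (p.1 + p.2, p.2)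
/-- the elements of `3⁴` -/
def rot (t : Fin 4 → ZMod 3) (v : V) : V := fun k => R2^[(t k).val] (v k)

/-- the Klein four-group on the four blocks -/
def InV4 (σ : Equiv.Perm (Fin 4)) : Prop := σ = 1 ∨ σ = Equiv.swap 0 1 * Equiv.swap 2 3 ∨
  σ = Equiv.swap 0 2 * Equiv.swap 1 3 ∨ σ = Equiv.swap 0 3 * Equiv.swap 1 2

instance (σ : Equiv.Perm (Fin 4)) : Decidable (InV4 σ) := by unfold InV4; infer_instance

def qe1 : QM := ⟨![(1, 0), (1, 0), 0, 0], 1⟩
def qe2 : QM := ⟨![(0, 1), (1, 1), 0, 0], 0⟩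
def qzp : QM := ⟨![(1, 1), (1, 1), (1, 1), (1, 1)], 0⟩

theorem φ_e1 : φ qe1 = e1 := rel (qx qe1) X.e1 (by decide +kernel)
theorem φ_e2 : φ qe2 = e2 := rel (qx qe2) X.e2 (by decide +kernel)
theorem φ_zp : φ qzp = zp := rel (qx qzp) X.zp (by decide +kernel)

theorem blk_add {f : P2 → P2} (h : ∀ p q, f (p + q) = f p + f q) (τ : Fin 4 → Fin 4) (v w : V) :
    (fun k => f ((v + w) (τ k))) = (fun k => f (v (τ k))) + fun k => f (w (τ k)) := funext fun _ => h _ _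

theorem rot_add (t : Fin 4 → ZMod 3) (v w : V) : rot t (v + w) = rot t v + rot t w := by
  have h : ∀ (s : ZMod 3) (p q : P2), R2^[s.val] (p + q) = R2^[s.val] p + R2^[s.val] q := by decide +kernel
  exact funext fun k => h _ _ _

theorem rot_rot (s t : Fin 4 → ZMod 3) (v : V) : rot s (rot t v) = rot (s + t) v := by
  have h : ∀ (s t : ZMod 3) (p : P2), R2^[s.val] (R2^[t.val] p) = R2^[(s + t).val] p := by decide +kernel
  exact funext fun k => h _ _ _

theorem rot_zero (v : V) : rot 0 v = v := rfl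

section
variable {G : Type*} [Group G]

theorem psi_z (ι : Γ0 →* G) : (ι.comp φ) zq = ι z := congrArg ι φ_z

/-- the action of an expression on `V`; the last two hypotheses are proved by `decide +kernel` -/
theorem act_ex {ι : Γ0 →* G} (hi : Function.Injective ι) (x : Ex) {f : V → V} (hf : ∀ v w, f (v + w) = f v + f w)
    (hz : M.chk [((x * X.z).wd, (X.z * x).wd)] = true)
    (h : ∀ k, (∃ e, M.chk [((x * X.a k * x⁻¹).wd, (qx ⟨f (ea k), e⟩).wd)] = true) ∧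
      ∃ e, M.chk [((x * X.b k * x⁻¹).wd, (qx ⟨f (eb k), e⟩).wd)] = true) :
    act (ι.comp φ) (ι (x.ev g)) = f := by
  have h0 : x.ev g * z = z * x.ev g := rel (x * X.z) (X.z * x) hz
  refine act_of_gens (hi.comp φ_inj) (psi_z ι ▸ (show Commute _ _ from h0).map ι) hf fun k => ⟨?_, ?_⟩
  · obtain ⟨e, he⟩ := (h k).1
    have : x.ev g * a k * (x.ev g)⁻¹ = φ ⟨f (ea k), e⟩ := rel (x * X.a k * x⁻¹) _ he
    exact ⟨e, by rw [MonoidHom.comp_apply, MonoidHom.comp_apply, φ_a, ← this, map_mul, map_mul, map_inv]⟩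
  · obtain ⟨e, he⟩ := (h k).2
    have : x.ev g * b k * (x.ev g)⁻¹ = φ ⟨f (eb k), e⟩ := rel (x * X.b k * x⁻¹) _ he
    exact ⟨e, by rw [MonoidHom.comp_apply, MonoidHom.comp_apply, φ_b, ← this, map_mul, map_mul, map_inv]⟩

variable {ι : Γ0 →* G}

theorem act_s1 (hi : Function.Injective ι) : act (ι.comp φ) (ι s1) = fun v k => v (![2, 3, 0, 1] k) :=
  act_ex hi X.s1 (blk_add (f := id) (fun _ _ => rfl) _) (by decide +kernel) (by decide +kernel)

theorem act_s2 (hi : Function.Injective ι) : act (ι.comp φ) (ι s2) = fun v k => v (![1, 0, 3, 2] k) :=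
  act_ex hi X.s2 (blk_add (f := id) (fun _ _ => rfl) _) (by decide +kernel) (by decide +kernel)

theorem act_s3 (hi : Function.Injective ι) : act (ι.comp φ) (ι s3) = fun v k => Sw (v k) :=
  act_ex hi X.s3 (blk_add (f := Sw) (fun _ _ => rfl) id) (by decide +kernel) (by decide +kernel)

theorem act_d1 (hi : Function.Injective ι) : act (ι.comp φ) (ι d1) = rot ![1, 1, 0, 0] :=
  act_ex hi X.d1 (rot_add _) (by decide +kernel) (by decide +kernel)

theorem act_d2 (hi : Function.Injective ι) : act (ι.comp φ) (ι d2) = rot ![1, 0, 1, 0] :=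
  act_ex hi X.d2 (rot_add _) (by decide +kernel) (by decide +kernel)

theorem act_d3 (hi : Function.Injective ι) : act (ι.comp φ) (ι d3) = rot ![0, 0, 1, 1] :=
  act_ex hi X.d3 (rot_add _) (by decide +kernel) (by decide +kernel)

theorem act_w1 (hi : Function.Injective ι) : act (ι.comp φ) (ι w1) = fun v k => Fw (v (![1, 0, 3, 2] k)) :=
  act_ex hi X.w1 (blk_add (f := Fw) (by decide +kernel) _) (by decide +kernel) (by decide +kernel)

theorem C0_z {x : Γ0} (h : x ∈ C0) : Commute x z := by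
  have : C0 ≤ centralizer {z} := gen_le fun i hi => mem_centralizer_singleton_iff.2
    (rel (Ex.l i * X.z) (X.z * Ex.l i) (by revert i; decide +kernel))
  exact mem_centralizer_singleton_iff.1 (this h)

theorem S0_le : S0 ≤ C0 := gen_le fun i hi => mem_gen (by revert i; decide)

theorem Qg_le : Qg ≤ S0 := gen_le fun i hi => mem_gen (by revert i; decide)

theorem inc_ev : ∀ x : Ex, (∀ c ∈ x.wd, c < 30) → inc (x.ev g) = x.ev gW := fun x hx => by
  rw [ev_wd, ev_wdW]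
  generalize x.wd = w at hx
  induction w with
  | nil => exact map_one inc
  | cons c w ih =>
    have h1 : ∀ i < 15, inc (gs.getD i 1) = gsW.getD i 1 := fun i hi => by
      rw [← letG_even, ← letG_even, ← wordG_single, ← wordG_single, ← g_wd, ← gW_wd, inc_g hi]
    have h2 := hx c (by simp)
    rw [wordG_cons, wordG_cons, map_mul, ih fun d hd => hx d (by simp [hd])]
    congr 1
    unfold letG
    split_ifs
    · exact h1 _ (by omega)
    · rw [map_inv, h1 _ (by omega)]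

theorem r_z : Commute r (inc z) := by
  rw [inc_z]; exact relW (X.r * .l 16) (.l 16 * X.r) (by decide +kernel)

theorem act_r {j : W0 →* G} (hj : Function.Injective j) :
    act ((j.comp inc).comp φ) (j r) = fun v => ![Sw (v 1), Sw (v 0), v 2, v 3] := by
  have hA : ∀ k, inc (a k) = gW k := fun k => inc_g (by omega)
  have hB : ∀ k, inc (b k) = gW (4 + k) := fun k => inc_g (by omega)
  have ha : ∀ k : Fin 4, r * gW k * r⁻¹ = (![(gW 5)⁻¹, (gW 4)⁻¹, gW 2, gW 3] : Fin 4 → W0) k := fun k => by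
    fin_cases k
    · exact relW (X.r * .l 0 * X.r⁻¹) (.l 5)⁻¹ (by decide +kernel)
    · exact relW (X.r * .l 1 * X.r⁻¹) (.l 4)⁻¹ (by decide +kernel)
    · exact relW (X.r * .l 2 * X.r⁻¹) (.l 2) (by decide +kernel)
    · exact relW (X.r * .l 3 * X.r⁻¹) (.l 3) (by decide +kernel)
  have hb : ∀ k : Fin 4, r * gW (4 + k) * r⁻¹ = (![(gW 1)⁻¹, (gW 0)⁻¹, gW 6, gW 7] : Fin 4 → W0) k := fun k => by
    fin_cases k
    · exact relW (X.r * .l 4 * X.r⁻¹) (.l 1)⁻¹ (by decide +kernel)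
    · exact relW (X.r * .l 5 * X.r⁻¹) (.l 0)⁻¹ (by decide +kernel)
    · exact relW (X.r * .l 6 * X.r⁻¹) (.l 6) (by decide +kernel)
    · exact relW (X.r * .l 7 * X.r⁻¹) (.l 7) (by decide +kernel)
  have key : ∀ q q' : QM, r * inc (φ q) * r⁻¹ = inc (φ q') →
      j r * ((j.comp inc).comp φ) q * (j r)⁻¹ = ((j.comp inc).comp φ) q' := fun q q' e => by
    simp only [MonoidHom.comp_apply]; rw [← e, map_mul, map_mul, map_inv]
  refine act_of_gens ((hj.comp inc_inj).comp φ_inj) (psi_z (j.comp inc) ▸ r_z.map j)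
    (fun v w => by funext k; fin_cases k <;> rfl) fun k => ⟨?_, ?_⟩
  · refine ⟨(![(bq 1)⁻¹, (bq 0)⁻¹, aq 2, aq 3] k).e, (key _ (![(bq 1)⁻¹, (bq 0)⁻¹, aq 2, aq 3] k) ?_).trans
      (congrArg _ (QM.ext (by revert k; decide +kernel) rfl))⟩
    rw [φ_a, hA, ha]
    fin_cases k <;> simp [φ_a, φ_b, hA, hB]
  · refine ⟨(![(aq 1)⁻¹, (aq 0)⁻¹, bq 2, bq 3] k).e, (key _ (![(aq 1)⁻¹, (aq 0)⁻¹, bq 2, bq 3] k) ?_).trans
      (congrArg _ (QM.ext (by revert k; decide +kernel) rfl))⟩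
    rw [φ_b, hB, hb]
    fin_cases k <;> simp [φ_a, φ_b, hA, hB]

/-! ### the setting -/

/-- `Γ0 ≤ G` and `Q` is normal in `C_G(z)` and the kernel of the action on `Q / Z(Q)` -/
structure St0 (ι : Γ0 →* G) : Prop where
  inj : Function.Injective ι
  xq : XQ (ι.comp φ)

/-- moreover the index is odd -/
structure St (ι : Γ0 →* G) : Prop extends St0 ι where
  odd : ¬ 2 ∣ ι.range.index

/-- `x` permutes the four blocks as `σ` -/
def Bp (ψ : QM →* G) (x : G) (σ : Equiv.Perm (Fin 4)) : Prop := ∀ v k, act ψ x v (σ k) = 0 ↔ v k = 0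

theorem XQ.bp_one {ψ : QM →* G} (h : XQ ψ) : Bp ψ 1 1 := fun v k => by rw [h.act_one]; rfl

theorem XQ.bp_mul {ψ : QM →* G} (h : XQ ψ) {x y : G} (hx : Commute x (ψ zq)) (hy : Commute y (ψ zq))
    {σ τ : Equiv.Perm (Fin 4)} (h1 : Bp ψ x σ) (h2 : Bp ψ y τ) : Bp ψ (x * y) (σ * τ) := fun v k => by
  rw [h.act_mul hx hy, Equiv.Perm.mul_apply, h1, h2]

theorem XQ.bp_inv {ψ : QM →* G} (h : XQ ψ) {x : G} (hx : Commute x (ψ zq)) {σ : Equiv.Perm (Fin 4)}
    (h1 : Bp ψ x σ) : Bp ψ x⁻¹ σ⁻¹ := fun v k => by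
  rw [← h1, h.act_inv' hx, show σ (σ⁻¹ k) = k by simp]

theorem Bp.unique {ψ : QM →* G} {x : G} {σ τ : Equiv.Perm (Fin 4)} (h1 : Bp ψ x σ) (h2 : Bp ψ x τ) : σ = τ := by
  refine Equiv.ext fun k => ?_
  by_contra hne
  have h3 := (h1 (sg k (1, 0)) (σ⁻¹ (τ k))).2 (if_neg fun e => hne (by simpa using (congrArg σ e).symm))
  rw [show σ (σ⁻¹ (τ k)) = τ k by simp, h2] at h3
  simp [sg] at h3

theorem Bp.sup {ψ : QM →* G} {x : G} {σ : Equiv.Perm (Fin 4)} (h : Bp ψ x σ) (v : V) : sup (act ψ x v) = sup v := by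
  have e : ∀ w : V, CL.P8.sup w = ∑ k, if w k = 0 then 0 else 1 := fun w => by rw [Fin.sum_univ_four]; rfl
  rw [e, e, ← Equiv.sum_comp σ]
  exact Finset.sum_congr rfl fun k _ => by simp only [h v k]

/-- the elements of `C(z)` that permute the blocks inside the four-group -/
def XQ.C1 {ψ : QM →* G} (h : XQ ψ) : Subgroup G where
  carrier := {x | Commute x (ψ zq) ∧ ∃ σ, InV4 σ ∧ Bp ψ x σ}
  one_mem' := ⟨.one_left _, 1, Or.inl rfl, h.bp_one⟩
  mul_mem' := fun {x y} ⟨hx, σ, h1, h2⟩ ⟨hy, τ, h3, h4⟩ => ⟨hx.mul_left hy, σ * τ,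
    (by decide +kernel : ∀ σ τ, InV4 σ → InV4 τ → InV4 (σ * τ)) _ _ h1 h3, h.bp_mul hx hy h2 h4⟩
  inv_mem' := fun {x} ⟨hx, σ, h1, h2⟩ => ⟨hx.inv_left, σ⁻¹,
    (by decide +kernel : ∀ σ, InV4 σ → InV4 σ⁻¹) _ h1, h.bp_inv hx h2⟩

theorem XQ.mem_C1 {ψ : QM →* G} (h : XQ ψ) {x : G} :
    x ∈ h.C1 ↔ Commute x (ψ zq) ∧ ∃ σ, InV4 σ ∧ Bp ψ x σ := Iff.rfl

/-- the structure of `C(z) / Q` -/
structure CS (ι : Γ0 →* G) : Prop where
  bp : ∀ x, Commute x (ι z) → ∃ σ : Equiv.Perm (Fin 4), Equiv.Perm.sign σ = 1 ∧ Bp (ι.comp φ) x σ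
  rt : ∀ x, Commute x (ι z) → Bp (ι.comp φ) x 1 →
    (∃ t, act (ι.comp φ) x = rot t) ∨ ∃ t, act (ι.comp φ) (x * ι s3) = rot t

/-- the conjugates of `z` in `Q` -/
def Fus (ι : Γ0 →* G) : Prop :=
  ∀ q : QM, IsConj (ι z) (ι (φ q)) → q = zq ∨ ∃ c, Commute c (ι z) ∧ c * ι (φ q) * c⁻¹ = ι zp

/-- every involution of `Γ0` has a conjugate in `Q` -/
def Inv : Prop := ∀ u : Γ0, u * u = 1 → ∃ γ q, γ * u * γ⁻¹ = φ q

/-- the new element of order three -/
structure Yel (ι : Γ0 →* G) (y : G) : Prop where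
  cube : y ^ 3 = 1
  ca : ∀ k, k ≠ 3 → Commute y (ι (a k))
  cb : ∀ k, k ≠ 3 → Commute y (ι (b k))
  ya : y * ι (a 3) * y⁻¹ = ι (b 3)
  yb : y * ι (b 3) * y⁻¹ = ι (a 3 * b 3)

/-- the element `k = hh * ro * y * ro` -/
structure Kap (ι : Γ0 →* G) (k : G) : Prop where
  e1 : k * ι e1 * k⁻¹ = ι e1
  e2 : k * ι e2 * k⁻¹ = ι e2
  w1 : k * ι w1 * k⁻¹ = ι z
  z : k * ι z * k⁻¹ = ι w4
  t1 : k * ι t1 * k⁻¹ = ι k1
  t2 : k * ι t2 * k⁻¹ = ι k2
  t3 : k * ι t3 * k⁻¹ = ι k3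
  t2m : k * ι t2m * k⁻¹ = ι k2m
  t3m : k * ι t3m * k⁻¹ = ι k3m

theorem St.syl [Finite G] (h : St ι) : ∃ S : Sylow 2 G, (S : Subgroup G) = S0.map ι := by
  have h1 : Nat.card (S0.map ι) = 2 ^ 12 := by rw [card_map_of_injective h.inj, card_S0]; rfl
  have h2 : ¬ 2 ∣ (S0.map ι).index := by
    have h3 := S0.card_mul_index
    rw [card_S0, card_Γ0] at h3
    rw [index_map_of_injective _ h.inj, show S0.index = 42525 by omega]
    exact fun e => ((Nat.prime_two.dvd_mul).1 e).elim (by norm_num) h.odd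
  exact ⟨(IsPGroup.of_card h1).toSylow h2, rfl⟩

/-- a conjugate of `z` in `Q` has support `0` or `4` -/
theorem Fus.sup (h : St0 ι) (hc : CS ι) (hf : Fus ι) {q : QM} (hq : IsConj (ι z) (ι (φ q))) :
    q = zq ∨ CL.P8.sup q.v = 4 := by
  refine (hf q hq).imp id fun ⟨c, h1, h2⟩ => ?_
  obtain ⟨σ, -, h3⟩ := hc.bp c h1
  rw [← h3.sup, act_eq h.xq.inj (psi_z ι ▸ h1) (q' := qzp) (by rw [MonoidHom.comp_apply, h2, ← φ_zp]; rfl)]
  rfl

/-! ### the centraliser of the four-group `E = ⟨e1, e2⟩` -/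

/-- `N = C_G(E)` -/
def NN (ι : Γ0 →* G) : Subgroup G := centralizer {ι e1, ι e2}

/-- `E` as a subgroup of `N` -/
def EE (ι : Γ0 →* G) : Subgroup (NN ι) := (closure {ι e1, ι e2}).subgroupOf (NN ι)

theorem mem_NN {x : G} : x ∈ NN ι ↔ Commute x (ι e1) ∧ Commute x (ι e2) := by
  simp [NN, mem_centralizer_iff, Commute, SemiconjBy, eq_comm]

theorem EE_comm {e : G} (he : e ∈ closure {ι e1, ι e2}) {x : G} (hx : x ∈ NN ι) : Commute x e := by
  rw [NN, ← centralizer_closure] at hx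
  exact (hx e he).symm

instance EE_normal (ι : Γ0 →* G) : (EE ι).Normal :=
  ⟨fun e he x => by
    rw [show x * e * x⁻¹ = e from Subtype.ext (by
      rw [coe_mul, coe_mul, (EE_comm (e := (e : G)) he x.2).eq, coe_inv, mul_inv_cancel_right])]
    exact he⟩

theorem mem_E {e : G} (he : e ∈ closure {ι e1, ι e2}) : e = 1 ∨ e = ι e1 ∨ e = ι e2 ∨ e = ι (e1 * e2) := by
  have h : ∀ q ∈ closure {qe1, qe2}, q = 1 ∨ q = qe1 ∨ q = qe2 ∨ q = qe1 * qe2 := fun q hq => by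
    induction hq using closure_induction'' with
    | one => exact Or.inl rfl
    | mem x hx => rcases hx with rfl | rfl <;> simp
    | inv_mem x hx => rcases hx with rfl | rfl <;> decide +kernel
    | mul x y _ _ hx hy =>
      rcases hx with rfl | rfl | rfl | rfl <;> rcases hy with rfl | rfl | rfl | rfl <;> decide +kernel
  rw [← φ_e1, ← φ_e2] at he ⊢
  rw [show ({ι (φ qe1), ι (φ qe2)} : Set G) = (ι.comp φ) '' {qe1, qe2} by simp [Set.image_pair],
    ← MonoidHom.map_closure] at he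
  obtain ⟨q, hq, rfl⟩ := he
  rcases h q hq with rfl | rfl | rfl | rfl <;> simp

/-- `z` is the only conjugate of `z` in `z E` -/
theorem Fus.nz (h : St0 ι) (hc : CS ι) (hf : Fus ι) {e : G} (he : e ∈ closure {ι e1, ι e2})
    (hz : IsConj (ι z) (ι z * e)) : e = 1 := by
  have k : ∀ q : QM, IsConj (ι z) (ι z * ι (φ q)) → zq * q = zq ∨ CL.P8.sup (zq * q).v = 4 := fun q hq =>
    hf.sup h hc (by rwa [map_mul, map_mul, φ_z])
  rcases mem_E he with rfl | rfl | rfl | rfl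
  · rfl
  · exact absurd (k qe1 (by rwa [φ_e1])) (by decide +kernel)
  · exact absurd (k qe2 (by rwa [φ_e2])) (by decide +kernel)
  · exact absurd (k (qe1 * qe2) (by rwa [map_mul, φ_e1, φ_e2])) (by decide +kernel)

/-- `N / E` -/
abbrev NB (ι : Γ0 →* G) : Type _ := NN ι ⧸ EE ι

/-- `C_{Γ0}(E)` -/
noncomputable def CE : Subgroup Γ0 := centralizer {e1, e2}

theorem mem_CE {x : Γ0} : x ∈ CE ↔ Commute x e1 ∧ Commute x e2 := by
  simp [CE, mem_centralizer_iff, Commute, SemiconjBy, eq_comm]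

/-- membership of an expression in `CE`; the hypothesis is proved by `decide +kernel` -/
theorem ex_CE (x : Ex) (h : M.chk [((x * X.e1).wd, (X.e1 * x).wd)] = true ∧
    M.chk [((x * X.e2).wd, (X.e2 * x).wd)] = true) : x.ev g ∈ CE :=
  mem_CE.2 ⟨rel (x * X.e1) (X.e1 * x) h.1, rel (x * X.e2) (X.e2 * x) h.2⟩

theorem CE_NN (ι : Γ0 →* G) {x : Γ0} (h : x ∈ CE) : ι x ∈ NN ι :=
  mem_NN.2 ⟨(mem_CE.1 h).1.map ι, (mem_CE.1 h).2.map ι⟩

/-- the map `C_{Γ0}(E) → N / E` -/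
noncomputable def ν (ι : Γ0 →* G) : CE →* NB ι :=
  (QuotientGroup.mk' (EE ι)).comp ((ι.comp CE.subtype).codRestrict (NN ι) fun x => CE_NN ι x.2)

theorem ν_apply (ι : Γ0 →* G) (x : CE) : ν ι x = ((⟨ι x, CE_NN ι x.2⟩ : NN ι) : NB ι) := rfl

theorem z_CE : z ∈ CE := ex_CE X.z (by decide +kernel)

theorem TT_le : TT ≤ CE := gen_le fun i hi => ex_CE (.l i) (by revert i; decide +kernel)

/-- the image of `z` -/
noncomputable def zb (ι : Γ0 →* G) : NB ι := ν ι ⟨z, z_CE⟩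

/-- the Sylow 2-subgroup of `N / E` -/
structure SylN (ι : Γ0 →* G) (S : Sylow 2 (NB ι)) : Prop where
  eq : (S : Subgroup (NB ι)) = (TT.subgroupOf CE).map (ν ι)
  iso : ∀ P : Sylow 2 (alternatingGroup (Fin 8)),
    Nonempty ((S : Subgroup (NB ι)) ≃* (P : Subgroup (alternatingGroup (Fin 8))))
  card : Nat.card (S : Subgroup (NB ι)) = 64
  ord : orderOf (zb ι) = 2
  mem : zb ι ∈ (S : Subgroup (NB ι))
  cen : ∀ s ∈ (S : Subgroup (NB ι)), s * zb ι = zb ι * s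
  uniq : ∀ t ∈ (S : Subgroup (NB ι)), (∀ s ∈ (S : Subgroup (NB ι)), s * t = t * s) → t = 1 ∨ t = zb ι
  sol : IsSolvable (centralizer ({zb ι} : Set (NB ι)))
  u : ∀ t ∈ NN ι, Commute t (ι z) →
    (∀ p ∈ [a 2, b 2, a 3, b 3], t * ι p * t⁻¹ * (ι p)⁻¹ ∈ closure {ι e1, ι e2}) →
    t ∈ closure {ι e1, ι e2} ∨ t * ι z ∈ closure {ι e1, ι e2}

/-- every involution of `Γ0` is conjugate to a commutator in a 2-subgroup of its centraliser -/
def Inv2 : Prop := ∀ u : Γ0, u * u = 1 → u ≠ 1 → ∃ γ : Γ0, ∃ α ∈ S0, ∃ β ∈ S0, γ * u * γ⁻¹ = α * β * α⁻¹ * β⁻¹ ∧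
  Commute α (γ * u * γ⁻¹) ∧ Commute β (γ * u * γ⁻¹)

/-- the setting of the reduction -/
structure Pr (ι : Γ0 →* G) : Prop where
  inj : Function.Injective ι
  cent : ∀ x, (∀ γ, Commute x (ι γ)) → x = 1
  ch : IsOfCharacteristicTwo (centralizer ({ι z} : Set G))
  odd : ¬ 2 ∣ (normalizer (ι.range : Set G)).index

/-- the two cases of the reduction -/
def Tw (ι : Γ0 →* G) : Prop := ¬ 2 ∣ ι.range.index ∨
  ∃ j : W0 →* G, Function.Injective j ∧ j.comp inc = ι ∧ ¬ 2 ∣ j.range.index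

/-- the elements of `C0` normalise `Q` -/
theorem nq_C0 (ι : Γ0 →* G) {x : Γ0} (hx : x ∈ C0) : Nq (ι.comp φ) (ι x) := by
  have : C0 ≤ normalizer (Qg : Set Γ0) := by
    rw [← core_C0, pCoreOf]
    intro y hy
    exact le_normalizer_map _ ⟨⟨y, hy⟩, by rw [normalizer_eq_top]; trivial, rfl⟩
  intro q
  obtain ⟨q', e⟩ := φ_range.ge ((mem_normalizer_iff.1 (this hx) _).1 (φ_range.le ⟨q, rfl⟩))
  exact ⟨q', by rw [MonoidHom.comp_apply, MonoidHom.comp_apply, e, map_mul, map_mul, map_inv]⟩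

end

/-- the case of odd index -/
def Core1 : Prop := ∀ (G : Type u) [Group G] [Finite G] [IsSimpleGroup G] (ι : Γ0 →* G), Function.Injective ι →
  ¬ 2 ∣ ι.range.index → IsOfCharacteristicTwo (centralizer ({ι z} : Set G)) →
  Nonempty (G ≃* Γ0) ∨ Nonempty (G ≃* POmega (ZMod 3) (quadFormPlus 4 (ZMod 3)))

/-- the case of twice odd index -/
def Core2 : Prop := ∀ (G : Type u) [Group G] [Finite G] [IsSimpleGroup G] (j : W0 →* G), Function.Injective j →
  ¬ 2 ∣ j.range.index → IsOfCharacteristicTwo (centralizer ({j (inc z)} : Set G)) → False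

end CL.P8
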