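/-
Project P8, job BETA: conjugation by the new element of order three.
-/
import Cfsg.Agent.P8.Defs

set_option autoImplicit false

namespace CL.P8
open Cfsg Subgroup

variable {G : Type*} [Group G] {ι : Γ0 →* G}

namespace Beta

/-- substitution of letters -/
noncomputable def sub (f : ℕ → Ex) : Ex → Ex :=
  Ex.rec f .one (fun _ _ u v => .mul u v) (fun _ u => .inv u) (fun _ n u => .pow u n)

/-- all letters satisfy `p` -/
noncomputable def all (p : ℕ → Bool) : Ex → Bool :=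
  Ex.rec p true (fun _ _ u v => u && v) (fun _ u => u) (fun _ _ u => u)

/-- `y` conjugates the letters `i` with `p i` to `f i` -/
def Ac (ι : Γ0 →* G) (p : ℕ → Bool) (y : G) (f : ℕ → Ex) : Prop :=
  ∀ i, p i = true → y * ι (g i) * y⁻¹ = ι ((f i).ev g)

variable {p : ℕ → Bool} {x y : G} {f f' : ℕ → Ex}

theorem Ac.ev (h : Ac ι p y f) : ∀ w : Ex, all p w = true → y * ι (w.ev g) * y⁻¹ = ι ((sub f w).ev g)
  | .l i, e => h i e
  | .one, _ => by show y * ι 1 * y⁻¹ = ι 1; simp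
  | .mul u v, e => by
    have e' : (all p u && all p v) = true := e
    rw [Bool.and_eq_true] at e'
    show y * ι (u.ev g * v.ev g) * y⁻¹ = ι ((sub f u).ev g * (sub f v).ev g)
    rw [map_mul, map_mul, ← h.ev u e'.1, ← h.ev v e'.2]; group
  | .inv u, e => by
    show y * ι (u.ev g)⁻¹ * y⁻¹ = ι ((sub f u).ev g)⁻¹
    rw [map_inv, map_inv, ← h.ev u e]; group
  | .pow u n, e => by
    show y * ι (u.ev g ^ n) * y⁻¹ = ι ((sub f u).ev g ^ n)
    rw [map_pow, map_pow, ← h.ev u e, conj_pow]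

/-- the letters of `Q` -/
def q8 (i : ℕ) : Bool := decide (i < 8)

theorem lt8 {i : ℕ} (h : q8 i = true) : i < 8 := of_decide_eq_true h

theorem iota (c : Ex) (f : ℕ → Ex) (h : ∀ i < 8, M.chk [((c * .l i * c⁻¹).wd, (f i).wd)] = true) :
    Ac ι q8 (ι (c.ev g)) f := fun i hi => by
  have : c.ev g * g i * (c.ev g)⁻¹ = (f i).ev g := rel (c * Ex.l i * c⁻¹) (f i) (h i (lt8 hi))
  rw [← this, map_mul, map_mul, map_inv]

theorem Ac.mul (hx : Ac ι q8 x f) (hy : Ac ι q8 y f') (f'' : ℕ → Ex)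
    (h : ∀ i < 8, all q8 (f' i) = true ∧ M.chk [((sub f (f' i)).wd, (f'' i).wd)] = true) : Ac ι q8 (x * y) f'' := fun i hi => by
  rw [← rel _ _ (h i (lt8 hi)).2, ← hx.ev _ (h i (lt8 hi)).1, ← hy i hi]; group

theorem Ac.inv (hx : Ac ι q8 x f) (f' : ℕ → Ex)
    (h : ∀ i < 8, all q8 (f' i) = true ∧ M.chk [((sub f (f' i)).wd, (Ex.l i).wd)] = true) : Ac ι q8 x⁻¹ f' := fun i hi => by
  have : (sub f (f' i)).ev g = g i := rel _ (.l i) (h i (lt8 hi)).2
  rw [← this, ← hx.ev _ (h i (lt8 hi)).1]; group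

/-- the elements of `3⁴` on the letters -/
def rt (t : List ℕ) (i : ℕ) : Ex :=
  if t.getD (i % 4) 0 = 0 then .l i else if t.getD (i % 4) 0 = 1 then (if i < 4 then .l (i + 4) else .l (i - 4) * .l i)
  else if i < 4 then .l i * .l (i + 4) else .l (i - 4)

theorem Ac.cz {t : List ℕ} (hx : Ac ι q8 x (rt t)) : Commute x (ι z) := by
  have h1 := hx.ev (.l 0 * .l 0) rfl
  have h2 : (Ex.l 0 * .l 0).ev g = z := q8s.aa 0
  have h3 : (sub (rt t) (.l 0 * .l 0)).ev g = z := by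
    show (rt t 0).ev g * (rt t 0).ev g = z
    unfold rt
    split_ifs
    · exact q8s.aa 0
    · exact q8s.bb 0
    · omega
    · exact rel (X.a 0 * X.b 0 * (X.a 0 * X.b 0)) X.z (by decide +kernel)
    · omega
  rw [h2, h3] at h1
  exact mul_inv_eq_iff_eq_mul.1 h1

theorem Ac.eq {t : List ℕ} (h : St0 ι) (hx : Ac ι q8 x (rt t)) (hy : Ac ι q8 y (rt t)) (x3 : x ^ 3 = 1) (y3 : y ^ 3 = 1) :
    x = y := by
  refine h.xq.eq_of_cube x3 y3 (psi_z ι ▸ hx.cz) fun k => ?_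
  simp only [MonoidHom.comp_apply, φ_a, φ_b]
  exact ⟨(hx k (decide_eq_true (by omega))).trans (hy k (decide_eq_true (by omega))).symm,
    (hx (4 + k) (decide_eq_true (by omega))).trans (hy (4 + k) (decide_eq_true (by omega))).symm⟩

theorem cube (x : G) (y3 : y ^ 3 = 1) : (x * y * x⁻¹) ^ 3 = 1 := by rw [conj_pow, y3]; simp

/-- the check for commuting elements -/
noncomputable def cm (s s' t u : List ℕ) : Prop :=
  (∀ i < 8, all q8 (rt s' i) = true ∧ M.chk [((sub (rt s) (rt s' i)).wd, (Ex.l i).wd)] = true) ∧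
  (∀ i < 8, all q8 (rt t i) = true ∧ M.chk [((sub (rt s) (rt t i)).wd, (rt u i).wd)] = true) ∧
  (∀ i < 8, all q8 (rt s' i) = true ∧ M.chk [((sub (rt u) (rt s' i)).wd, (rt t i).wd)] = true)

noncomputable instance (s s' t u : List ℕ) : Decidable (cm s s' t u) := by unfold cm; infer_instance

theorem Ac.comm {s t : List ℕ} (h : St0 ι) (hx : Ac ι q8 x (rt s)) (hy : Ac ι q8 y (rt t)) (y3 : y ^ 3 = 1) (s' u : List ℕ)
    (c : cm s s' t u) : Commute y x :=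
  (mul_inv_eq_iff_eq_mul.1 (((hx.mul hy _ c.2.1).mul (hx.inv _ c.1) _ c.2.2).eq h hy (cube x y3) y3)).symm

/-- the action of `sA` -/
def fA (i : ℕ) : Ex := if i < 4 then .l (3 - i) else .l (11 - i)
/-- the action of `sB` -/
def fB (i : ℕ) : Ex := (Ex.l ([5, 4, 7, 6, 1, 0, 3, 2].getD i 0))⁻¹
/-- `sA` after `y` -/
def fAy (i : ℕ) : Ex := if i = 3 then .l 4 else if i = 7 then .l 0 * .l 4 else fA i
/-- `sB` after `y` -/
def fBy (i : ℕ) : Ex := if i = 3 then (.l 2)⁻¹ else if i = 7 then (.l 6)⁻¹ * (.l 2)⁻¹ else fB i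

/-- the letters on which the action of `y` is known -/
def pβ (i : ℕ) : Bool := decide (i < 11) || i == 15 || i == 17 || i == 18

/-- the action of `y` -/
def β (i : ℕ) : Ex := if i < 8 then rt [0, 0, 0, 1] i else if i = 17 then X.d2 ^ 2 * X.d3 * X.sA
  else if i = 18 then X.d3 * X.sB else .l i

theorem ac0 (hy : Yel ι y) : Ac ι q8 y (rt [0, 0, 0, 1]) := fun i hi => by
  have := lt8 hi
  interval_cases i
  exacts [(hy.ca 0 (by decide)).mul_inv_cancel, (hy.ca 1 (by decide)).mul_inv_cancel, (hy.ca 2 (by decide)).mul_inv_cancel,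
    hy.ya, (hy.cb 0 (by decide)).mul_inv_cancel, (hy.cb 1 (by decide)).mul_inv_cancel, (hy.cb 2 (by decide)).mul_inv_cancel,
    hy.yb]

theorem acβ (h : St0 ι) (hy : Yel ι y) : Commute y (ι d3) ∧ Ac ι pβ y β := by
  have y0 := ac0 hy
  have y3 := hy.cube
  have c1 : Commute y (ι d1) := (iota X.d1 (rt [1, 1, 0, 0]) (by decide +kernel)).comm h y0 y3 [2, 2, 0, 0] [1, 1, 0, 1]
    (by decide +kernel)
  have c2 : Commute y (ι d2) := (iota X.d2 (rt [1, 0, 1, 0]) (by decide +kernel)).comm h y0 y3 [2, 0, 2, 0] [1, 0, 1, 1]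
    (by decide +kernel)
  have c3 : Commute y (ι d3) := (iota X.d3 (rt [0, 0, 1, 1]) (by decide +kernel)).comm h y0 y3 [0, 0, 2, 2] [0, 0, 1, 2]
    (by decide +kernel)
  have aA : Ac ι q8 (ι sA) fA := iota X.sA fA (by decide +kernel)
  have aB : Ac ι q8 (ι sB) fB := iota X.sB fB (by decide +kernel)
  have yA : Ac ι q8 (ι sA * y * (ι sA)⁻¹) (rt [1, 0, 0, 0]) :=
    (aA.mul y0 fAy (by decide +kernel)).mul (aA.inv fA (by decide +kernel)) _ (by decide +kernel)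
  have yB : Ac ι q8 (ι sB * y * (ι sB)⁻¹) (rt [0, 0, 2, 0]) :=
    (aB.mul y0 fBy (by decide +kernel)).mul (aB.inv fB (by decide +kernel)) _ (by decide +kernel)
  have cA := yA.comm h y0 y3 [2, 0, 0, 0] [1, 0, 0, 1] (by decide +kernel)
  have cB := yB.comm h y0 y3 [0, 0, 1, 0] [0, 0, 2, 1] (by decide +kernel)
  have eA : y * (ι sA * y * (ι sA)⁻¹)⁻¹ = ι (d2 ^ 2 * d3) :=
    (y0.mul (yA.inv (rt [2, 0, 0, 0]) (by decide +kernel)) (rt [2, 0, 0, 1]) (by decide +kernel)).eq h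
      (iota (X.d2 ^ 2 * X.d3) _ (by decide +kernel)) (by rw [cA.inv_right.mul_pow, inv_pow, y3, cube _ y3]; simp)
      (by rw [← map_pow, show (d2 ^ 2 * d3) ^ 3 = 1 from (rel ((X.d2 ^ 2 * X.d3) ^ 3) 1 (by decide +kernel) :), map_one])
  have eB : y * (ι sB * y * (ι sB)⁻¹)⁻¹ = ι d3 :=
    (y0.mul (yB.inv (rt [0, 0, 1, 0]) (by decide +kernel)) (rt [0, 0, 1, 1]) (by decide +kernel)).eq h
      (iota X.d3 _ (by decide +kernel)) (by rw [cB.inv_right.mul_pow, inv_pow, y3, cube _ y3]; simp)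
      (by rw [← map_pow, show d3 ^ 3 = 1 from (rel (X.d3 ^ 3) 1 (by decide +kernel) :), map_one])
  refine ⟨c3, fun i hi => ?_⟩
  by_cases h8 : i < 8
  · rw [β, if_pos h8]; exact y0 i (decide_eq_true h8)
  have : i = 8 ∨ i = 9 ∨ i = 10 ∨ i = 15 ∨ i = 17 ∨ i = 18 := by
    simp only [pβ, Bool.or_eq_true, decide_eq_true_eq, beq_iff_eq] at hi; omega
  rcases this with rfl | rfl | rfl | rfl | rfl | rfl
  · exact c1.mul_inv_cancel
  · exact c2.mul_inv_cancel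
  · exact c3.mul_inv_cancel
  · exact y0.cz.mul_inv_cancel
  · show _ = ι (d2 ^ 2 * d3 * sA)
    rw [map_mul, ← eA]; group
  · show _ = ι (d3 * sB)
    rw [map_mul, ← eB]; group

theorem kap (hy : Ac ι pβ y β) (t w k : Ex) (h : all pβ w = true ∧ M.chk [((X.ro * t * X.ro⁻¹).wd, w.wd)] = true ∧
    M.chk [((X.hh * X.ro * sub β w * (X.hh * X.ro)⁻¹).wd, k.wd)] = true) :
    ι hh * ι ro * y * ι ro * ι (t.ev g) * (ι hh * ι ro * y * ι ro)⁻¹ = ι (k.ev g) := by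
  have h1 : ro * t.ev g * ro⁻¹ = w.ev g := rel (X.ro * t * X.ro⁻¹) w h.2.1
  have h2 : hh * ro * (sub β w).ev g * (hh * ro)⁻¹ = k.ev g := rel (X.hh * X.ro * sub β w * (X.hh * X.ro)⁻¹) k h.2.2
  rw [← h2, map_mul, map_mul, ← hy.ev w h.1, ← h1]
  simp only [map_mul, map_inv]
  group

end Beta

open Beta in
/-- (job BETA) -/
theorem beta (h : St0 ι) {y : G} (hy : Yel ι y) : Commute y (ι d3) ∧ Kap ι (ι hh * ι ro * y * ι ro) := by
  obtain ⟨c, k⟩ := acβ h hy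
  exact ⟨c, kap k X.e1 (X.a 0 * X.a 1 * X.z) X.e1 (by decide +kernel),
    kap k X.e2 (X.b 0 * X.a 1 * X.b 1 * X.a 2 * X.b 2 * X.b 3 * X.d1 ^ 2 * X.d3 ^ 2 * X.sB) X.e2 (by decide +kernel),
    kap k X.w1 (X.a 0 * X.a 1 * X.a 2 * X.b 2 * X.b 3 * X.z) X.z (by decide +kernel),
    kap k X.z (X.a 0 * X.a 1 * X.a 2 * X.a 3) X.w4 (by decide +kernel),
    kap k X.t1 (X.b 0 * X.b 1) X.k1 (by decide +kernel),
    kap k X.t2 (X.b 2 * X.a 3) X.k2 (by decide +kernel),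
    kap k X.t3 (X.a 0 * X.b 0 * X.a 1 * X.a 2 * X.b 3 * X.d2 * X.sA * X.sB) X.k3 (by decide +kernel),
    kap k X.t2m (X.a 2 * X.a 3 * X.b 3) X.k2m (by decide +kernel),
    kap k X.t3m (X.a 0 * X.b 0 * X.a 1 * X.a 2 * X.b 2 * X.a 3 * X.d1 * X.d2 * X.d3 * X.sA) X.k3m (by decide +kernel)⟩

end CL.P8
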