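/-
Project P8 (S2920): block permutations of the named elements (helper84).
-/
import Cfsg.Agent.P8.Defs

set_option autoImplicit false

namespace CL.P8
open Cfsg Subgroup

variable {G : Type*} [Group G] {ι : Γ0 →* G}

theorem bp_of_act {ψ : QM →* G} {x : G} {f : Fin 4 → P2 → P2} (hf : ∀ k p, f k p = 0 ↔ p = 0)
    {σ : Equiv.Perm (Fin 4)} {τ : Fin 4 → Fin 4} (hτ : ∀ k, τ (σ k) = k)
    (h : act ψ x = fun v k => f k (v (τ k))) : Bp ψ x σ := fun v k => by rw [h]; simp only [hf, hτ]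

theorem bp_rot {ψ : QM →* G} {x : G} {t : Fin 4 → ZMod 3} (h : act ψ x = rot t) : Bp ψ x 1 :=
  bp_of_act (f := fun k => R2^[(t k).val]) (τ := id)
    (fun k => (by decide +kernel : ∀ (s : ZMod 3) p, R2^[s.val] p = 0 ↔ p = 0) (t k)) (fun _ => rfl) h

theorem XQ.bp_psi {ψ : QM →* G} (h : XQ ψ) (q : QM) : Bp ψ (ψ q) 1 := fun v k => by rw [h.act_psi]; rfl

theorem bp_s1 (hi : Function.Injective ι) : Bp (ι.comp φ) (ι s1) (Equiv.swap 0 2 * Equiv.swap 1 3) :=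
  bp_of_act (f := fun _ => id) (fun _ _ => Iff.rfl) (by decide +kernel) (act_s1 hi)

theorem bp_s2 (hi : Function.Injective ι) : Bp (ι.comp φ) (ι s2) (Equiv.swap 0 1 * Equiv.swap 2 3) :=
  bp_of_act (f := fun _ => id) (fun _ _ => Iff.rfl) (by decide +kernel) (act_s2 hi)

theorem bp_s3 (hi : Function.Injective ι) : Bp (ι.comp φ) (ι s3) 1 :=
  bp_of_act (f := fun _ => Sw) (τ := id) (fun _ => by decide +kernel) (fun _ => rfl) (act_s3 hi)

theorem bp_w1 (hi : Function.Injective ι) : Bp (ι.comp φ) (ι w1) (Equiv.swap 0 1 * Equiv.swap 2 3) :=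
  bp_of_act (f := fun _ => Fw) (fun _ => by decide +kernel) (by decide +kernel) (act_w1 hi)

theorem rot_eq_id {t : Fin 4 → ZMod 3} (h : ∀ v, rot t v = v) : t = 0 := by
  have : rot t qzp.v = qzp.v := h _
  revert t; decide +kernel

theorem rot_zp {t : Fin 4 → ZMod 3} (h : rot t qzp.v = qzp.v) : t = 0 := by revert t; decide +kernel

theorem fix_zp {v : V} (h0 : v ≠ 0) (h1 : (fun k => v (![2, 3, 0, 1] k)) = v) (h2 : (fun k => v (![1, 0, 3, 2] k)) = v)
    (h3 : (fun k => Sw (v k)) = v) : v = qzp.v := by revert v; decide +kernel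

/-- `ι x` commutes with the centre of `Q` -/
theorem cz (ι : Γ0 →* G) {x : Γ0} (h : x ∈ C0) : Commute (ι x) ((ι.comp φ) zq) := psi_z ι ▸ (C0_z h).map ι

theorem cz' {x : G} (h : Commute x (ι z)) : Commute x ((ι.comp φ) zq) := psi_z ι ▸ h

theorem psi_mem (ι : Γ0 →* G) (q : QM) : (ι.comp φ) q ∈ Qg.map ι := ⟨φ q, φ_range.le ⟨q, rfl⟩, rfl⟩

theorem psi_range (ι : Γ0 →* G) : (ι.comp φ).range = Qg.map ι := by rw [MonoidHom.range_comp, φ_range]

/-- the complement `⟨s1, s2, s3⟩` -/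
noncomputable def SS : Subgroup Γ0 := gen [11, 12, 13]

/-- the group `⟨d1, d2, d3⟩` -/
noncomputable def DD : Subgroup Γ0 := gen [8, 9, 10]

theorem SS_le : SS ≤ T0 := gen_le fun i hi => ⟨mem_gen (by revert i; decide),
  mem_centralizer_singleton_iff.2 (rel (Ex.l i * X.zp) (X.zp * Ex.l i) (by revert i; decide +kernel))⟩

theorem T0_le : T0 ≤ S0 := inf_le_left

theorem DD_le : DD ≤ C0 := gen_le fun i hi => mem_gen (by revert i; decide)

namespace St0
variable (h : St0 ι)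
include h

theorem act_mul {x y : G} (hx : Commute x (ι z)) (hy : Commute y (ι z)) :
    act (ι.comp φ) (x * y) = fun v => act (ι.comp φ) x (act (ι.comp φ) y v) :=
  funext (h.xq.act_mul (cz' hx) (cz' hy))

theorem act_pow {x : G} (hx : Commute x (ι z)) {t : Fin 4 → ZMod 3} (e : act (ι.comp φ) x = rot t) (n : ℕ) :
    act (ι.comp φ) (x ^ n) = rot (n • t) := by
  induction n with
  | zero => exact funext fun v => by rw [pow_zero, h.xq.act_one, zero_smul, rot_zero]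
  | succ n ih => rw [pow_succ, h.act_mul (hx.pow_left n) hx, ih, e, succ_nsmul]; exact funext (rot_rot _ _)

theorem act_inv {x : G} (hx : Commute x (ι z)) {t : Fin 4 → ZMod 3} (e : act (ι.comp φ) x = rot t) :
    act (ι.comp φ) x⁻¹ = rot (-t) := funext fun v => by
  have := h.xq.act_inv (cz' hx) (rot (-t) v)
  rwa [e, rot_rot, add_neg_cancel, rot_zero] at this

/-- an element that acts trivially lies in `Q` -/
theorem mem_Q {x : G} (hx : Commute x (ι z)) (e : act (ι.comp φ) x = rot 0) : x ∈ Qg.map ι :=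
  psi_range ι ▸ h.xq.cq x (cz' hx) fun v => by rw [e, rot_zero]

theorem C0_le : C0.map ι ≤ h.xq.C1 := by
  rw [map_le_iff_le_comap]
  refine gen_le fun i hi => ⟨cz ι (mem_gen hi), ?_⟩
  have h1 : InV4 1 := Or.inl rfl
  have := List.mem_range.1 hi
  by_cases h4 : i < 4
  · exact ⟨1, h1, by have := h.xq.bp_psi (aq ⟨i, h4⟩); rwa [MonoidHom.comp_apply, φ_a] at this⟩
  by_cases h8 : i < 8
  · refine ⟨1, h1, ?_⟩
    have := h.xq.bp_psi (bq ⟨i - 4, by omega⟩)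
    rwa [MonoidHom.comp_apply, φ_b, b, show 4 + ((⟨i - 4, by omega⟩ : Fin 4) : ℕ) = i by simp; omega] at this
  obtain rfl | rfl | rfl | rfl | rfl | rfl : i = 8 ∨ i = 9 ∨ i = 10 ∨ i = 11 ∨ i = 12 ∨ i = 13 := by omega
  exacts [⟨1, h1, bp_rot (act_d1 h.inj)⟩, ⟨1, h1, bp_rot (act_d2 h.inj)⟩, ⟨1, h1, bp_rot (act_d3 h.inj)⟩,
    ⟨_, by decide, bp_s1 h.inj⟩, ⟨_, by decide, bp_s2 h.inj⟩, ⟨1, h1, bp_s3 h.inj⟩]

/-- the rotations induced by `D` -/
theorem exists_d {t : Fin 4 → ZMod 3} (ht : t 0 - t 1 - t 2 + t 3 = 0) : ∃ d ∈ DD, act (ι.comp φ) (ι d) = rot t := by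
  have m : ∀ i ∈ [8, 9, 10], g i ∈ DD := fun i hi => mem_gen hi
  have c : ∀ i ∈ [8, 9, 10], Commute (ι (g i)) (ι z) := fun i hi => (C0_z (DD_le (m i hi))).map ι
  obtain ⟨i, j, k, e⟩ : ∃ i j k : Fin 3, t = (i : ℕ) • ![1, 1, 0, 0] + ((j : ℕ) • ![1, 0, 1, 0] + (k : ℕ) • ![0, 0, 1, 1]) := by
    revert t; decide +kernel
  refine ⟨d1 ^ (i : ℕ) * (d2 ^ (j : ℕ) * d3 ^ (k : ℕ)), mul_mem (pow_mem (m 8 (by simp)) _)
    (mul_mem (pow_mem (m 9 (by simp)) _) (pow_mem (m 10 (by simp)) _)), ?_⟩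
  have c1 := c 8 (by simp)
  have c2 := c 9 (by simp)
  have c3 := c 10 (by simp)
  rw [map_mul, map_mul, map_pow, map_pow, map_pow,
    h.act_mul (c1.pow_left _) ((c2.pow_left _).mul_left (c3.pow_left _)), h.act_mul (c2.pow_left _) (c3.pow_left _),
    h.act_pow c1 (act_d1 h.inj), h.act_pow c2 (act_d2 h.inj), h.act_pow c3 (act_d3 h.inj), e]
  exact funext fun v => by simp only [rot_rot]

/-- every element of `C1` is a rotation up to `⟨s1, s2, s3⟩` -/
theorem red (hc : CS ι) {x : G} (hx : x ∈ h.xq.C1) : ∃ s ∈ SS, ∃ t, act (ι.comp φ) (x * ι s) = rot t := by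
  obtain ⟨h1, σ, h2, h3⟩ := hx
  have m : ∀ i ∈ [11, 12, 13], g i ∈ SS := fun i hi => mem_gen hi
  have m1 := m 11 (by simp)
  have m2 := m 12 (by simp)
  have c : ∀ s ∈ SS, Commute (ι s) ((ι.comp φ) zq) := fun s hs => cz ι (S0_le (T0_le (SS_le hs)))
  obtain ⟨s, hs, h4⟩ : ∃ s ∈ SS, Bp (ι.comp φ) (x * ι s) 1 := by
    rcases h2 with rfl | rfl | rfl | rfl
    · exact ⟨1, one_mem _, by simpa using h3⟩
    · exact ⟨s2, m2, by convert h.xq.bp_mul h1 (c _ m2) h3 (bp_s2 h.inj) using 1; decide⟩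
    · exact ⟨s1, m1, by convert h.xq.bp_mul h1 (c _ m1) h3 (bp_s1 h.inj) using 1; decide⟩
    · refine ⟨s1 * s2, mul_mem m1 m2, ?_⟩
      rw [map_mul]
      convert h.xq.bp_mul h1 ((c _ m1).mul_left (c _ m2)) h3
        (h.xq.bp_mul (c _ m1) (c _ m2) (bp_s1 h.inj) (bp_s2 h.inj)) using 1
      decide
  rcases hc.rt _ (psi_z ι ▸ h1.mul_left (c s hs)) h4 with ⟨t, e⟩ | ⟨t, e⟩
  · exact ⟨s, hs, t, e⟩
  · exact ⟨s * s3, mul_mem hs (m 13 (by simp)), t, by rwa [map_mul, ← mul_assoc]⟩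

end St0

theorem Yel.z {y : G} (hy : Yel ι y) : Commute y (ι z) := by
  rw [← q8s.aa 0, map_mul]; exact (hy.ca 0 (by decide)).mul_right (hy.ca 0 (by decide))

theorem Yel.act (hi : Function.Injective ι) {y : G} (hy : Yel ι y) : act (ι.comp φ) y = rot ![0, 0, 0, 1] := by
  refine act_of_gens (hi.comp φ_inj) (cz' hy.z) (rot_add _) fun k => ?_
  simp only [MonoidHom.comp_apply, φ_a, φ_b]
  by_cases hk : k = 3
  · subst hk
    refine ⟨⟨0, hy.ya.trans ?_⟩, (aq 3 * bq 3).e, hy.yb.trans ?_⟩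
    · rw [← φ_b]; congr 2
    · rw [← φ_a, ← φ_b, ← map_mul φ]; congr 2
  · refine ⟨⟨0, ?_⟩, 0, ?_⟩
    · rw [(hy.ca k hk).eq, mul_inv_cancel_right, ← φ_a]; congr 2; revert k; decide +kernel
    · rw [(hy.cb k hk).eq, mul_inv_cancel_right, ← φ_b]; congr 2; revert k; decide +kernel

/-- the new element is unique -/
theorem Yel.unique (h : St0 ι) {y y' : G} (hy : Yel ι y) (hy' : Yel ι y') : y = y' := by
  refine h.xq.eq_of_cube hy.cube hy'.cube (cz' hy.z) fun k => ?_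
  simp only [MonoidHom.comp_apply, φ_a, φ_b]
  by_cases hk : k = 3
  · subst hk; exact ⟨hy.ya.trans hy'.ya.symm, hy.yb.trans hy'.yb.symm⟩
  · simp only [(hy.ca k hk).eq, (hy.cb k hk).eq, (hy'.ca k hk).eq, (hy'.cb k hk).eq, mul_inv_cancel_right, and_self]

/-- restriction to a subgroup -/
theorem St0.restrict (h : St0 ι) {L : Subgroup G} (hL : ∀ γ, ι γ ∈ L) : St0 (ι.codRestrict L hL) := by
  have hi : Function.Injective (ι.codRestrict L hL) := fun _ _ e => h.inj (congrArg Subtype.val e)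
  have c : ∀ x : L, Commute x (((ι.codRestrict L hL).comp φ) zq) → Commute (x : G) ((ι.comp φ) zq) :=
    fun x hx => congrArg Subtype.val hx
  have n : ∀ x : L, Commute x (((ι.codRestrict L hL).comp φ) zq) → Nq ((ι.codRestrict L hL).comp φ) x :=
    fun x hx q => let ⟨q', e⟩ := h.xq.nq x (c x hx) q; ⟨q', Subtype.ext e⟩
  refine ⟨hi, hi.comp φ_inj, n, fun x hx e => ?_⟩
  obtain ⟨q, hq⟩ := h.xq.cq x (c x hx) fun v => by
    obtain ⟨f, h1⟩ := act_spec (hi.comp φ_inj) hx (n x hx) ⟨v, 0⟩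
    rw [e] at h1
    exact act_eq h.xq.inj (c x hx) (q := ⟨v, 0⟩) (q' := ⟨v, f⟩) (congrArg Subtype.val h1)
  exact ⟨q, Subtype.ext hq⟩

end CL.P8
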