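/-
Project P8 (S2920): `C(z)` permutes the four blocks evenly.
-/
import Cfsg.Agent.P8.Blk

set_option autoImplicit false

namespace CL.P8
open Cfsg Subgroup

variable {G : Type*} [Group G] [Finite G] {ι : Γ0 →* G}

namespace CsA

/-- the action of `C(z)` on `V` -/
@[reducible] noncomputable def ma {G : Type*} [Group G] {ψ : QM →* G} (h : XQ ψ) :
    MulAction (centralizer ({ψ zq} : Set G)) V where
  smul x v := act ψ x v
  one_smul := h.act_one
  mul_smul x y := h.act_mul (mem_centralizer_singleton_iff.1 x.2) (mem_centralizer_singleton_iff.1 y.2)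

/-- the composites of the five maps -/
def F (i j k : Fin 3) (a b : Fin 2) (v : V) : V := (fun v k => v (![2, 3, 0, 1] k))^[a] ((fun v k => v (![1, 0, 3, 2] k))^[b]
  ((rot ![1, 1, 0, 0])^[i] ((rot ![1, 0, 1, 0])^[j] ((rot ![0, 0, 1, 1])^[k] v))))

theorem tr1 : ∀ v : V, sup v = 1 → ∃ i j k a b, F i j k a b (sg 0 (1, 1)) = v := by decide +kernel

theorem tr3 : ∀ v : V, sup v = 3 → ∃ i j k a b, F i j k a b ![(1, 1), (1, 1), (1, 1), 0] = v := by decide +kernel

theorem tr3' : ∀ v : V, sup v = 3 → ∃ i j k a b, F i j k a b v = ![(1, 1), (1, 1), (1, 1), 0] := by decide +kernel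

theorem iter {U : V → Prop} {f : V → V} (h : ∀ v, U v → U (f v)) : ∀ n v, U v → U (f^[n] v)
  | 0, _, hv => hv
  | n + 1, v, hv => iter h n _ (h v hv)

theorem not13 (h : St ι) : ¬ 2 ^ 13 ∣ Nat.card G := fun e => by
  obtain ⟨S, hS⟩ := h.syl
  have h1 : Nat.card (S : Subgroup G) = 2 ^ 12 := by rw [hS, card_map_of_injective h.inj, card_S0]; rfl
  rw [← (S : Subgroup G).card_mul_index, h1, pow_succ] at e
  exact S.not_dvd_index (Nat.dvd_of_mul_dvd_mul_left (by norm_num) e)

theorem sup1 (h : St ι) {x : G} (hx : Commute x ((ι.comp φ) zq)) {v : V} (hv : sup v = 1) :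
    sup (act (ι.comp φ) x v) = 1 := by
  by_contra hn
  let _ := ma h.xq
  have par : ∀ y : centralizer ({(ι.comp φ) zq} : Set G), ∀ w, sup w % 2 = 1 → sup (y • w) % 2 = 1 := fun y w hw => by
    have e : coc (y • w) (y • w) = coc w w := h.xq.act_coc (mem_centralizer_singleton_iff.1 y.2) w
    have e1 := coc_self (y • w)
    have e2 := coc_self w
    rw [e, e2] at e1
    omega
  have c13 : ∀ w : V, sup w % 2 = 1 → sup w = 1 ∨ sup w = 3 := by decide +kernel
  set Ω := MulAction.orbit (centralizer ({(ι.comp φ) zq} : Set G)) (sg 0 (1, 1) : V) with hΩ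
  have cl : ∀ y, Commute y ((ι.comp φ) zq) → ∀ w ∈ Ω, act (ι.comp φ) y w ∈ Ω := fun y hy w hw =>
    MulAction.mem_orbit_of_mem_orbit (⟨y, mem_centralizer_singleton_iff.2 hy⟩ : centralizer ({(ι.comp φ) zq} : Set G)) hw
  have cF : ∀ i j k a b, ∀ w ∈ Ω, F i j k a b w ∈ Ω := fun i j k a b w hw =>
    iter (U := (· ∈ Ω)) (f := fun v k => v (![2, 3, 0, 1] k))
      (by have := cl (ι s1) (cz ι (mem_gen (by decide))); rwa [act_s1 h.inj] at this) _ _
      (iter (U := (· ∈ Ω)) (f := fun v k => v (![1, 0, 3, 2] k))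
        (by have := cl (ι s2) (cz ι (mem_gen (by decide))); rwa [act_s2 h.inj] at this) _ _
        (iter (U := (· ∈ Ω)) (act_d1 h.inj ▸ cl _ (cz ι (mem_gen (by decide)))) _ _
          (iter (U := (· ∈ Ω)) (act_d2 h.inj ▸ cl _ (cz ι (mem_gen (by decide)))) _ _
            (iter (U := (· ∈ Ω)) (act_d3 h.inj ▸ cl _ (cz ι (mem_gen (by decide)))) _ _ hw))))
  have o1 : ∀ w, sup w = 1 → w ∈ Ω := fun w hw => by
    obtain ⟨i, j, k, a, b, rfl⟩ := tr1 w hw
    exact cF i j k a b _ (MulAction.mem_orbit_self _)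
  have o3 : ∀ w, sup w = 3 → w ∈ Ω := fun w hw => by
    obtain ⟨i, j, k, a, b, rfl⟩ := tr3 w hw
    obtain ⟨i', j', k', a', b', e⟩ := tr3' _ ((c13 _ (par ⟨x, mem_centralizer_singleton_iff.2 hx⟩ v (by rw [hv]))).resolve_left hn)
    exact cF i j k a b _ (e ▸ cF i' j' k' a' b' _ (cl x hx v (o1 v hv)))
  have eΩ : Ω = (Finset.univ.filter fun w : V => sup w % 2 = 1 : Finset V) := by
    ext w
    simp only [Finset.coe_filter, Finset.mem_univ, true_and, Set.mem_ofPred_eq]
    refine ⟨?_, fun hw => (c13 w hw).elim (o1 w) (o3 w)⟩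
    rintro ⟨y, rfl⟩
    exact par y _ (by decide)
  have cΩ : Nat.card Ω = 120 := by
    rw [eΩ, Nat.card_coe_set_eq, Set.ncard_coe_finset]
    decide +kernel
  set R := MulAction.stabilizer (centralizer ({(ι.comp φ) zq} : Set G)) (sg 0 (1, 1) : V) with hR
  have c1 : Nat.card Ω * Nat.card R = Nat.card (centralizer ({(ι.comp φ) zq} : Set G)) := by
    rw [← Nat.card_prod]
    exact Nat.card_congr (MulAction.orbitProdStabilizerEquivGroup _ _)
  have pT : IsPGroup 2 (R.map (Subgroup.subtype _) ⊓ S0.map ι : Subgroup G) :=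
    ((IsPGroup.of_card (n := 12) card_S0).map ι).to_le inf_le_right
  obtain ⟨n, hn⟩ := IsPGroup.iff_card.1 pT
  have lt : (ι.comp φ).range < R.map (Subgroup.subtype _) ⊓ S0.map ι := by
    refine lt_of_le_of_ne ?_ fun e => ?_
    · rintro _ ⟨q, rfl⟩
      exact ⟨⟨⟨_, mem_centralizer_singleton_iff.2 (comm_z _ q)⟩, h.xq.act_psi q _, rfl⟩, map_mono Qg_le (psi_mem ι q)⟩
    · obtain ⟨q, hq⟩ := e.ge (show ι s3 ∈ _ from ⟨⟨⟨_, mem_centralizer_singleton_iff.2 (cz ι (mem_gen (by decide)))⟩,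
        (congrFun (act_s3 h.inj) _).trans (by decide +kernel), rfl⟩, s3, mem_gen (by decide), rfl⟩)
      have := h.xq.act_psi q (ea 0)
      rw [hq, act_s3 h.inj] at this
      exact absurd this (by decide +kernel)
  have c2 : 2 ^ 9 < 2 ^ n := by
    have : Nat.card (ι.comp φ).range < Nat.card (R.map (Subgroup.subtype _) ⊓ S0.map ι : Subgroup G) :=
      lt_of_le_of_ne (card_le_of_le lt.le) fun e => lt.ne (eq_of_le_of_card_ge lt.le e.ge)
    rwa [hn, ← Nat.card_congr (MonoidHom.ofInjective h.xq.inj).toEquiv, card_QM] at this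
  have c3 : 2 ^ 10 ∣ Nat.card R := by
    rw [← card_map_of_injective (Subgroup.subtype_injective _)]
    refine Dvd.dvd.trans ?_ (card_dvd_of_le (inf_le_left (b := S0.map ι)))
    rw [hn]
    exact pow_dvd_pow 2 ((pow_lt_pow_iff_right₀ (by norm_num)).1 c2)
  refine not13 h (Dvd.dvd.trans ?_ (card_subgroup_dvd_card (centralizer ({(ι.comp φ) zq} : Set G))))
  rw [← c1, cΩ]
  exact mul_dvd_mul (a := 8) (by norm_num) c3

theorem blocks {f : V → V} (add : ∀ v w, f (v + w) = f v + f w) (inj : Function.Injective f)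
    (h1 : ∀ v, sup v = 1 → sup (f v) = 1) (h2 : ∀ v, coc (f v) (f v) = coc v v) :
    ∃ σ : Equiv.Perm (Fin 4), ∀ v k, f v (σ k) = 0 ↔ v k = 0 := by
  let f' : V →+ V := AddMonoidHom.mk' f add
  have f0 : f 0 = 0 := f'.map_zero
  have one : ∀ u : V, sup u = 1 → ∃ m p, u = sg m p := by decide +kernel
  have two : ∀ m p m' p', sup (sg m p) = 1 → sup (sg m' p') = 1 → sup (sg m p + sg m' p') = 1 → m = m' := by
    decide +kernel
  have : ∀ k, ∃ m, ∀ p, ∀ j ≠ m, f (sg k p) j = 0 := fun k => by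
    have s0 : ∀ k, sup (ea k) = 1 ∧ sup (eb k) = 1 ∧ sup (ea k + eb k) = 1 := by decide +kernel
    have a1 := h1 (ea k) (s0 k).1
    have b1 := h1 (eb k) (s0 k).2.1
    have c1 := h1 (ea k + eb k) (s0 k).2.2
    obtain ⟨m, p, e⟩ := one _ a1
    obtain ⟨m', p', e'⟩ := one _ b1
    rw [add, e, e'] at c1
    obtain rfl := two m p m' p' (e ▸ a1) (e' ▸ b1) c1
    refine ⟨m, fun t j hj => ?_⟩
    have : ∀ k t, sg k t = 0 ∨ sg k t = ea k ∨ sg k t = eb k ∨ sg k t = ea k + eb k := by decide +kernel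
    rcases this k t with l | l | l | l <;> rw [l]
    · rw [f0]; rfl
    · rw [e]; exact if_neg hj
    · rw [e']; exact if_neg hj
    · rw [add, e, e']; simp [sg, hj]
  choose σ hσ using this
  have i1 : Function.Injective σ := fun j k e => by
    by_contra hn
    have e1 : ∀ l ≠ σ k, f (ea j + ea k) l = 0 := fun l hl => by
      rw [add, Pi.add_apply, ea, ea, hσ j _ l (e ▸ hl), hσ k _ l hl, add_zero]
    have e2 : coc (f (ea j + ea k)) (f (ea j + ea k)) = 0 := by
      rw [h2]; clear e1 e; revert j k; decide +kernel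
    have e3 : ∀ (u : V) m, (∀ l ≠ m, u l = 0) → coc u u = 0 → u = 0 := by decide +kernel
    refine absurd (inj ((e3 _ _ e1 e2).trans f0.symm)) ?_
    clear e1 e2 e; revert j k; decide +kernel
  refine ⟨Equiv.ofBijective σ (Finite.injective_iff_bijective.1 i1), fun v k => ?_⟩
  have e : v = ∑ j, sg j (v j) := by
    funext l
    simp [sg, Finset.sum_apply]
  have e1 : f v (σ k) = f (sg k (v k)) (σ k) := by
    conv_lhs => rw [e]
    rw [show f (∑ j, sg j (v j)) = ∑ j, f (sg j (v j)) from map_sum f' _ _, Finset.sum_apply, Finset.sum_eq_single k]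
    · exact fun j _ hj => hσ j _ _ fun l => hj (i1 l).symm
    · simp
  rw [Equiv.ofBijective_apply, e1]
  refine ⟨fun l => ?_, fun l => ?_⟩
  · have : f (sg k (v k)) = f 0 := f0.symm ▸ funext fun j => by
      by_cases hj : j = σ k
      · rw [hj, l]; rfl
      · exact hσ k _ j hj
    simpa [sg] using congrFun (inj this) k
  · rw [l, show sg k 0 = 0 from funext fun _ => ite_self _, f0]; rfl

end CsA

open CsA

theorem csa (h : St ι) (x : G) (hx : Commute x (ι z)) :
    ∃ σ : Equiv.Perm (Fin 4), Equiv.Perm.sign σ = 1 ∧ Bp (ι.comp φ) x σ := by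
  have mC : ∀ y : centralizer ({(ι.comp φ) zq} : Set G), Commute (y : G) ((ι.comp φ) zq) :=
    fun y => mem_centralizer_singleton_iff.1 y.2
  have ex : ∀ y : centralizer ({(ι.comp φ) zq} : Set G), ∃ σ, Bp (ι.comp φ) y σ := fun y =>
    blocks (h.xq.act_add (mC y)) (h.xq.act_inj (mC y)) (fun _ => sup1 h (mC y)) (h.xq.act_coc (mC y))
  choose σ hσ using ex
  let χ : centralizer ({(ι.comp φ) zq} : Set G) →* ℤˣ := MonoidHom.mk' (fun y => Equiv.Perm.sign (σ y)) fun a b => by
    rw [(hσ (a * b)).unique (h.xq.bp_mul (mC a) (mC b) (hσ a) (hσ b)), map_mul]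
  have le : S0.map ι ≤ centralizer {(ι.comp φ) zq} := by
    rintro _ ⟨y, hy, rfl⟩
    exact mem_centralizer_singleton_iff.2 (cz ι (S0_le hy))
  have k : (S0.map ι).subgroupOf _ ≤ χ.ker := by
    rintro y ⟨s, hs, e⟩
    obtain ⟨-, τ, h1, h2⟩ := h.toSt0.C0_le ⟨s, S0_le hs, rfl⟩
    rw [e] at h2
    show Equiv.Perm.sign (σ y) = 1
    rw [(hσ y).unique h2]
    clear h2
    revert τ; decide +kernel
  obtain ⟨S, hS⟩ := h.syl
  have d1 : χ.ker.index ∣ (S : Subgroup G).index := hS ▸ (index_dvd_of_le k).trans (relIndex_dvd_index_of_le le)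
  have d2 : χ.ker.index ∣ 2 := by
    rw [index_ker]
    simpa using card_subgroup_dvd_card χ.range
  have : χ.ker = ⊤ := index_eq_one.1 (((Nat.dvd_prime Nat.prime_two).1 d2).resolve_right fun e => S.not_dvd_index (by rwa [e] at d1))
  exact ⟨σ ⟨x, mem_centralizer_singleton_iff.2 (cz' hx)⟩, this.ge (mem_top _), hσ ⟨x, _⟩⟩

end CL.P8
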