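/-
Project P8 (S2920): the normal form of the elements of `S0` and their action on `V`.
-/
import Cfsg.Agent.P8.Blk

set_option autoImplicit false

namespace CL.P8
open Cfsg Subgroup

namespace NF

variable {G : Type*} [Group G] {ι : Γ0 →* G} {ψ : QM →* G} {x y : G}

theorem act_mul' (hi : Function.Injective ψ) (hx : Commute x (ψ zq)) (hy : Commute y (ψ zq)) (nx : Nq ψ x) (ny : Nq ψ y)
    (v : V) : act ψ (x * y) v = act ψ x (act ψ y v) := by
  obtain ⟨e, h1⟩ := act_spec hi hy ny ⟨v, 0⟩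
  obtain ⟨f, h2⟩ := act_spec hi hx nx ⟨act ψ y v, e⟩
  refine act_eq hi (hx.mul_left hy) (q := ⟨v, 0⟩) (q' := ⟨act ψ x (act ψ y v), f⟩) ?_
  rw [← h2, ← h1]; group

theorem act_psi' (hi : Function.Injective ψ) (q : QM) (v : V) : act ψ (ψ q) v = v :=
  act_eq hi (comm_z ψ q) (q := ⟨v, 0⟩) (q' := q * ⟨v, 0⟩ * q⁻¹) (by simp) |>.trans (by rw [QM.conj])

/-- the product rule for elements of `C0` -/
theorem act_mul0 (hi : Function.Injective ι) {x y : Γ0} (hx : x ∈ C0) (hy : y ∈ C0) (v : V) :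
    act (ι.comp φ) (ι (x * y)) v = act (ι.comp φ) (ι x) (act (ι.comp φ) (ι y) v) := by
  rw [map_mul, act_mul' (hi.comp φ_inj) (cz ι hx) (cz ι hy) (nq_C0 ι hx) (nq_C0 ι hy)]

/-- conjugation inside `Γ0` -/
theorem spec0 {x : Γ0} (hx : x ∈ C0) (q : QM) : ∃ e, x * φ q * x⁻¹ = φ ⟨act ((MonoidHom.id Γ0).comp φ) x q.v, e⟩ :=
  act_spec (ψ := (MonoidHom.id Γ0).comp φ) φ_inj (cz (MonoidHom.id Γ0) hx) (nq_C0 (MonoidHom.id Γ0) hx) q

def sX (i j k : Fin 2) : Ex := X.s1 ^ (i : ℕ) * X.s2 ^ (j : ℕ) * X.s3 ^ (k : ℕ)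

/-- the elements of the complement -/
noncomputable def sS (i j k : Fin 2) : Γ0 := (sX i j k).ev g

def τS (i j : Fin 2) : Fin 4 → Fin 4 := ![![![0, 1, 2, 3], ![1, 0, 3, 2]], ![![2, 3, 0, 1], ![3, 2, 1, 0]]] i j

/-- their actions -/
def FS (i j k : Fin 2) (v : V) : V := fun l => Sw^[k] (v (τS i j l))

theorem sS_eq (i j k : Fin 2) : sS i j k = s1 ^ (i : ℕ) * s2 ^ (j : ℕ) * s3 ^ (k : ℕ) := rfl

theorem sS_mul (i j k i' j' k' : Fin 2) : sS i j k * sS i' j' k' = sS (i + i') (j + j') (k + k') :=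
  rel (sX i j k * sX i' j' k') (sX (i + i') (j + j') (k + k')) (by revert i j k i' j' k'; decide +kernel)

theorem sS_sq (i j k : Fin 2) : sS i j k * sS i j k = 1 := rel (sX i j k * sX i j k) 1 (by revert i j k; decide +kernel)

theorem sS_SS (i j k : Fin 2) : sS i j k ∈ SS := by
  have m : ∀ i ∈ [11, 12, 13], g i ∈ SS := fun i hi => mem_gen hi
  exact mul_mem (mul_mem (pow_mem (m 11 (by simp)) _) (pow_mem (m 12 (by simp)) _)) (pow_mem (m 13 (by simp)) _)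

theorem sS_S0 (i j k : Fin 2) : sS i j k ∈ S0 := T0_le (SS_le (sS_SS i j k))

theorem sS_C0 (i j k : Fin 2) : sS i j k ∈ C0 := S0_le (sS_S0 i j k)

theorem φ_S0 (q : QM) : φ q ∈ S0 := Qg_le (φ_range.le ⟨q, rfl⟩)

theorem φ_C0 (q : QM) : φ q ∈ C0 := S0_le (φ_S0 q)

theorem FS_add (i j k : Fin 2) (v w : V) : FS i j k (v + w) = FS i j k v + FS i j k w :=
  blk_add (f := Sw^[k]) (by revert k; decide +kernel) _ v w

theorem act_sS (hi : Function.Injective ι) (i j k : Fin 2) : act (ι.comp φ) (ι (sS i j k)) = FS i j k :=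
  act_ex hi (sX i j k) (FS_add i j k) (by revert i j k; decide +kernel) (by revert i j k; decide +kernel)

/-- the normal form -/
theorem nf {s : Γ0} (hs : s ∈ S0) : ∃ q i j k, s = φ q * sS i j k := by
  let H : Subgroup Γ0 :=
    { carrier := {s | ∃ q i j k, s = φ q * sS i j k}
      one_mem' := ⟨1, 0, 0, 0, by simp [sS_eq]⟩
      mul_mem' := by
        rintro _ _ ⟨q, i, j, k, rfl⟩ ⟨q', i', j', k', rfl⟩
        obtain ⟨e, h⟩ := spec0 (sS_C0 i j k) q'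
        exact ⟨q * _, i + i', j + j', k + k', by rw [← sS_mul, map_mul, ← h]; group⟩
      inv_mem' := by
        rintro _ ⟨q, i, j, k, rfl⟩
        obtain ⟨e, h⟩ := spec0 (sS_C0 i j k) q⁻¹
        exact ⟨_, i, j, k, by rw [← h, mul_inv_rev, inv_eq_of_mul_eq_one_right (sS_sq i j k), map_inv, mul_assoc, sS_sq,
          mul_one]⟩ }
  refine (show S0 ≤ H from gen_le fun i hi => ?_) hs
  simp only [List.mem_cons, List.not_mem_nil, or_false] at hi
  have ha : ∀ k, a k ∈ H := fun k => ⟨aq k, 0, 0, 0, by simp [sS_eq, φ_a]⟩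
  have hb : ∀ k, b k ∈ H := fun k => ⟨bq k, 0, 0, 0, by simp [sS_eq, φ_b]⟩
  rcases hi with rfl | rfl | rfl | rfl | rfl | rfl | rfl | rfl | rfl | rfl | rfl
  exacts [ha 0, ha 1, ha 2, ha 3, hb 0, hb 1, hb 2, hb 3, ⟨1, 1, 0, 0, by simp [sS_eq]⟩, ⟨1, 0, 1, 0, by simp [sS_eq]⟩,
    ⟨1, 0, 0, 1, by simp [sS_eq]⟩]

theorem act_nf (hi : Function.Injective ι) (q : QM) (i j k : Fin 2) : act (ι.comp φ) (ι (φ q * sS i j k)) = FS i j k :=
  funext fun v => by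
    rw [act_mul0 hi (φ_C0 q) (sS_C0 i j k), act_sS hi]
    exact act_psi' (ψ := ι.comp φ) (hi.comp φ_inj) q _

theorem act_S0 (hi : Function.Injective ι) {s : Γ0} (hs : s ∈ S0) : ∃ i j k, act (ι.comp φ) (ι s) = FS i j k := by
  obtain ⟨q, i, j, k, rfl⟩ := nf hs
  exact ⟨i, j, k, act_nf hi q i j k⟩

/-- commutators in `S0` lie in `Q` -/
theorem comm_S0 {s t : Γ0} (hs : s ∈ S0) (ht : t ∈ S0) : ∃ q, s * t * s⁻¹ * t⁻¹ = φ q := by
  obtain ⟨q, i, j, k, rfl⟩ := nf hs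
  obtain ⟨q', i', j', k', rfl⟩ := nf ht
  have c : sS i j k * sS i' j' k' = sS i' j' k' * sS i j k := by rw [sS_mul, sS_mul, add_comm i, add_comm j, add_comm k]
  obtain ⟨e, h⟩ := spec0 (sS_C0 i j k) q'
  obtain ⟨e', h'⟩ := spec0 (sS_C0 i' j' k') q⁻¹
  generalize (⟨_, e⟩ : QM) = p at h
  generalize (⟨_, e'⟩ : QM) = p' at h'
  refine ⟨q * p * p' * q'⁻¹, ?_⟩
  rw [map_mul, map_mul, map_mul, ← h, ← h', map_inv, map_inv]
  calc _ = φ q * sS i j k * φ q' * (sS i j k)⁻¹ * ((sS i j k * sS i' j' k') * (sS i j k)⁻¹) * (φ q)⁻¹ * (sS i' j' k')⁻¹ *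
      (φ q')⁻¹ := by group
    _ = _ := by rw [c]; group

def dX (i j k : Fin 3) : Ex := X.d1 ^ (i : ℕ) * X.d2 ^ (j : ℕ) * X.d3 ^ (k : ℕ)

/-- the elements of `D` -/
noncomputable def dD (i j k : Fin 3) : Γ0 := (dX i j k).ev g

def tD (i j k : Fin 3) : Fin 4 → ZMod 3 := (i : ℕ) • ![1, 1, 0, 0] + (j : ℕ) • ![1, 0, 1, 0] + (k : ℕ) • ![0, 0, 1, 1]

theorem dD_C0 (i j k : Fin 3) : dD i j k ∈ C0 := by
  have m : ∀ i ∈ List.range 14, g i ∈ C0 := fun i hi => mem_gen hi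
  exact mul_mem (mul_mem (pow_mem (m 8 (by simp)) _) (pow_mem (m 9 (by simp)) _)) (pow_mem (m 10 (by simp)) _)

theorem act_dD (hi : Function.Injective ι) (i j k : Fin 3) : act (ι.comp φ) (ι (dD i j k)) = rot (tD i j k) :=
  act_ex hi (dX i j k) (rot_add _) (by revert i j k; decide +kernel) (by revert i j k; decide +kernel)

end NF

end CL.P8
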