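/-
Project P8 (S2920): the block kernel acts by rotations.
-/
import Cfsg.Agent.P8.NF

set_option autoImplicit false

namespace CL.P8
open Cfsg Subgroup

variable {G : Type*} [Group G] [Finite G] {ι : Γ0 →* G}

namespace CsB

theorem relIndex_dvd {G : Type*} [Group G] [Finite G] (U K : Subgroup G) [K.Normal] : U.relIndex K ∣ U.index := by
  refine ⟨(U ⊔ K).index, Nat.eq_of_mul_eq_mul_left (Nat.pos_of_ne_zero (index_ne_zero_of_finite (H := K.subgroupOf U))) ?_⟩
  change K.relIndex U * _ = K.relIndex U * _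
  rw [← inf_relIndex_left, relIndex_mul_index inf_le_left, inf_relIndex_left, mul_left_comm, ← relIndex_sup_right U,
    relIndex_mul_index le_sup_right, ← inf_relIndex_right U, relIndex_mul_index inf_le_right]

/-- the additive map of the plane with given values on the basis -/
def lin (u w : P2) (p : P2) : P2 := p.1.val • u + p.2.val • w

/-- the sign of an automorphism of the plane -/
def eps (f : P2 → P2) : ℤˣ := if f (0, 1) = R2 (f (1, 0)) then 1 else -1

theorem lin_eq {f : P2 → P2} (add : ∀ p q, f (p + q) = f p + f q) : f = lin (f (1, 0)) (f (0, 1)) := by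
  let f' : P2 →+ P2 := AddMonoidHom.mk' f add
  funext p
  have : ∀ p : P2, p = p.1.val • (1, 0) + p.2.val • (0, 1) := by decide +kernel
  conv_lhs => rw [this p]
  exact (f'.map_add _ _).trans (by rw [map_nsmul, map_nsmul]; rfl)

theorem eps_mul {f f' : P2 → P2} (add : ∀ p q, f (p + q) = f p + f q) (add' : ∀ p q, f' (p + q) = f' p + f' q)
    (nz : ∀ p, f p = 0 ↔ p = 0) (nz' : ∀ p, f' p = 0 ↔ p = 0) : eps (fun p => f (f' p)) = eps f * eps f' := by
  rw [lin_eq add] at nz ⊢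
  rw [lin_eq add'] at nz' ⊢
  generalize f (1, 0) = u, f (0, 1) = w, f' (1, 0) = u', f' (0, 1) = w' at nz nz' ⊢
  revert u w u' w'; decide +kernel

theorem eps_one {f : P2 → P2} (add : ∀ p q, f (p + q) = f p + f q) (nz : ∀ p, f p = 0 ↔ p = 0) (h : eps f = 1) :
    ∃ t : ZMod 3, f = R2^[t.val] := by
  rw [lin_eq add] at nz h ⊢
  generalize f (1, 0) = u, f (0, 1) = w at nz h ⊢
  revert u w; decide +kernel

variable {ψ : QM →* G}

/-- the action on one block -/
noncomputable def fb (ψ : QM →* G) (x : G) (k : Fin 4) (p : P2) : P2 := act ψ x (sg k p) k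

omit [Finite G]

theorem fb_add (h : XQ ψ) {x : G} (hx : Commute x (ψ zq)) (k : Fin 4) (p q : P2) :
    fb ψ x k (p + q) = fb ψ x k p + fb ψ x k q := by
  rw [fb, show sg k (p + q) = sg k p + sg k q by revert k p q; decide +kernel, h.act_add hx]; rfl

theorem fb_nz {x : G} (hb : Bp ψ x 1) (k : Fin 4) (p : P2) : fb ψ x k p = 0 ↔ p = 0 := by
  exact (hb (sg k p) k).trans (by simp [sg])

theorem act_fb (h : XQ ψ) {x : G} (hx : Commute x (ψ zq)) (hb : Bp ψ x 1) (v : V) (k : Fin 4) :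
    act ψ x v k = fb ψ x k (v k) := by
  have e : v = sg k (v k) + (v + sg k (v k)) := by rw [add_comm v, ← add_assoc, V_add_self, zero_add]
  conv_lhs => rw [e, h.act_add hx]
  rw [Pi.add_apply, show act ψ x (v + sg k (v k)) k = 0 from (hb _ k).2 (by
    simpa [sg] using congrFun (V_add_self v) k), add_zero, fb]

theorem fb_mul (h : XQ ψ) {x y : G} (hx : Commute x (ψ zq)) (hy : Commute y (ψ zq)) (hb : Bp ψ x 1) (k : Fin 4) :
    fb ψ (x * y) k = fun p => fb ψ x k (fb ψ y k p) := funext fun p => by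
  rw [fb, h.act_mul hx hy, act_fb h hx hb]; rfl

theorem rot_of (h : XQ ψ) {x : G} (hx : Commute x (ψ zq)) (hb : Bp ψ x 1) (he : ∀ k, eps (fb ψ x k) = 1) :
    ∃ t, act ψ x = rot t := by
  choose t ht using fun k => eps_one (fb_add h hx k) (fb_nz hb k) (he k)
  exact ⟨t, funext fun v => funext fun k => by rw [act_fb h hx hb, ht]; rfl⟩

end CsB

open CsB NF

theorem csb (h : St ι) (hb : ∀ x, Commute x (ι z) → ∃ σ : Equiv.Perm (Fin 4), Equiv.Perm.sign σ = 1 ∧ Bp (ι.comp φ) x σ) :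
    CS ι := by
  refine ⟨hb, fun x hx h1 => ?_⟩
  let Bk : Subgroup G :=
    { carrier := {x | Commute x ((ι.comp φ) zq) ∧ Bp (ι.comp φ) x 1}
      one_mem' := ⟨.one_left _, h.xq.bp_one⟩
      mul_mem' := fun ha hb => ⟨ha.1.mul_left hb.1, h.xq.bp_mul ha.1 hb.1 ha.2 hb.2⟩
      inv_mem' := fun ha => ⟨ha.1.inv_left, h.xq.bp_inv ha.1 ha.2⟩ }
  have le : Bk ≤ centralizer {(ι.comp φ) zq} := fun _ hy => mem_centralizer_singleton_iff.2 hy.1
  have le' : S0.map ι ≤ centralizer {(ι.comp φ) zq} := by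
    rintro _ ⟨y, hy, rfl⟩
    exact mem_centralizer_singleton_iff.2 (cz ι (S0_le hy))
  have nm : (Bk.subgroupOf (centralizer {(ι.comp φ) zq})).Normal := ⟨fun y hy c => by
    have hc : Commute (c : G) ((ι.comp φ) zq) := mem_centralizer_singleton_iff.1 c.2
    obtain ⟨σ, -, hσ⟩ := hb c (psi_z ι ▸ hc)
    refine ⟨(hc.mul_left hy.1).mul_left hc.inv_left, ?_⟩
    simpa using h.xq.bp_mul (hc.mul_left hy.1) hc.inv_left (h.xq.bp_mul hc hy.1 hσ hy.2) (h.xq.bp_inv hc hσ)⟩
  obtain ⟨S, hS⟩ := h.syl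
  have d0 : (S0.map ι).relIndex Bk ∣ (S : Subgroup G).index := by
    rw [hS, ← relIndex_subgroupOf le]
    exact (relIndex_dvd _ _).trans (relIndex_dvd_index_of_le le')
  have key : ∀ k, ∀ y ∈ Bk, eps (fb (ι.comp φ) y k) = eps (fb (ι.comp φ) y 0) := fun k y hy => by
    have m : ∀ (a b : Bk) k, eps (fb (ι.comp φ) ((a * b : Bk) : G) k) =
        eps (fb (ι.comp φ) a k) * eps (fb (ι.comp φ) b k) := fun a b k => by
      rw [coe_mul, fb_mul h.xq a.2.1 b.2.1 a.2.2,
        eps_mul (fb_add h.xq a.2.1 k) (fb_add h.xq b.2.1 k) (fb_nz a.2.2 k) (fb_nz b.2.2 k)]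
    let χ : Bk →* ℤˣ := MonoidHom.mk' (fun y => eps (fb (ι.comp φ) y k) * eps (fb (ι.comp φ) y 0)) fun a b => by
      rw [m, m, mul_mul_mul_comm]
    have kk : (S0.map ι).subgroupOf Bk ≤ χ.ker := by
      rintro y ⟨s, hs, e⟩
      obtain ⟨i, j, l, e'⟩ := act_S0 h.inj hs
      have b1 := y.2.2
      show eps (fb _ (y : G) k) * eps (fb _ (y : G) 0) = 1
      rw [e] at e'
      unfold fb
      unfold Bp at b1
      rw [show act (ι.comp φ) (y : G) = FS i j l from e'] at b1 ⊢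
      have b2 := b1 (sg 0 (1, 1)) 0
      clear b1 e'
      revert i j l k; decide +kernel
    have d1 := (index_dvd_of_le kk).trans d0
    have d2 : χ.ker.index ∣ 2 := by
      rw [index_ker]
      simpa using card_subgroup_dvd_card χ.range
    have : χ.ker = ⊤ :=
      index_eq_one.1 (((Nat.dvd_prime Nat.prime_two).1 d2).resolve_right fun e => S.not_dvd_index (by rwa [e] at d1))
    have e : eps (fb (ι.comp φ) y k) * eps (fb (ι.comp φ) y 0) = 1 := this.ge (mem_top (⟨y, hy⟩ : Bk))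
    rw [eq_inv_of_mul_eq_one_left e, Int.units_inv_eq_self]
  have hx' := cz' hx
  rcases Int.units_eq_one_or (eps (fb (ι.comp φ) x 0)) with e | e
  · exact .inl (rot_of h.xq hx' h1 fun k => (key k x ⟨hx', h1⟩).trans e)
  · have c3 : Commute (ι s3) ((ι.comp φ) zq) := cz ι (mem_gen (by decide))
    have b3 : Bp (ι.comp φ) (x * ι s3) 1 := h.xq.bp_mul hx' c3 h1 (bp_s3 h.inj)
    refine .inr (rot_of h.xq (hx'.mul_left c3) b3 fun k => (key k _ ⟨hx'.mul_left c3, b3⟩).trans ?_)
    rw [fb_mul h.xq hx' c3 h1, eps_mul (fb_add h.xq hx' 0) (fb_add h.xq c3 0) (fb_nz h1 0) (fb_nz (bp_s3 h.inj) 0), e]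
    unfold fb
    rw [act_s3 h.inj]
    decide +kernel

end CL.P8
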