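/-
Project P8 (S2920): `C1 = C0` or `C1 = C0 ⟨y⟩`.
-/
import Cfsg.Agent.P8.Blk

set_option autoImplicit false

namespace CL.P8
open Cfsg Subgroup

variable {G : Type*} [Group G] {ι : Γ0 →* G}

namespace Dic

theorem act_div (h : St0 ι) {x y : G} (hx : Commute x (ι z)) (hy : Commute y (ι z)) {t u : Fin 4 → ZMod 3}
    (e : act (ι.comp φ) x = rot t) (e' : act (ι.comp φ) y = rot u) : act (ι.comp φ) (x * y⁻¹) = rot (t - u) := by
  rw [h.act_mul hx hy.inv_left, h.act_inv hy e', e, sub_eq_add_neg]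
  exact funext (rot_rot _ _)

theorem mem_C0 (h : St0 ι) {x : G} (hx : Commute x (ι z)) {t : Fin 4 → ZMod 3} (e : act (ι.comp φ) x = rot t)
    (ht : t 0 - t 1 - t 2 + t 3 = 0) : x ∈ C0.map ι := by
  obtain ⟨d, hd, e'⟩ := h.exists_d ht
  have cd := (C0_z (DD_le hd)).map ι
  have := h.mem_Q (hx.mul_left cd.inv_left) (by rw [act_div h hx cd e e', sub_self])
  simpa using mul_mem (map_mono (Qg_le.trans S0_le) this) (mem_map_of_mem ι (DD_le hd))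

theorem fix {ψ : QM →* G} (h : XQ ψ) {y : G} (hy : Commute y (ψ zq)) (h3 : y ^ 3 = 1) {p : QM} (e : act ψ y p.v = p.v) :
    Commute y (ψ p) := by
  obtain ⟨f, k⟩ := h.spec hy p
  rw [e] at k
  rcases QM.eq_or (p := ⟨p.v, f⟩) (q := p) rfl with l | l <;> rw [l] at k
  · exact mul_inv_eq_iff_eq_mul.1 k
  · exfalso
    rw [map_mul] at k
    have zz : ψ zq * ψ zq = 1 := by rw [← map_mul, zq_sq, map_one]
    have e1 : y * (ψ p * ψ zq) * y⁻¹ = ψ p := by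
      rw [← mul_assoc, mul_assoc _ (ψ zq), ← hy.inv_left.eq, ← mul_assoc, k, mul_assoc, zz, mul_one]
    have : y ^ 3 * ψ p * (y ^ 3)⁻¹ = y * (y * (y * ψ p * y⁻¹) * y⁻¹) * y⁻¹ := by rw [pow_three]; group
    rw [k, e1, k, h3] at this
    exact h.z_ne (by simpa using this)

theorem yel (h : St0 ι) {y : G} (hy : Commute y (ι z)) (h3 : y ^ 3 = 1) (e : act (ι.comp φ) y = rot ![0, 0, 0, 1]) :
    ∃ y, Yel ι y := by
  have hy' := cz' hy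
  obtain ⟨e1, k1⟩ := h.xq.spec hy' (aq 3)
  obtain ⟨e2, k2⟩ := h.xq.spec hy' (bq 3)
  rw [e] at k1 k2
  obtain ⟨c, ε, δ, m1, m2, m3, m4, m5⟩ : ∃ (c : P2) (ε δ : Fin 2),
      (⟨sg 3 c, 0⟩ : QM)⁻¹ * aq 3 * ⟨sg 3 c, 0⟩ = aq 3 * zq ^ (ε : ℕ) ∧
      ⟨sg 3 c, 0⟩ * (⟨rot ![0, 0, 0, 1] (aq 3).v, e1⟩ * zq ^ (ε : ℕ)) * (⟨sg 3 c, 0⟩ : QM)⁻¹ = bq 3 ∧
      (⟨sg 3 c, 0⟩ : QM)⁻¹ * bq 3 * ⟨sg 3 c, 0⟩ = bq 3 * zq ^ (δ : ℕ) ∧
      ⟨sg 3 c, 0⟩ * (⟨rot ![0, 0, 0, 1] (bq 3).v, e2⟩ * zq ^ (δ : ℕ)) * (⟨sg 3 c, 0⟩ : QM)⁻¹ = aq 3 * bq 3 ∧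
      ∀ k, k ≠ 3 → (⟨sg 3 c, 0⟩ : QM) * aq k = aq k * ⟨sg 3 c, 0⟩ ∧ (⟨sg 3 c, 0⟩ : QM) * bq k = bq k * ⟨sg 3 c, 0⟩ := by
    clear k1 k2
    revert e1 e2; decide +kernel
  generalize (⟨sg 3 c, 0⟩ : QM) = p at *
  have key : ∀ (q q' : QM) (n : ℕ), p⁻¹ * q * p = q * zq ^ n → y * (ι.comp φ) q * y⁻¹ = (ι.comp φ) q' →
      (ι.comp φ) p * y * ((ι.comp φ) p)⁻¹ * (ι.comp φ) q * ((ι.comp φ) p * y * ((ι.comp φ) p)⁻¹)⁻¹ =
        (ι.comp φ) (p * (q' * zq ^ n) * p⁻¹) := fun q q' n l l' => by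
    calc _ = (ι.comp φ) p * (y * (ι.comp φ) (p⁻¹ * q * p) * y⁻¹) * ((ι.comp φ) p)⁻¹ := by
          rw [map_mul, map_mul, map_inv]; group
      _ = _ := by
          rw [l, map_mul, map_mul, map_mul, map_mul, map_inv, map_pow, ← l', ← mul_assoc y, mul_assoc _ (_ ^ n),
            ← (hy'.inv_left.pow_right n).eq, ← mul_assoc _ y⁻¹]
  have cm : ∀ q, p * q = q * p → rot ![0, 0, 0, 1] q.v = q.v →
      Commute ((ι.comp φ) p * y * ((ι.comp φ) p)⁻¹) ((ι.comp φ) q) := fun q l l' => by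
    have c : Commute ((ι.comp φ) p) ((ι.comp φ) q) := (show Commute p q from l).map _
    exact (c.mul_left (fix h.xq hy' h3 (by rw [e, l']))).mul_left c.inv_left
  refine ⟨(ι.comp φ) p * y * ((ι.comp φ) p)⁻¹, by rw [conj_pow, h3, mul_one, mul_inv_cancel], fun k hk => ?_,
    fun k hk => ?_, ?_, ?_⟩
  · exact φ_a k ▸ cm (aq k) (m5 k hk).1 (by clear * - hk; revert k; decide +kernel)
  · exact φ_b k ▸ cm (bq k) (m5 k hk).2 (by clear * - hk; revert k; decide +kernel)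
  · have := key _ _ _ m1 k1
    rwa [m2, MonoidHom.comp_apply _ _ (aq 3), MonoidHom.comp_apply _ _ (bq 3), φ_a, φ_b] at this
  · have := key _ _ _ m3 k2
    rwa [m4, MonoidHom.comp_apply _ _ (aq 3 * bq 3), MonoidHom.comp_apply _ _ (bq 3), map_mul φ, φ_a, φ_b] at this

end Dic

open Dic

theorem dich (h : St0 ι) (hc : CS ι) : h.xq.C1 = C0.map ι ∨ ∃ y, Yel ι y ∧ h.xq.C1 = C0.map ι ⊔ zpowers y := by
  have red : ∀ x ∈ h.xq.C1, ∃ s ∈ C0.map ι, Commute (x * s) (ι z) ∧ ∃ t, act (ι.comp φ) (x * s) = rot t := fun x hx => by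
    obtain ⟨s, hs, t, e⟩ := h.red hc hx
    have m := S0_le (T0_le (SS_le hs))
    exact ⟨ι s, mem_map_of_mem ι m, (psi_z ι ▸ hx.1).mul_left ((C0_z m).map ι), t, e⟩
  by_cases h0 : h.xq.C1 ≤ C0.map ι
  · exact .inl (le_antisymm h0 h.C0_le)
  obtain ⟨x, hx, nx⟩ := SetLike.not_le_iff_exists.1 h0
  obtain ⟨y, hy⟩ : ∃ y, Yel ι y := by
    obtain ⟨s, hs, c, t, e⟩ := red x hx
    have n : t 0 - t 1 - t 2 + t 3 ≠ 0 := fun l => nx ((mul_mem_cancel_right hs).1 (mem_C0 h c e l))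
    obtain ⟨x1, c1, t1, e1, l1⟩ : ∃ x1, Commute x1 (ι z) ∧ ∃ t, act (ι.comp φ) x1 = rot t ∧ t 0 - t 1 - t 2 + t 3 = 1 := by
      have : t 0 - t 1 - t 2 + t 3 = 1 ∨ (-t) 0 - (-t) 1 - (-t) 2 + (-t) 3 = 1 := by clear e; revert t; decide +kernel
      exact this.elim (fun l => ⟨_, c, t, e, l⟩) fun l => ⟨_, c.inv_left, -t, h.act_inv c e, l⟩
    obtain ⟨d, hd, e'⟩ := h.exists_d (t := t1 - ![0, 0, 0, 1]) (by clear e1; revert t1; decide +kernel)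
    have cd := (C0_z (DD_le hd)).map ι
    have e2 := act_div h c1 cd e1 e'
    have c2 := c1.mul_left cd.inv_left
    rw [sub_sub_cancel] at e2
    generalize x1 * (ι d)⁻¹ = u at e2 c2
    obtain ⟨q, hq⟩ := (psi_range ι).ge (h.mem_Q (c2.pow_left 3) ((h.act_pow c2 e2 3).trans (congrArg rot (by decide))))
    refine yel h (c2.pow_left 4) ?_ ((h.act_pow c2 e2 4).trans (congrArg rot (by decide)))
    rw [← pow_mul, mul_comm, pow_mul, ← hq, ← map_pow, show q ^ 4 = 1 by clear hq; revert q; decide +kernel, map_one]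
  have ey := hy.act h.inj
  refine .inr ⟨y, hy, le_antisymm (fun x hx => ?_) (sup_le h.C0_le (zpowers_le.2 ⟨cz' hy.z, 1, .inl rfl, bp_rot ey⟩))⟩
  obtain ⟨s, hs, c, t, e⟩ := red x hx
  have := mem_C0 h (c.mul_left (hy.z.pow_left (t 0 - t 1 - t 2 + t 3).val).inv_left)
    (act_div h c (hy.z.pow_left _) e (h.act_pow hy.z ey _)) (by clear e; revert t; decide +kernel)
  simpa using mul_mem (mul_mem (mem_sup_left this) (mem_sup_right (npow_mem_zpowers y (t 0 - t 1 - t 2 + t 3).val)))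
    (mem_sup_left (inv_mem hs))

end CL.P8
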