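import Cfsg.Agent.P8.FinDefs
import Cfsg.Agent.P8.FinM
import Cfsg.Agent.P8.TCBig
import Cfsg.Agent.P8.TCE8
import Cfsg.Agent.Spor.TCYE7
import Cfsg.Agent.Spor.TCFi22E
import Cfsg.Agent.Spor.TCFi22F
import Cfsg.Agent.Spor.TCFi22G
import Cfsg.Agent.Spor.TCGroup

/-! A `Y₅₂₂`-type presentation of `PΩ₈⁺(3)` (job P8-FIN). -/

set_option autoImplicit false

namespace CL.P8
open CL.TC CL.PG

/-- the wreath product `G ≀ 2` -/
@[ext] structure Wr (G : Type*) where
  l : G
  r : G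
  s : Bool

section
variable {G : Type*} [Group G]

instance : Mul (Wr G) := ⟨fun x y => match x.s with
  | true => ⟨x.l * y.r, x.r * y.l, !y.s⟩
  | false => ⟨x.l * y.l, x.r * y.r, y.s⟩⟩
instance : One (Wr G) := ⟨⟨1, 1, false⟩⟩
instance : Inv (Wr G) := ⟨fun x => match x.s with
  | true => ⟨x.r⁻¹, x.l⁻¹, true⟩
  | false => ⟨x.l⁻¹, x.r⁻¹, false⟩⟩

theorem Wr.mul_t (a b : G) (y : Wr G) : (⟨a, b, true⟩ : Wr G) * y = ⟨a * y.r, b * y.l, !y.s⟩ := rfl
theorem Wr.mul_f (a b : G) (y : Wr G) : (⟨a, b, false⟩ : Wr G) * y = ⟨a * y.l, b * y.r, y.s⟩ := rfl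
theorem Wr.one_def : (1 : Wr G) = ⟨1, 1, false⟩ := rfl
theorem Wr.inv_t (a b : G) : (⟨a, b, true⟩ : Wr G)⁻¹ = ⟨b⁻¹, a⁻¹, true⟩ := rfl
theorem Wr.inv_f (a b : G) : (⟨a, b, false⟩ : Wr G)⁻¹ = ⟨a⁻¹, b⁻¹, false⟩ := rfl

instance : Group (Wr G) := Group.ofLeftAxioms
  (by rintro ⟨a, b, _ | _⟩ ⟨c, d, _ | _⟩ ⟨e, f, _ | _⟩ <;> simp [Wr.mul_t, Wr.mul_f, mul_assoc])
  (by rintro ⟨a, b, s⟩; simp [Wr.one_def, Wr.mul_f])
  (by rintro ⟨a, b, _ | _⟩ <;> simp [Wr.one_def, Wr.mul_f, Wr.mul_t, Wr.inv_t, Wr.inv_f])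

/-- the base group -/
def Wr.base : G × G →* Wr G where
  toFun x := ⟨x.1, x.2, false⟩
  map_one' := rfl
  map_mul' _ _ := rfl

theorem Wr.base_inj : Function.Injective (Wr.base : G × G →* Wr G) := fun _ _ h =>
  Prod.ext (congrArg Wr.l h) (congrArg Wr.r h)

/-- the involutions -/
def rho (g : ℕ → G) (i : ℕ) : Wr G := ⟨g i, (g i)⁻¹, true⟩

theorem rho_mul (g : ℕ → G) (i j : ℕ) : rho g i * rho g j = Wr.base (g i * (g j)⁻¹, (g i)⁻¹ * g j) := rfl

theorem rho_sq (g : ℕ → G) (i : ℕ) : rho g i * rho g i = 1 := by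
  rw [rho_mul, mul_inv_cancel, inv_mul_cancel]; rfl

theorem ev_even (g : ℕ → G) : ∀ w : List ℕ, w.length % 2 = 0 → ∃ y, ev (rho g) w = Wr.base (alt g w, y)
  | [], _ => ⟨1, rfl⟩
  | [_], h => by simp at h
  | i :: j :: w, h => by
    obtain ⟨y, e⟩ := ev_even g w (by simp only [List.length_cons] at h; omega)
    refine ⟨(g i)⁻¹ * g j * y, ?_⟩
    rw [ev_cons, ev_cons, e, ← mul_assoc, rho_mul, ← map_mul]; rfl

theorem ev_eq_one (g : ℕ → G) (i : ℕ) (w : List ℕ) (h : (i :: w).length % 2 = 0) (h1 : alt g (i :: w) = 1)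
    (h2 : alt g ((i :: w).rotate 1) = 1) : ev (rho g) (i :: w) = 1 := by
  obtain ⟨y, e⟩ := ev_even g _ h
  obtain ⟨y', e'⟩ := ev_even g ((i :: w).rotate 1) (by rwa [List.length_rotate])
  rw [h1] at e
  rw [h2, List.rotate_cons_succ, List.rotate_zero, ev_append, ev_cons, ev_nil, mul_one] at e'
  have k : rho g i * Wr.base (1, y) * rho g i = Wr.base (1, y') := by
    rw [← e, ← e', ev_cons, ← mul_assoc, rho_sq, one_mul]
  have k2 : g i * y * (g i)⁻¹ = 1 := congrArg Wr.l k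
  have : y = 1 := by simpa using k2
  rw [e, this]; rfl

theorem ev_rep {W : Type*} [Group W] (ρ : ℕ → W) (u : List ℕ) :
    ∀ m, ev ρ (List.replicate m u).flatten = ev ρ u ^ m
  | 0 => by simp [ev_nil]
  | m + 1 => by rw [List.replicate_succ, List.flatten_cons, ev_append, ev_rep ρ u m, pow_succ']

/-- the relators -/
def RR : List (List ℕ) :=
  ((List.range 10).flatMap fun i => (List.range 10).map fun j => (List.replicate (cox i j) [i, j]).flatten) ++ [wf, wz]

theorem cox_symm : ∀ i < 10, ∀ j < 10, cox i j = cox j i := by decide +kernel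

theorem Y5.rels {g : ℕ → G} (h : Y5 g) : ∀ r ∈ RR, ev (rho g) r = 1 := by
  intro r hr
  simp only [RR, List.mem_append, List.mem_flatMap, List.mem_map, List.mem_range, List.mem_cons,
    List.not_mem_nil, or_false] at hr
  rcases hr with ⟨i, hi, j, hj, rfl⟩ | rfl | rfl
  · rw [ev_rep, ev_cons, ev_cons, ev_nil, mul_one, rho_mul, ← map_pow, Prod.pow_mk, h.cox i hi j hj,
      show (g i)⁻¹ * g j = (g i)⁻¹ * (g j * (g i)⁻¹) * (g i)⁻¹⁻¹ by group, conj_pow, cox_symm i hi j hj,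
      h.cox j hj i hi]
    simp only [mul_one, mul_inv_cancel]; rfl
  · exact ev_eq_one g 0 wf.tail (by decide +kernel) h.f h.f'
  · exact ev_eq_one g 0 wz.tail (by decide +kernel) h.z h.z'
end

section
variable {W : Type*} [Group W]

/-- the subgroup generated by some letters -/
def sb (ρ : ℕ → W) (S : List ℕ) : Subgroup W := Subgroup.closure (ρ '' {i | i ∈ S})

theorem ev_map (ρ : ℕ → W) (f : ℕ → ℕ) : ∀ w : List ℕ, ev (fun i => ρ (f i)) w = ev ρ (w.map f)
  | [] => rfl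
  | i :: w => by rw [List.map_cons, ev_cons, ev_cons, ev_map ρ f w]

theorem ev_mem (ρ : ℕ → W) {H : Subgroup W} : ∀ w : List ℕ, (∀ i ∈ w, ρ i ∈ H) → ev ρ w ∈ H
  | [], _ => H.one_mem
  | i :: w, h => by
    rw [ev_cons]; exact H.mul_mem (h i (by simp)) (ev_mem ρ w fun j hj => h j (by simp [hj]))

theorem getD_range (C i : ℕ) : (List.range C).getD i i = i := by
  rcases lt_or_ge i C with h | h
  · simp [List.getD, h]
  · simp [List.getD, List.getElem?_eq_none (l := List.range C) (by simpa using h)]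

theorem tc_step {ρ : ℕ → W} (h2 : ∀ i, ρ i * ρ i = 1) (hR : ∀ r ∈ RR, ev ρ r = 1) {c : Cert} {invL : List ℕ}
    {rels subs : List (List ℕ)} {C : ℕ} (hv : c.Valid (fun i => invL.getD i i) rels subs C) (S T : List ℕ)
    (hi : invL = List.range C) (h1 : ∀ r ∈ rels, r.map (fun i => T.getD i 0) ∈ RR)
    (h3 : ∀ u ∈ subs, ∀ i ∈ u, T.getD i 0 ∈ S) (h4 : ∀ t ∈ T, ∃ i < C, T.getD i 0 = t) (h5 : ∀ s ∈ S, s ∈ T)
    {m : ℕ} (hm : UB (sb ρ S) m) : UB (sb ρ T) (c.N * m) := by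
  refine card_le_of_relIndex (Subgroup.closure_mono (Set.image_mono h5)) hm
    (hv.relIndex_le' (fun i => ρ (T.getD i 0)) (fun i => ?_) (fun r hr => ?_) (fun u hu => ?_) ?_)
  · rw [hi, getD_range]; exact eq_inv_of_mul_eq_one_left (h2 _)
  · rw [ev_map]; exact hR _ (h1 r hr)
  · exact ev_mem _ u fun i hi => Subgroup.subset_closure ⟨_, h3 u hu i hi, rfl⟩
  · refine Subgroup.closure_mono ?_
    rintro _ ⟨t, ht, rfl⟩
    obtain ⟨i, hi, e⟩ := h4 t ht
    exact ⟨i, hi, congrArg ρ e⟩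

theorem ubK {ρ : ℕ → W} (h2 : ∀ i, ρ i * ρ i = 1) (hR : ∀ r ∈ RR, ev ρ r = 1) :
    UB (sb ρ [0, 1, 2, 3, 4, 5, 6, 7, 8, 9]) 9904359628800 := by
  have a0 : UB (sb ρ []) 1 := by
    have : sb ρ [] = ⊥ := by simp [sb]
    rw [this]; exact UB.bot
  have a1 : UB (sb ρ [6, 0, 1, 2]) 120 := tc_step h2 hR Fi22G.valid _ _ rfl (by decide +kernel) (by decide +kernel)
    (by decide +kernel) (by decide +kernel) a0
  have a2 : UB (sb ρ [6, 0, 1, 2, 8]) 1920 := tc_step h2 hR Fi22F.valid _ _ rfl (by decide +kernel)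
    (by decide +kernel) (by decide +kernel) (by decide +kernel) a1
  have a3 : UB (sb ρ [7, 6, 0, 1, 2, 8]) 51840 := tc_step h2 hR Fi22E.valid _ _ rfl (by decide +kernel)
    (by decide +kernel) (by decide +kernel) (by decide +kernel) a2
  have a4 : UB (sb ρ [0, 1, 2, 3, 6, 7, 8]) 2903040 := tc_step h2 hR YE7.valid _ _ rfl (by decide +kernel)
    (by decide +kernel) (by decide +kernel) (by decide +kernel) a3
  have a5 : UB (sb ρ [0, 1, 2, 3, 4, 5, 6, 7, 8]) 348364800 := tc_step h2 hR P8E8.valid _ _ rfl (by decide +kernel)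
    (by decide +kernel) (by decide +kernel) (by decide +kernel) a4
  exact tc_step h2 hR P8Big.valid _ _ rfl (by decide +kernel) (by decide +kernel) (by decide +kernel)
    (by decide +kernel) a5
end

section
variable {G : Type*} [Group G]

theorem ub9 {g : ℕ → G} (h : Y5 g) : UB (evS g) 4952179814400 := by
  have u := ubK (rho_sq g) h.rels
  set K := sb (rho g) [0, 1, 2, 3, 4, 5, 6, 7, 8, 9] with hK
  have hm : ∀ i < 10, rho g i ∈ K := fun i hi => Subgroup.subset_closure ⟨i, by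
    simp only [Set.mem_ofPred_eq, List.mem_cons]; omega, rfl⟩
  have := u.1
  have hle : (K.comap Wr.base).map Wr.base ≤ K := Subgroup.map_comap_le _ _
  have hne : ¬ K ≤ (K.comap Wr.base).map Wr.base := fun hh => by
    obtain ⟨x, -, e⟩ := hh (hm 0 (by norm_num))
    exact Bool.noConfusion (congrArg Wr.s e)
  have h1 := Subgroup.relIndex_eq_one.not.2 hne
  have h0 : ((K.comap Wr.base).map Wr.base).relIndex K ≠ 0 := Subgroup.index_ne_zero_of_finite
  have h2 := Subgroup.card_mul_index (((K.comap Wr.base).map Wr.base).subgroupOf K)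
  rw [Nat.card_congr (Subgroup.subgroupOfEquivOfLe hle).toEquiv,
    Subgroup.card_map_of_injective Wr.base_inj] at h2
  have hf : Finite (K.comap Wr.base) := Finite.of_injective
    (fun x : K.comap Wr.base => (⟨Wr.base x.1, x.2⟩ : K)) fun x y e =>
      Subtype.ext (Wr.base_inj (congrArg Subtype.val e))
  have u2 : UB (K.comap Wr.base) 4952179814400 := ⟨hf, by
    have := u.2
    change _ * ((K.comap Wr.base).map Wr.base).relIndex K = _ at h2
    have h3 : 2 ≤ ((K.comap Wr.base).map Wr.base).relIndex K := by omega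
    nlinarith⟩
  refine (u2.map (MonoidHom.fst G G)).mono ((Subgroup.closure_le _).2 ?_)
  rintro _ ⟨i, hi, j, hj, rfl⟩
  exact ⟨(g i * (g j)⁻¹, (g i)⁻¹ * g j), K.mul_mem (hm i hi) (hm j hj), rfl⟩

theorem map_alt {Γ : Type*} [Group Γ] (φ : G →* Γ) (g : ℕ → G) : ∀ w : List ℕ, φ (alt g w) = alt (fun i => φ (g i)) w
  | [] => map_one φ
  | [_] => map_one φ
  | i :: j :: w => by simp only [alt, map_mul, map_inv, map_alt φ g w]

theorem map_evS {Γ : Type*} [Group Γ] (φ : G →* Γ) (g : ℕ → G) : (evS g).map φ = evS (fun i => φ (g i)) := by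
  unfold evS
  rw [MonoidHom.map_closure]
  congr 1
  ext x
  constructor
  · rintro ⟨_, ⟨i, hi, j, hj, rfl⟩, rfl⟩
    exact ⟨i, hi, j, hj, by rw [map_mul, map_inv]⟩
  · rintro ⟨i, hi, j, hj, rfl⟩
    exact ⟨_, ⟨i, hi, j, hj, rfl⟩, by rw [map_mul, map_inv]⟩

theorem Y5.prod {Γ : Type*} [Group Γ] {g : ℕ → G} {γ : ℕ → Γ} (h : Y5 g) (h' : Y5 γ) : Y5 fun i => (g i, γ i) := by
  have k : ∀ w, alt g w = 1 → alt γ w = 1 → alt (fun i => (g i, γ i)) w = 1 := fun w a b =>
    Prod.ext ((map_alt (MonoidHom.fst G Γ) _ w).trans a) ((map_alt (MonoidHom.snd G Γ) _ w).trans b)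
  exact ⟨fun i hi j hj => Prod.ext (h.cox i hi j hj) (h'.cox i hi j hj), k _ h.f h'.f, k _ h.f' h'.f',
    k _ h.z h'.z, k _ h.z' h'.z'⟩

/-- the product trick -/
theorem equiv_of_model {Γ : Type*} [Group Γ] {g : ℕ → G} {γ : ℕ → Γ} (h : Y5 g) (hne : g 0 ≠ g 1) (h' : Y5 γ)
    (hc : Nat.card (evS γ) = 4952179814400) (hs : IsSimpleGroup (evS γ)) : Nonempty (evS g ≃* evS γ) := by
  have u := ub9 (h.prod h')
  set K := evS fun i => (g i, γ i) with hK
  have e1 : K.map (MonoidHom.fst G Γ) = evS g := map_evS _ _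
  have e2 : K.map (MonoidHom.snd G Γ) = evS γ := map_evS _ _
  have := u.1
  have hb := ((MonoidHom.snd G Γ).subgroupMap_surjective K).bijective_of_nat_card_le
    (u.2.trans (by rw [e2, hc]))
  let a : K ≃* evS γ := (MulEquiv.ofBijective _ hb).trans (MulEquiv.subgroupCongr e2)
  have : IsSimpleGroup K := a.isSimpleGroup
  have hi : Function.Injective ((MonoidHom.fst G Γ).subgroupMap K) := by
    rw [← MonoidHom.ker_eq_bot_iff]
    refine (Subgroup.Normal.eq_bot_or_eq_top inferInstance).resolve_right fun ht => hne ?_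
    have hm : (g 0, γ 0) * (g 1, γ 1)⁻¹ ∈ K := Subgroup.subset_closure ⟨0, by norm_num, 1, by norm_num, rfl⟩
    have : (⟨_, hm⟩ : K) ∈ ((MonoidHom.fst G Γ).subgroupMap K).ker := ht ▸ Subgroup.mem_top _
    exact mul_inv_eq_one.1 (congrArg Subtype.val this)
  exact ⟨((MulEquiv.subgroupCongr e1).symm.trans (MulEquiv.ofBijective _
    ⟨hi, (MonoidHom.fst G Γ).subgroupMap_surjective K⟩).symm).trans a⟩
end

namespace M
open CL.Std.O8p3

noncomputable def gs2 : List (Equiv.Perm (Fin P.n)) := ext gs1 xws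
theorem c2 : Ctx P (eF P.n) gs2 xns xD xchk := xctx c1 (faithful_eF _) fun _ _ => trivial

/-- the model -/
noncomputable def gam (i : ℕ) : Equiv.Perm (Fin P.n) := letG gs2 (2 * (22 + i))

def altW : List ℕ → List ℕ
  | i :: j :: w => 2 * (22 + i) :: Nat.xor (2 * (22 + j)) 1 :: altW w
  | _ => []

theorem wordG_altW : ∀ w : List ℕ, wordG gs2 (altW w) = alt gam w
  | [] => rfl
  | [_] => rfl
  | i :: j :: w => by
    rw [altW, wordG_cons, wordG_cons, letG_xor, wordG_altW w, ← mul_assoc]; rfl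

noncomputable def RM : List (List ℕ × List ℕ) :=
  ((List.range 10).flatMap fun i => (List.range 10).map fun j => (powW (altW [i, j]) (cox i j), [])) ++
    [(altW wf, []), (altW (wf.rotate 1), []), (altW wz, []), (altW (wz.rotate 1), []), ([44], [])]

theorem zR : xchk RM = true := by decide +kernel

theorem hR : Rels gs2 RM := c2.rels _ zR

theorem y5 : Y5 gam := by
  have k : ∀ w, (altW w, []) ∈ RM → alt gam w = 1 := fun w hw => (wordG_altW w).symm.trans (hR _ hw)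
  refine ⟨fun i hi j hj => ?_, k _ (by simp [RM]), k _ (by simp [RM]), k _ (by simp [RM]), k _ (by simp [RM])⟩
  have := hR (powW (altW [i, j]) (cox i j), []) (List.mem_append_left _ (List.mem_flatMap.2
    ⟨i, List.mem_range.2 hi, List.mem_map.2 ⟨j, List.mem_range.2 hj, rfl⟩⟩))
  rw [wordG_powW, wordG_altW] at this
  simpa [alt] using this

theorem gam0 : gam 0 = 1 := (wordG_single gs2 44).symm.trans (hR ([44], []) (by simp [RM]))

theorem evS_eq : evS gam = subW gs1 [[0], [2], [4]] := by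
  have e : subW gs2 [[0], [2], [4]] = subW gs1 [[0], [2], [4]] := subW_ext (xlen c1) xws (by decide +kernel)
  have hm : ∀ i < 10, gam i ∈ subW gs1 [[0], [2], [4]] := fun i hi => by
    rw [← e]
    refine xle c2 ?_
    rw [gam, ← wordG_single]
    refine mem_subW ?_
    interval_cases i <;> simp
  refine ub.eq_of_lb ((xK_lb c2).mono (subW_le.2 fun w hw => ?_)) ((Subgroup.closure_le _).2 ?_)
  · have k : ∀ i < 10, wordG gs2 [2 * (22 + i)] ∈ evS gam := fun i hi => by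
      rw [wordG_single]
      exact Subgroup.subset_closure ⟨i, hi, 0, by norm_num, by rw [gam0, inv_one, mul_one]; rfl⟩
    simp only [List.mem_cons, List.not_mem_nil, or_false] at hw
    rcases hw with rfl | rfl | rfl | rfl | rfl | rfl | rfl | rfl | rfl
    exacts [k 1 (by norm_num), k 2 (by norm_num), k 3 (by norm_num), k 4 (by norm_num), k 5 (by norm_num),
      k 6 (by norm_num), k 7 (by norm_num), k 8 (by norm_num), k 9 (by norm_num)]
  · rintro _ ⟨i, hi, j, hj, rfl⟩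
    exact Subgroup.mul_mem _ (hm i hi) (Subgroup.inv_mem _ (hm j hj))
end M

/-- **The presentation of `PΩ₈⁺(3)`.** -/
theorem rec3 {G : Type*} [Group G] {g : ℕ → G} (h : Y5 g) (hne : g 0 ≠ g 1) :
    Nonempty (evS g ≃* Cfsg.POmega (ZMod 3) (Cfsg.quadFormPlus 4 (ZMod 3))) := by
  obtain ⟨a⟩ := equiv_of_model h hne M.y5 (M.evS_eq ▸ CL.Std.O8p3.card) (M.evS_eq ▸ CL.Std.O8p3.simple)
  obtain ⟨b⟩ := CL.Std.O8p3.iso (F := ZMod 3) (ZMod.card 3)
  exact ⟨(a.trans (MulEquiv.subgroupCongr M.evS_eq)).trans b⟩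

end CL.P8
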