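/-
Project P8 (S2920): the conjugates of `z` in `Q`.
-/
import Cfsg.Agent.P8.NF
import Cfsg.Agent.Grp.SylowIn
import Cfsg.Agent.Grp.ExtraBasic

set_option autoImplicit false

namespace CL.P8
open Cfsg Subgroup CL.Grp
open scoped Pointwise

variable {G : Type*} [Group G] [Finite G] {ι : Γ0 →* G}

namespace FUS

theorem cm_v (p q : QM) : (p * q * p⁻¹ * q⁻¹).v = 0 := by rw [QM.conj]; exact V_add_self _

theorem cm_z {p q : QM} (h : p * q ≠ q * p) : p * q * p⁻¹ * q⁻¹ = zq :=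
  (QM.v_eq_zero (cm_v p q)).resolve_left fun e => h (by rwa [mul_inv_eq_one, mul_inv_eq_iff_eq_mul] at e)

theorem mem_cen {p : QM} : p ∈ center QM ↔ p.v = 0 :=
  ⟨fun h => B_nondeg fun k => ⟨(QM.comm_iff p (aq k)).1 (mem_center_iff.1 h _).symm,
    (QM.comm_iff p (bq k)).1 (mem_center_iff.1 h _).symm⟩, fun h => mem_center_iff.2 fun q => by
      rcases QM.v_eq_zero h with rfl | rfl
      exacts [by simp, zq_comm q]⟩

theorem pQ : IsPGroup 2 QM := IsPGroup.of_card (n := 9) card_QM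

theorem extra : IsExtraspecial 2 QM := by
  refine isExtraspecial_of_center ?_ (commutator_le.2 fun a _ b _ => mem_cen.2 (cm_v a b))
    (fun h => absurd (h.1.1 (aq 0) (bq 0)) (by decide)) pQ
  rw [show center QM = zpowers zq from le_antisymm (fun p hp => by
      rcases QM.v_eq_zero (mem_cen.1 hp) with rfl | rfl
      exacts [one_mem _, mem_zpowers _]) (zpowers_le.2 (mem_cen.2 rfl)), Nat.card_zpowers]
  exact orderOf_eq_prime (by rw [pow_two, zq_sq]) zq_ne

theorem ab {A : Subgroup QM} (h : ∀ a ∈ A, ∀ b ∈ A, a * b = b * a) : Nat.card A ≤ 32 :=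
  extra_card_le_of_isMulCommutative extra (n := 4) card_QM A ⟨⟨fun a b => Subtype.ext (h _ a.2 _ b.2)⟩⟩

theorem card_c {q : QM} (h : q.v ≠ 0) : Nat.card (centralizer ({q} : Set QM)) = 256 := by
  have := (centralizer ({q} : Set QM)).card_mul_index
  rw [extra_index_centralizer extra fun e => h (mem_cen.1 e), card_QM] at this
  omega

theorem into (h : St ι) {k : G} {q : QM} (e : k * (ι.comp φ) q * k⁻¹ = (ι.comp φ) zq) :
    ∃ c, Commute c ((ι.comp φ) zq) ∧ ∀ p, p * q = q * p → ∃ s ∈ S0, ι s = c * (k * (ι.comp φ) p * k⁻¹) * c⁻¹ := by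
  obtain ⟨S, hS⟩ := h.syl
  obtain ⟨c, hc, h1⟩ := (isSylowIn_of_le S (H := centralizer {(ι.comp φ) zq}) (by
      rw [hS]; rintro _ ⟨s, hs, rfl⟩; exact mem_centralizer_singleton_iff.2 (cz ι (S0_le hs)))).exists_conj_le
    (U := (centralizer {q}).map ((MulAut.conj k).toMonoidHom.comp (ι.comp φ))) ((pQ.to_subgroup _).map _) (by
      rintro _ ⟨p, hp, rfl⟩
      rw [mem_centralizer_singleton_iff, ← e]
      exact (show Commute p q from mem_centralizer_singleton_iff.1 hp).map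
        ((MulAut.conj k).toMonoidHom.comp (ι.comp φ)))
  rw [hS, conj_smul_le_iff] at h1
  exact ⟨c, mem_centralizer_singleton_iff.1 hc, fun p hp => h1 _ ⟨p, mem_centralizer_singleton_iff.2 hp, rfl⟩⟩

theorem sym (h : St ι) {g : G} {q : QM} (hq : q.v ≠ 0) (e : g * (ι.comp φ) zq * g⁻¹ = (ι.comp φ) q) :
    ∃ q', g * (ι.comp φ) q' * g⁻¹ = (ι.comp φ) zq := by
  obtain ⟨c, hc, h1⟩ := into h (k := g⁻¹) (q := q) (by rw [← e]; group)
  obtain ⟨p, hp, p', hp', hn⟩ : ∃ p ∈ centralizer ({q} : Set QM), ∃ p' ∈ centralizer ({q} : Set QM), p * p' ≠ p' * p := by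
    by_contra! hc
    exact absurd ((card_c hq).ge.trans (ab hc)) (by norm_num)
  obtain ⟨s, hs, e1⟩ := h1 p (mem_centralizer_singleton_iff.1 hp)
  obtain ⟨t, ht, e2⟩ := h1 p' (mem_centralizer_singleton_iff.1 hp')
  obtain ⟨r, e3⟩ := NF.comm_S0 hs ht
  obtain ⟨q', e4⟩ := h.xq.nq _ hc.inv_left r
  refine ⟨q', ?_⟩
  rw [← e4, MonoidHom.comp_apply ι φ r, ← e3, ← cm_z hn]
  simp only [map_mul, map_inv, e1, e2]
  group

end FUS

open FUS in
theorem fus (h : St ι) : Fus ι := by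
  intro q hq
  refine or_iff_not_imp_left.2 fun nq => ?_
  obtain ⟨g, hg⟩ := isConj_iff.1 hq
  rw [← psi_z ι] at hg ⊢
  change _ = (ι.comp φ) q at hg
  have X := h.xq
  have nz : ∀ {k : G} {p : QM}, k * (ι.comp φ) zq * k⁻¹ = (ι.comp φ) p → p ≠ zq → p.v ≠ 0 := fun {k p} e n e0 =>
    X.z_ne (by rw [(QM.v_eq_zero e0).resolve_right n, map_one] at e; exact conj_eq_one_iff.1 e)
  obtain ⟨q', e'⟩ := sym h (nz hg nq) hg
  have nq' : q'.v ≠ 0 := nz (k := g⁻¹) (by rw [← e']; group) fun e => nq (X.inj (hg.symm.trans (e ▸ e')))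
  obtain ⟨c, hc, h1⟩ := into h e'
  obtain ⟨q1, e1⟩ := X.nq c hc q
  have n1 : q1 ≠ zq := fun e => nq (X.inj (by
    rw [e, mul_inv_eq_iff_eq_mul, ← hc.eq] at e1; exact mul_left_cancel e1))
  let κ : QM →* G := (MulAut.conj (c * g)).toMonoidHom.comp (ι.comp φ)
  have hκ : ∀ p, κ p = c * (g * (ι.comp φ) p * g⁻¹) * c⁻¹ := fun p => by simp [κ, mul_assoc]
  have κz : κ zq = (ι.comp φ) q1 := by rw [hκ, hg, e1]
  have iκ : Function.Injective κ := (MulAut.conj (c * g)).injective.comp X.inj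
  let R := (centralizer {q'}).map κ
  have RS : R ≤ S0.map ι := by
    rintro _ ⟨p, hp, rfl⟩
    rw [hκ]; exact h1 p (mem_centralizer_singleton_iff.1 hp)
  have SC : ∀ x ∈ S0.map ι, Commute x ((ι.comp φ) zq) := by rintro _ ⟨s, hs, rfl⟩; exact cz ι (S0_le hs)
  have c1 := card_sup_mul_card_inf (H := R) (K := (ι.comp φ).range) fun x hx => mem_normalizer_fintype (by
    rintro _ ⟨p, rfl⟩; exact let ⟨p', e⟩ := X.nq x (SC x (RS hx)) p; ⟨p', e.symm⟩)
  have c2 : Nat.card (R ⊓ (ι.comp φ).range : Subgroup G) ≤ 32 := by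
    rw [inf_comm, ← map_comap_eq, card_map_of_injective X.inj]
    refine ab fun a ⟨p, _, ha⟩ b ⟨p', _, hb⟩ => by_contra fun hn => n1 (X.inj ?_)
    have k := congrArg κ (cm_z (p := p) (q := p') fun e => hn (X.inj (by
      rw [map_mul, map_mul, ← ha, ← hb, ← map_mul, e, map_mul])))
    rw [← κz, ← k, ← cm_z hn]
    simp only [map_mul, map_inv, ha, hb]
  rw [card_map_of_injective iκ, card_c nq', MonoidHom.range_eq_map, card_map_of_injective X.inj, card_top, card_QM,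
    ← MonoidHom.range_eq_map] at c1
  have c3 : R ⊔ (ι.comp φ).range = S0.map ι := eq_of_le_of_card_ge
    (sup_le RS (psi_range ι ▸ map_mono Qg_le)) (by
      rw [card_map_of_injective h.inj, card_S0]
      have := Nat.mul_le_mul_left (Nat.card (R ⊔ (ι.comp φ).range : Subgroup G)) c2
      omega)
  let H : Subgroup G :=
    { carrier := {x | Commute x ((ι.comp φ) zq) ∧ act (ι.comp φ) x q1.v = q1.v}
      one_mem' := ⟨.one_left _, X.act_one _⟩
      mul_mem' := fun a b => ⟨a.1.mul_left b.1, by rw [X.act_mul a.1 b.1, b.2, a.2]⟩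
      inv_mem' := fun a => ⟨a.1.inv_left, by conv_lhs => rw [← a.2, X.act_inv a.1]⟩ }
  have c4 : S0.map ι ≤ H := c3 ▸ sup_le (fun x hx => ⟨SC x (RS hx), act_eq X.inj (SC x (RS hx)) (by
      obtain ⟨p, -, rfl⟩ := hx
      rw [← κz, ← map_mul, zq_comm, map_mul, mul_inv_cancel_right])⟩)
    (by rintro _ ⟨p, rfl⟩; exact ⟨comm_z _ p, X.act_psi p _⟩)
  have m : ∀ i ∈ [0, 1, 2, 3, 4, 5, 6, 7, 11, 12, 13], act (ι.comp φ) (ι (CL.P8.g i)) q1.v = q1.v := fun i hi =>
    (c4 (mem_map_of_mem ι (mem_gen hi))).2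
  have v1 : q1.v = qzp.v := fix_zp (nz (k := c * g) (by rw [← κz]; rfl) n1)
    (by simpa only [act_s1 h.inj] using m 11 (by simp)) (by simpa only [act_s2 h.inj] using m 12 (by simp))
    (by simpa only [act_s3 h.inj] using m 13 (by simp))
  rw [← φ_zp]
  rcases QM.eq_or v1 with rfl | rfl
  · exact ⟨c, hc, e1⟩
  · refine ⟨(ι.comp φ) (aq 0) * c, (comm_z _ _).mul_left hc, ?_⟩
    change _ * (ι.comp φ) q * _ = (ι.comp φ) qzp
    rw [← show aq 0 * (qzp * zq) * (aq 0)⁻¹ = qzp by decide, map_mul, map_mul, map_inv, ← e1]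
    group

end CL.P8
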