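/-
The 45 two-central involutions of `PSp_4(3)` form the points of the generalised quadrangle `GQ(4,2)`;
centralisers of involutions in `A_8` and `A_9` have order prime to 9.
-/
import Cfsg.Agent.P8.GQM
import Mathlib.GroupTheory.Perm.Centralizer

set_option autoImplicit false
set_option maxRecDepth 200000

namespace CL.P8.GQM
open CL.PG

/-- Conjugating the `i`-th involution by the letter `g` gives the involution `pi g i`. -/
noncomputable def pi (g i : ℕ) : ℕ :=
  Nat.land (Nat.shiftRight tT (Nat.mul 6 (Nat.add (Nat.mul 45 g) i))) 63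

/-- The involutions commuting with the `i`-th one, as a mask. -/
noncomputable def row (i : ℕ) : ℕ :=
  Nat.mod (Nat.shiftRight tA (Nat.mul 45 i)) (Nat.pow 2 45)

noncomputable def adj (i j : ℕ) : Bool := Nat.testBit (row i) j

noncomputable def wit (i j : ℕ) : ℕ :=
  Nat.land (Nat.shiftRight tW (Nat.mul 6 (Nat.add (Nat.mul 45 i) j))) 63

noncomputable def rC : List (List ℕ × List ℕ) :=
  (List.range 4).flatMap fun g => (List.range 45).map fun i => ([g, dl i], [dl (pi g i), g])

noncomputable def rA : List (List ℕ × List ℕ) :=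
  (List.range 45).flatMap fun i =>
    ((List.range 45).filter fun j => adj i j).map fun j => ([dl i, dl j], [dl j, dl i])

theorem k1 : xchk rC = true := by decide +kernel
theorem k2 : xchk rA = true := by decide +kernel
theorem k3 : allL (fun i => allL (fun j => Bool.rec (movB CL.Std.PS43.P.n CL.Std.PS43.P.N xns
    [dl i, dl j, Nat.xor (dl i) 1, Nat.xor (dl j) 1] (wit i j)) true (adj i j)) (List.range 45))
    (List.range 45) = true := by decide +kernel
theorem k4 : allL (fun g => allL (fun i => Nat.blt (pi g i) 45) (List.range 45)) (List.range 4) = true := by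
  decide +kernel
theorem k5 : ∀ i < 45, i = 0 ∨ ∃ p < i, i = pi 0 p ∨ i = pi 2 p := by decide +kernel
theorem k6 : allL (fun b => allL (fun c => Bool.rec true (Bool.rec (allL (fun a =>
    Nat.blt 0 (Nat.land (row a) (Nat.land (row b) (row c)))) (List.range 45)) true (Nat.beq b c)) (adj b c))
    (List.range 45)) (List.range 45) = true := by decide +kernel
theorem k7 : allL (fun b => allL (fun c => Bool.rec true (Bool.rec
    (Nat.ble ((List.range 45).filter fun k => adj b k && adj c k).length 5) true (Nat.beq b c)) (adj b c))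
    (List.range 45)) (List.range 45) = true := by decide +kernel

theorem lt_of_adj {i j : ℕ} (h : adj i j = true) : j < 45 := by
  by_contra hj
  have : (row i).testBit j = false :=
    Nat.testBit_lt_two_pow (lt_of_lt_of_le (Nat.mod_lt _ (by norm_num))
      (Nat.pow_le_pow_right (by norm_num) (not_lt.mp hj)))
  rw [adj, this] at h
  exact absurd h (by simp)

theorem c6 {a b c : ℕ} (ha : a < 45) (hb : b < 45) (hc : c < 45) (hne : b ≠ c) (h : adj b c = true) :
    ∃ d < 45, adj a d = true ∧ adj b d = true ∧ adj c d = true := by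
  have h1 := allL_spec (allL_spec k6 b (List.mem_range.mpr hb)) c (List.mem_range.mpr hc)
  have hb' : Nat.beq b c = false := by
    cases hx : Nat.beq b c
    · rfl
    · exact absurd (Nat.eq_of_beq_eq_true hx) hne
  rw [h, hb'] at h1
  have h2 : 0 < row a &&& (row b &&& row c) := Nat.blt_eq.mp (allL_spec h1 a (List.mem_range.mpr ha))
  obtain ⟨d, hd⟩ := Nat.exists_testBit_of_ne_zero h2.ne'
  rw [Nat.testBit_and, Nat.testBit_and, Bool.and_eq_true, Bool.and_eq_true] at hd
  exact ⟨d, lt_of_adj hd.1, hd.1, hd.2.1, hd.2.2⟩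

theorem c7 {b c : ℕ} (hb : b < 45) (hc : c < 45) (hne : b ≠ c) (h : adj b c = true) :
    ((List.range 45).filter fun k => adj b k && adj c k).length ≤ 5 := by
  have h1 := allL_spec (allL_spec k7 b (List.mem_range.mpr hb)) c (List.mem_range.mpr hc)
  have hb' : Nat.beq b c = false := by
    cases hx : Nat.beq b c
    · rfl
    · exact absurd (Nat.eq_of_beq_eq_true hx) hne
  rw [h, hb'] at h1
  exact Nat.le_of_ble_eq_true h1

section
variable {G X : Type*} [Group G] [MulAction G X] {e : ℕ → X} {gs : List G}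

/-- The `i`-th involution. -/
noncomputable def dlt (gs : List G) (i : ℕ) : G := letG gs (dl i)

theorem conj_dlt (c : Ctx CL.Std.PS43.P e gs xns xD xchk) {g i : ℕ} (hg : g < 4) (hi : i < 45) :
    letG gs g * dlt gs i * (letG gs g)⁻¹ = dlt gs (pi g i) := by
  have := c.rels _ k1 ([g, dl i], [dl (pi g i), g])
    (List.mem_flatMap.mpr ⟨g, List.mem_range.mpr hg, List.mem_map.mpr ⟨i, List.mem_range.mpr hi, rfl⟩⟩)
  simp only [wordG_cons, wordG_nil, mul_one] at this
  rw [dlt, dlt, this, mul_inv_cancel_right]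

theorem pi_lt {g i : ℕ} (hg : g < 4) (hi : i < 45) : pi g i < 45 :=
  Nat.blt_eq.mp (allL_spec (allL_spec k4 g (List.mem_range.mpr hg)) i (List.mem_range.mpr hi))

theorem comm_iff (c : Ctx CL.Std.PS43.P e gs xns xD xchk) {i j : ℕ} (hi : i < 45) (hj : j < 45) :
    Commute (dlt gs i) (dlt gs j) ↔ adj i j = true := by
  constructor
  · intro h
    by_contra hn
    have hn' : adj i j = false := by simpa using hn
    have h1 := allL_spec (allL_spec k3 i (List.mem_range.mpr hi)) j (List.mem_range.mpr hj)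
    rw [hn'] at h1
    apply c.ne_one h1
    simp only [wordG_cons, wordG_nil, letG_xor, mul_one]
    have h2 : letG gs (dl i) * letG gs (dl j) = letG gs (dl j) * letG gs (dl i) := h.eq
    rw [← mul_assoc, h2]; group
  · intro h
    have := c.rels _ k2 ([dl i, dl j], [dl j, dl i])
      (List.mem_flatMap.mpr ⟨i, List.mem_range.mpr hi,
        List.mem_map.mpr ⟨j, List.mem_filter.mpr ⟨List.mem_range.mpr hj, h⟩, rfl⟩⟩)
    simp only [wordG_cons, wordG_nil, mul_one] at this
    exact this

theorem isConj_dlt (c : Ctx CL.Std.PS43.P e gs xns xD xchk) : ∀ i, i < 45 → IsConj (dlt gs 0) (dlt gs i) := by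
  intro i
  induction i using Nat.strong_induction_on with
  | _ i ih =>
    intro hi
    rcases k5 i hi with rfl | ⟨p, hp, h | h⟩
    · exact IsConj.refl _
    · refine (ih p hp (hp.trans hi)).trans (isConj_iff.mpr ⟨letG gs 0, ?_⟩)
      rw [conj_dlt c (by norm_num) (hp.trans hi), ← h]
    · refine (ih p hp (hp.trans hi)).trans (isConj_iff.mpr ⟨letG gs 2, ?_⟩)
      rw [conj_dlt c (by norm_num) (hp.trans hi), ← h]

theorem conj_closed (c : Ctx CL.Std.PS43.P e gs xns xD xchk) {h : G} (hh : h ∈ subW gs [[0], [2]]) :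
    ∀ i < 45, ∃ j < 45, h * dlt gs i * h⁻¹ = dlt gs j := by
  refine Subgroup.closure_induction'' (p := fun h _ => ∀ i < 45, ∃ j < 45, h * dlt gs i * h⁻¹ = dlt gs j)
    ?_ ?_ ?_ ?_ hh
  · rintro x ⟨w, hw, rfl⟩ i hi
    simp only [List.mem_cons, List.not_mem_nil, or_false] at hw
    rcases hw with rfl | rfl
    · exact ⟨_, pi_lt (g := 0) (by norm_num) hi, by rw [wordG_single]; exact conj_dlt c (by norm_num) hi⟩
    · exact ⟨_, pi_lt (g := 2) (by norm_num) hi, by rw [wordG_single]; exact conj_dlt c (by norm_num) hi⟩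
  · rintro x ⟨w, hw, rfl⟩ i hi
    simp only [List.mem_cons, List.not_mem_nil, or_false] at hw
    rcases hw with rfl | rfl
    · refine ⟨_, pi_lt (g := 1) (by norm_num) hi, ?_⟩
      rw [wordG_single, ← letG_xor]; exact conj_dlt c (g := 1) (by norm_num) hi
    · refine ⟨_, pi_lt (g := 3) (by norm_num) hi, ?_⟩
      rw [wordG_single, ← letG_xor]; exact conj_dlt c (g := 3) (by norm_num) hi
  · intro i hi
    exact ⟨i, hi, by simp⟩
  · intro x y _ _ hx hy i hi
    obtain ⟨j, hj, h1⟩ := hy i hi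
    obtain ⟨k, hk, h2⟩ := hx j hj
    exact ⟨k, hk, by rw [← h2, ← h1]; group⟩

theorem isConj_iff_dlt {o : ℕ} (t : Top CL.Std.PS43.P xns xD xchk [[0], [2]] o e gs) {a : G} :
    IsConj (dlt gs 0) a ↔ ∃ i < 45, a = dlt gs i := by
  constructor
  · intro h
    obtain ⟨g, rfl⟩ := isConj_iff.mp h
    obtain ⟨j, hj, h1⟩ := conj_closed t.c (h := g) (by rw [t.top]; trivial) 0 (by norm_num)
    exact ⟨j, hj, h1⟩
  · rintro ⟨i, hi, rfl⟩
    exact isConj_dlt t.c i hi

theorem eq_dlt (c : Ctx CL.Std.PS43.P e gs xns xD xchk) {t : G} (ht : orderOf t = 2)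
    (hS : t ∈ subW gs [[24], [26], [28], [30]])
    (hc : ∀ s ∈ subW gs [[24], [26], [28], [30]], s * t = t * s) : t = dlt gs 0 := by
  have h1 : t ∈ subW gs [[36]] := by
    rw [← xcz c]
    exact ⟨hS, Subgroup.mem_centralizer_iff.mpr hc⟩
  have hz : letG gs 36 * letG gs 36 = 1 := by simpa using xzz c
  have h0 : dlt gs 0 = letG gs 36 := by
    have := xz0 c
    rw [wordG_single, wordG_single] at this
    exact this
  have h2 : t = 1 ∨ t = letG gs 36 := by
    refine Subgroup.closure_induction'' (p := fun h _ => h = 1 ∨ h = letG gs 36) ?_ ?_ ?_ ?_ h1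
    · rintro x ⟨w, hw, rfl⟩
      rw [List.mem_singleton.mp hw, wordG_single]; exact Or.inr rfl
    · rintro x ⟨w, hw, rfl⟩
      rw [List.mem_singleton.mp hw, wordG_single]
      exact Or.inr (inv_eq_of_mul_eq_one_right hz)
    · exact Or.inl rfl
    · rintro x y _ _ (rfl | rfl) (rfl | rfl)
      · exact Or.inl (one_mul _)
      · exact Or.inr (one_mul _)
      · exact Or.inr (mul_one _)
      · exact Or.inl hz
  rcases h2 with rfl | h2
  · simp at ht
  · rw [h2, h0]

end
end CL.P8.GQM

namespace CL.P8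
open CL.PG GQM

theorem gq {K : Type*} [Group K] [Finite K] {F : Type} [Field F] [Fintype F] (hF : Fintype.card F = 3)
    (e : K ≃* Cfsg.PSp 2 F) (S : Sylow 2 K) {t : K} (ht : orderOf t = 2) (hS : t ∈ (S : Subgroup K))
    (hc : ∀ s ∈ (S : Subgroup K), s * t = t * s) :
    (∀ a b c : K, IsConj t a → IsConj t b → IsConj t c → b ≠ c → Commute b c →
      ∃ d, IsConj t d ∧ Commute d a ∧ Commute d b ∧ Commute d c) ∧
    (∀ b c : K, IsConj t b → IsConj t c → b ≠ c → Commute b c →
      {d | IsConj t d ∧ Commute d b ∧ Commute d c}.ncard ≤ 5) := by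
  obtain ⟨_, cs, u⟩ := xtop (Γ := K) ⟨(CL.Std.PS43.iso hF).some.trans e.symm⟩
  obtain ⟨e', gs, u, h⟩ := u.wlog_sylow (p := 2) (k := 6) (by norm_num) (by decide +kernel) (xP_card u.c)
    (A := S) (by rw [Sylow.card_eq_multiplicity, u.card]; decide +kernel)
  rw [← h] at hS hc
  obtain rfl := eq_dlt u.c ht hS hc
  constructor
  · intro a b c ha hb hc hne hbc
    obtain ⟨i, hi, rfl⟩ := (isConj_iff_dlt u).mp ha
    obtain ⟨j, hj, rfl⟩ := (isConj_iff_dlt u).mp hb
    obtain ⟨k, hk, rfl⟩ := (isConj_iff_dlt u).mp hc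
    obtain ⟨d, hd, h1, h2, h3⟩ := c6 hi hj hk (fun h => hne (by rw [h])) ((comm_iff u.c hj hk).mp hbc)
    exact ⟨dlt gs d, isConj_dlt u.c d hd, ((comm_iff u.c hi hd).mpr h1).symm,
      ((comm_iff u.c hj hd).mpr h2).symm, ((comm_iff u.c hk hd).mpr h3).symm⟩
  · intro b c hb hc hne hbc
    classical
    obtain ⟨j, hj, rfl⟩ := (isConj_iff_dlt u).mp hb
    obtain ⟨k, hk, rfl⟩ := (isConj_iff_dlt u).mp hc
    have h5 := c7 hj hk (fun h => hne (by rw [h])) ((comm_iff u.c hj hk).mp hbc)
    set L := (List.range 45).filter fun x => adj j x && adj k x with hL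
    have hsub : {d | IsConj (dlt gs 0) d ∧ Commute d (dlt gs j) ∧ Commute d (dlt gs k)} ⊆
        ((L.map (dlt gs)).toFinset : Set K) := by
      rintro d ⟨h1, h2, h3⟩
      obtain ⟨i, hi, rfl⟩ := (isConj_iff_dlt u).mp h1
      rw [Finset.mem_coe, List.mem_toFinset]
      refine List.mem_map.mpr ⟨i, List.mem_filter.mpr ⟨List.mem_range.mpr hi, ?_⟩, rfl⟩
      rw [(comm_iff u.c hj hi).mp h2.symm, (comm_iff u.c hk hi).mp h3.symm]; rfl
    refine (Set.ncard_le_ncard hsub (Finset.finite_toSet _)).trans ?_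
    rw [Set.ncard_coe_finset]
    refine (List.toFinset_card_le _).trans ?_
    rw [List.length_map]; exact h5

theorem no9_perm {n : ℕ} (hn : n = 8 ∨ n = 9) {σ : Equiv.Perm (Fin n)} (ho : orderOf σ = 2)
    (hs : Equiv.Perm.sign σ = 1) : ¬ 9 ∣ Nat.card (Subgroup.centralizer ({σ} : Set (Equiv.Perm (Fin n)))) := by
  classical
  obtain ⟨k, hk⟩ := Equiv.Perm.cycleType_prime_order (σ := σ) (by rw [ho]; norm_num)
  rw [ho] at hk
  have h1 : σ.cycleType.sum ≤ Fintype.card (Fin n) := σ.sum_cycleType_le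
  have h2 := Equiv.Perm.sign_of_cycleType σ
  rw [hs, hk] at h2
  rw [hk, Multiset.sum_replicate, Fintype.card_fin, smul_eq_mul] at h1
  rw [Equiv.Perm.nat_card_centralizer, hk, Fintype.card_fin]
  have hk3 : k ≤ 3 := by omega
  rcases hn with rfl | rfl <;> interval_cases k <;> revert h2 <;> decide

theorem no9_alt {n : ℕ} (hn : n = 8 ∨ n = 9) {K : Type*} [Group K] (e : K ≃* alternatingGroup (Fin n)) {t : K}
    (ht : orderOf t = 2) : ¬ 9 ∣ Nat.card (Subgroup.centralizer ({t} : Set K)) := by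
  intro h
  let φ : K →* Equiv.Perm (Fin n) := (alternatingGroup (Fin n)).subtype.comp e.toMonoidHom
  have hφ : Function.Injective φ := Subtype.val_injective.comp e.injective
  have ho : orderOf (φ t) = 2 := by rw [orderOf_injective φ hφ, ht]
  have hs : Equiv.Perm.sign (φ t) = 1 := Equiv.Perm.mem_alternatingGroup.mp (e t).2
  apply no9_perm hn ho hs
  refine h.trans ?_
  rw [← Subgroup.card_map_of_injective hφ]
  apply Subgroup.card_dvd_of_le
  rintro _ ⟨x, hx, rfl⟩
  rw [Subgroup.mem_centralizer_singleton_iff, ← map_mul, ← map_mul]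
  exact congrArg φ (Subgroup.mem_centralizer_singleton_iff.mp hx)

theorem no9 {K : Type*} [Group K] [Finite K]
    (e : Nonempty (K ≃* alternatingGroup (Fin 8)) ∨ Nonempty (K ≃* alternatingGroup (Fin 9))) {t : K}
    (ht : orderOf t = 2) : ¬ 9 ∣ Nat.card (Subgroup.centralizer ({t} : Set K)) := by
  rcases e with ⟨⟨e⟩⟩ | ⟨⟨e⟩⟩
  · exact no9_alt (Or.inl rfl) e ht
  · exact no9_alt (Or.inr rfl) e ht

end CL.P8
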