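/-
Project P8 (S2920): Thompson transfer of the reflection.
-/
import Cfsg.Agent.P8.Defs
import Cfsg.Agent.Transfer.Control

set_option autoImplicit false

namespace CL.P8
open Cfsg Subgroup
open scoped Pointwise

variable {G : Type*} [Group G] [Finite G]

namespace IIA

theorem index_inc : inc.range.index = 2 := by
  have h := inc.range.card_mul_index
  rw [← Nat.card_congr (MonoidHom.ofInjective inc_inj).toEquiv, card_Γ0, card_W0] at h
  omega

theorem r_not : r ∉ inc.range := fun h => by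
  have h1 : inc.range = ⊤ := eq_top_iff.2 (genW_all.ge.trans (genW_le fun i hi => by
    rcases Nat.lt_succ_iff_lt_or_eq.1 (List.mem_range.1 hi) with e | rfl
    exacts [⟨_, inc_g e⟩, h]))
  have := index_inc
  rw [h1, index_top] at this
  omega

theorem comm_mem (x y : W0) : x * y * x⁻¹ * y⁻¹ ∈ inc.range := by
  simp only [mul_mem_iff_of_index_two index_inc, inv_mem_iff]
  tauto

end IIA

open IIA in
theorem iia [IsSimpleGroup G] {j : W0 →* G} (hj : Function.Injective j) (ho : ¬ 2 ∣ j.range.index) (hi : Inv2)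
    (hb : ∀ P : Subgroup G, IsPGroup 2 P → P ≤ centralizer {j r} → RW.map j ≤ P → P = RW.map j) : False := by
  have hr : r * r = 1 := relW (X.r * X.r) 1 (by decide +kernel)
  obtain ⟨c, u, hu⟩ : ∃ c, c * j r * c⁻¹ ∈ (j.comp inc).range := by
    by_contra h
    obtain ⟨N, hN, h2, -⟩ := CL.Transfer.thompson_transfer j.range (j.comp inc).range
      (Nat.not_even_iff_odd.1 fun e => ho e.two_dvd) (by
        rw [← MonoidHom.map_range, j.range_eq_map, relIndex_map_map_of_injective _ _ hj, relIndex_top_right, index_inc])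
      (j r) (by rw [sq, ← map_mul, hr, map_one]) fun c hc => h ⟨c, hc⟩
    rcases hN.eq_bot_or_eq_top with rfl | rfl
    · have := Nat.card_le_card_of_injective j hj
      rw [card_W0, ← index_bot, h2] at this
      omega
    · rw [index_top] at h2; omega
  have hι : Function.Injective (j.comp inc) := hj.comp inc_inj
  obtain ⟨γ, α, hα, β, hβ, e, c1, c2⟩ := hi u (hι (by rw [map_mul, hu, conj_mul, ← map_mul, hr]; simp)) fun e =>
    r_not (by
      rw [e, map_one, eq_comm, conj_eq_one_iff, map_eq_one_iff j hj] at hu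
      exact hu ▸ one_mem _)
  obtain ⟨d, hd⟩ : ∃ d : G, d * (j.comp inc) (γ * u * γ⁻¹) * d⁻¹ = j r :=
    ⟨c⁻¹ * ((j.comp inc) γ)⁻¹, by rw [map_mul, map_mul, map_inv, hu]; group⟩
  have hm : ∀ t ∈ S0, Commute t (γ * u * γ⁻¹) → d * (j.comp inc) t * d⁻¹ ∈
      MulAut.conj d • S0.map (j.comp inc) ⊓ centralizer {j r} := fun t ht h =>
    ⟨smul_mem_pointwise_smul _ (MulAut.conj d) _ (mem_map_of_mem _ ht), mem_centralizer_singleton_iff.2 (by
      rw [← hd, conj_mul, conj_mul, (h.map _).eq])⟩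
  have hP : IsPGroup 2 ↥(MulAut.conj d • S0.map (j.comp inc) ⊓ centralizer {j r}) :=
    (((IsPGroup.of_card (n := 12) card_S0).map _).map (MulAut.conj d).toMonoidHom).to_inf_left
  have hR : RW.map j ≤ centralizer {j r} := by
    rintro _ ⟨x, hx, rfl⟩
    exact mem_centralizer_singleton_iff.2 ((RW_r hx).map j)
  obtain ⟨P, h1⟩ := (hP.comap_subtype (K := centralizer {j r})).exists_le_sylow
  obtain ⟨Q, h2⟩ := ((((IsPGroup.of_card (p := 2) (n := 10) card_RW).map j)).comap_subtype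
    (K := centralizer {j r})).exists_le_sylow
  obtain ⟨m, hm'⟩ := MulAction.exists_smul_eq (centralizer {j r}) P Q
  have h3 := hb _ (Q.isPGroup'.map (centralizer {j r}).subtype) (map_subtype_le _) fun x hx =>
    ⟨⟨x, hR hx⟩, h2 hx, rfl⟩
  have h4 : ∀ t ∈ MulAut.conj d • S0.map (j.comp inc) ⊓ centralizer {j r}, (m : G) * t * (m : G)⁻¹ ∈ RW.map j :=
    fun t ht => h3.le ⟨m * ⟨t, ht.2⟩ * m⁻¹, (congrArg Sylow.toSubgroup hm').le
      (smul_mem_pointwise_smul _ (MulAut.conj m) _ (h1 (mem_comap.2 ht))), rfl⟩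
  obtain ⟨ρ, -, e1⟩ := h4 _ (hm α hα c1)
  obtain ⟨σ, -, e2⟩ := h4 _ (hm β hβ c2)
  refine r_not (hj (a₁ := ρ * σ * ρ⁻¹ * σ⁻¹) (a₂ := r) ?_ ▸ comm_mem ρ σ)
  refine Eq.trans ?_ ((congrArg (fun t => (m : G) * t * (m : G)⁻¹) hd).trans
    (mul_inv_eq_iff_eq_mul.2 (mem_centralizer_singleton_iff.1 m.2)))
  simp only [e, map_mul, map_inv, e1, e2]
  group

end CL.P8
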