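/-
Project P8 (S2920): the Sylow 2-subgroup of the centraliser of the reflection.
-/
import Cfsg.Agent.P8.NF
import Cfsg.Agent.P8.CSA
import Cfsg.Agent.Fus.StronglyEmb

set_option autoImplicit false

namespace CL.P8
open Cfsg Subgroup NF
open scoped Pointwise

variable {G : Type*} [Group G] [Finite G] {ι : Γ0 →* G}

namespace IiB

theorem conj_into {p : ℕ} [Fact p.Prime] {S N Q : Subgroup G} (pS : IsPGroup p S)
    (hS : ¬ p ∣ S.index) (hSN : S ≤ N) (pQ : IsPGroup p Q) (hQ : Q ≤ N) : ∃ n ∈ N, ∀ x ∈ Q, n * x * n⁻¹ ∈ S := by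
  have p1 : IsPGroup p (S.subgroupOf N) := pS.comap_subtype
  have i1 : ¬ p ∣ (S.subgroupOf N).index := fun h => hS (h.trans (relIndex_dvd_index_of_le hSN))
  obtain ⟨T, hT⟩ := (pQ.comap_subtype (K := N)).exists_le_sylow
  obtain ⟨n, e⟩ := MulAction.exists_smul_eq N T (p1.toSylow i1)
  refine ⟨n, n.2, fun x hx => ?_⟩
  have : MulAut.conj n • (⟨x, hQ hx⟩ : N) ∈ ((n • T : Sylow p N) : Subgroup N) :=
    smul_mem_pointwise_smul _ _ _ (hT hx)
  rw [e] at this
  exact this

def fr (v : V) : V := ![Sw (v 1), Sw (v 0), v 2, v 3]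

def F4 (i j k l : Fin 2) (v : V) : V := FS i j k (fr^[l] v)

theorem fix64 : ∀ i j k l, (Finset.univ.filter fun v => F4 i j k l v = v).card = 64 →
    ∀ i' j' k' l', (∀ v, F4 i' j' k' l' (F4 i j k l v) = F4 i j k l (F4 i' j' k' l' v)) → i' = 0 := by
  have h1 : ∀ i j k l, (Finset.univ.filter fun v => F4 i j k l v = v).card = 64 →
      (i, j, k, l) = (0, 0, 0, 1) ∨ (i, j, k, l) = (0, 1, 1, 1) := by decide +kernel
  intro i j k l h i' j' k' l' e
  have e1 := e (ea 0)
  have e2 := e (ea 2)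
  rcases h1 i j k l h with m | m <;> simp only [Prod.mk.injEq] at m <;> obtain ⟨rfl, rfl, rfl, rfl⟩ := m <;>
    clear e h <;> revert i' j' k' l' <;> decide +kernel

omit [Finite G] in
theorem actT {j : W0 →* G} (hj : Function.Injective j) (h : St0 (j.comp inc)) {w : W0} (hw : w ∈ SW) :
    Commute (j w) (((j.comp inc).comp φ) zq) ∧ ∃ a b c l, act ((j.comp inc).comp φ) (j w) = F4 a b c l := by
  have le : S0.map inc ≤ SW := by
    rw [S0, inc_gen (by decide)]
    exact genW_le fun i hi => mem_genW (by revert i; decide)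
  have i2 : ((S0.map inc).subgroupOf SW).index = 2 := by
    have := ((S0.map inc).subgroupOf SW).card_mul_index
    rw [Nat.card_congr (subgroupOfEquivOfLe le).toEquiv, card_map_of_injective inc_inj, card_S0, card_SW] at this
    omega
  have h0 : ∀ w ∈ S0.map inc, Commute (j w) (((j.comp inc).comp φ) zq) ∧
      ∃ a b c, act ((j.comp inc).comp φ) (j w) = FS a b c := by
    rintro _ ⟨s, hs, rfl⟩
    exact ⟨cz (j.comp inc) (S0_le hs), act_S0 h.inj hs⟩
  by_cases k : w ∈ S0.map inc
  · obtain ⟨c, a, b, d, e⟩ := h0 w k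
    exact ⟨c, a, b, d, 0, e⟩
  have rS : r ∈ SW := mem_genW (by decide)
  have rn : r ∉ S0.map inc := fun e => by
    obtain ⟨-, a, b, d, e⟩ := h0 r e
    rw [act_r hj] at e
    have e1 := congrFun e (ea 0)
    have e2 := congrFun e (ea 2)
    clear e
    revert a b d; decide +kernel
  have m : w * r ∈ S0.map inc := (mul_mem_iff_of_index_two i2 (a := ⟨w, hw⟩) (b := ⟨r, rS⟩)).2 (iff_of_false k rn)
  obtain ⟨c, a, b, d, e⟩ := h0 _ m
  have rr : r * r = 1 := relW (X.r * X.r) 1 (by decide +kernel)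
  have cr : Commute (j r) (((j.comp inc).comp φ) zq) := psi_z (j.comp inc) ▸ r_z.map j
  have ew : j w = j (w * r) * j r := by rw [← map_mul, mul_assoc, rr, mul_one]
  rw [ew]
  exact ⟨c.mul_left cr, a, b, d, 1, funext fun v => by rw [h.xq.act_mul c cr, e, act_r hj]; rfl⟩

end IiB

open IiB

theorem iib {j : W0 →* G} (hj : Function.Injective j) (ho : ¬ 2 ∣ j.range.index) (h : St0 (j.comp inc)) {P : Subgroup G}
    (hP : IsPGroup 2 P) (hr : P ≤ centralizer {j r}) (hR : RW.map j ≤ P) : P = RW.map j := by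
  by_contra hn
  have hact := fun w => actT hj h (w := w)
  have er := act_r hj
  have cr : Commute (j r) (((j.comp inc).comp φ) zq) := psi_z (j.comp inc) ▸ r_z.map j
  have ez : ((j.comp inc).comp φ) zq = j (inc z) := psi_z _
  have xq := h.xq
  generalize (j.comp inc).comp φ = ψ at *
  have mC : ∀ {x : G}, Commute x (ψ zq) → x ∈ centralizer ({ψ zq} : Set G) := fun h => mem_centralizer_singleton_iff.2 h
  have mC' : ∀ {x : G}, x ∈ centralizer ({ψ zq} : Set G) → Commute x (ψ zq) := fun h => mem_centralizer_singleton_iff.1 h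
  have TC : SW.map j ≤ centralizer {ψ zq} := by
    rintro _ ⟨w, hw, rfl⟩
    exact mC (hact w hw).1
  have iT : ¬ 2 ∣ (SW.map j).index := by
    have h3 := SW.card_mul_index
    rw [card_SW, card_W0] at h3
    rw [index_map_of_injective _ hj, show SW.index = 42525 by omega]
    exact fun e => ((Nat.prime_two.dvd_mul).1 e).elim (by norm_num) ho
  obtain ⟨x, hx, hxn, hxR⟩ := CL.Fus.exists_mem_normalizer_not_mem hP (lt_of_le_of_ne hR (Ne.symm hn))
  have xC : x ∈ centralizer ({ψ zq} : Set G) := by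
    have e := mem_normalizer_iff_map_conj_eq.1 hxn
    have e1 : ⁅⁅⁅RW.map j, RW.map j⁆, RW.map j⁆, RW.map j⁆ = zpowers (ψ zq) := by
      rw [← map_commutator, ← map_commutator, ← map_commutator, RW_lcs, MonoidHom.map_zpowers, ez]
    have e2 : (zpowers (ψ zq)).map (MulAut.conj x : G →* G) = zpowers (ψ zq) := by
      rw [← e1, map_commutator, map_commutator, map_commutator, e]
    obtain ⟨n, hn⟩ := e2.le ⟨_, mem_zpowers _, rfl⟩
    have zz : ψ zq ^ (2 : ℤ) = 1 := by rw [zpow_two, ← map_mul, zq_sq, map_one]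
    refine mC (mul_inv_eq_iff_eq_mul.1 ?_)
    rcases Int.even_or_odd' n with ⟨m, rfl | rfl⟩
    · simp only [zpow_mul, zz, one_zpow] at hn
      exact absurd (by simpa using hn.symm) xq.z_ne
    · simp only [zpow_add, zpow_mul, zz, one_zpow, one_mul, zpow_one] at hn
      exact hn.symm
  have p2 : IsPGroup 2 (P ⊓ centralizer {ψ zq} : Subgroup G) := hP.to_le inf_le_left
  obtain ⟨n, hn⟩ := IsPGroup.iff_card.1 p2
  have le2 : RW.map j ≤ P ⊓ centralizer {ψ zq} := le_inf hR ((map_mono RW_le).trans TC)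
  have c2 : 2 ^ 10 < 2 ^ n := by
    have : Nat.card (RW.map j) < Nat.card (P ⊓ centralizer {ψ zq} : Subgroup G) :=
      lt_of_le_of_ne (card_le_of_le le2) fun e => hxR ((eq_of_le_of_card_ge le2 e.ge).ge ⟨hx, xC⟩)
    rwa [hn, card_map_of_injective hj, card_RW] at this
  obtain ⟨c, hc, hcT⟩ := conj_into ((IsPGroup.of_card (n := 13) card_SW).map j) iT TC p2 inf_le_right
  have hc := mC' hc
  obtain ⟨w, hw, ew⟩ := hcT (j r) ⟨hR ⟨r, mem_genW (by decide), rfl⟩, mC cr⟩
  obtain ⟨cw, a, b, d, l, e⟩ := hact w hw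
  have f64 : (Finset.univ.filter fun v => F4 a b d l v = v).card = 64 := by
    rw [← (by decide +kernel : (Finset.univ.filter fun v => fr v = v).card = 64), ← e, ew]
    refine (Finset.card_bijective (act ψ c) (Finite.injective_iff_bijective.1 (xq.act_inj hc)) fun v => ?_).symm
    simp only [Finset.mem_filter, Finset.mem_univ, true_and]
    rw [xq.act_mul (hc.mul_left cr) hc.inv_left, xq.act_inv hc, xq.act_mul hc cr, (xq.act_inj hc).eq_iff, er]
    rfl
  set Y := SW.map j ⊓ centralizer {j w} with hY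
  have cY : 2 ^ n ≤ Nat.card Y := by
    rw [← hn, ← card_map_of_injective (f := (MulAut.conj c : G →* G)) (MulAut.conj c).injective]
    refine card_le_of_le ?_
    rintro _ ⟨y, hy, rfl⟩
    refine ⟨hcT y hy, mem_centralizer_singleton_iff.2 ?_⟩
    rw [ew]
    exact (show Commute y (j r) from mem_centralizer_singleton_iff.1 (hr hy.1)).map (MulAut.conj c)
  let _ := CsA.ma xq
  let θ : Y →* Equiv.Perm V :=
    (MulAction.toPermHom (centralizer ({ψ zq} : Set G)) V).comp (inclusion (inf_le_left.trans TC))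
  have hθ : ∀ y : Y, ⇑(θ y) = act ψ y := fun _ => rfl
  have cm : ∀ y : Y, Commute (y : G) (j w) := fun y => mem_centralizer_singleton_iff.1 y.2.2
  have c3 : Nat.card θ.range ≤ 8 := by
    have : ∀ σ : θ.range, ∃ t : Fin 2 × Fin 2 × Fin 2, ⇑(σ : Equiv.Perm V) = F4 0 t.1 t.2.1 t.2.2 := by
      rintro ⟨_, y, rfl⟩
      obtain ⟨u, hu, eu⟩ := y.2.1
      obtain ⟨cu, a', b', d', l', e'⟩ := hact u hu
      obtain rfl := fix64 a b d l f64 a' b' d' l' fun v => by
        rw [← e, ← e', ← xq.act_mul cu cw, ← xq.act_mul cw cu, eu, (cm y).eq]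
      exact ⟨(b', d', l'), by rw [← e', eu]; rfl⟩
    choose t ht using this
    simpa using Nat.card_le_card_of_injective t fun σ τ k => Subtype.ext (DFunLike.coe_injective (by
      show ⇑(σ : Equiv.Perm V) = ⇑(τ : Equiv.Perm V)
      rw [ht, ht, k]))
  have c4 : Nat.card θ.ker ≤ 128 := by
    have : ∀ y : θ.ker, ∃ t : (Finset.univ.filter fun v => F4 a b d l v = v) × ZMod 2, ((y : Y) : G) = ψ ⟨t.1, t.2⟩ := by
      intro y
      obtain ⟨q, hq⟩ := xq.cq _ (mC' (TC (y : Y).2.1)) fun v => by rw [← hθ, show θ y = 1 from y.2]; rfl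
      refine ⟨(⟨q.v, ?_⟩, q.e), hq.symm⟩
      simp only [Finset.mem_filter, Finset.mem_univ, true_and]
      rw [← e]
      exact act_eq xq.inj cw (by rw [hq, ← (cm y).eq, mul_inv_cancel_right])
    choose t ht using this
    have := Nat.card_le_card_of_injective t fun σ τ k => Subtype.ext (Subtype.ext (by rw [ht, ht, k]))
    rwa [Nat.card_prod, Nat.card_eq_finsetCard, f64, Nat.card_zmod] at this
  have c5 := θ.ker.card_mul_index
  rw [index_ker] at c5
  have := Nat.mul_le_mul c4 c3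
  omega

end CL.P8
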