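/-
Project P8 (S2920): the involutions of `Ω₈⁺(2)` are conjugate into `Q`.
-/
import Cfsg.Agent.P8.Defs

set_option autoImplicit false

namespace CL.P8
open Cfsg Subgroup

namespace Inv1

/-- `x` acts on `Q / Z(Q)` as `f` -/
def Ac (x : Γ0) (f : V → V) : Prop := ∀ q : QM, ∃ e, x * φ q * x⁻¹ = φ ⟨f q.v, e⟩

theorem Ac.of {x : Γ0} {f : V → V} (hx : x ∈ C0) (h : act ((MonoidHom.id Γ0).comp φ) (MonoidHom.id Γ0 x) = f) :
    Ac x f := fun q =>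
  h ▸ act_spec (ψ := (MonoidHom.id Γ0).comp φ) φ_inj (psi_z (MonoidHom.id Γ0) ▸ C0_z hx) (nq_C0 _ hx) q

theorem Ac.one : Ac 1 id := fun q => ⟨q.e, by simp⟩

theorem Ac.mul {x y : Γ0} {f k : V → V} (h1 : Ac x f) (h2 : Ac y k) : Ac (x * y) (fun v => f (k v)) := fun q => by
  obtain ⟨e, he⟩ := h2 q
  obtain ⟨e', he'⟩ := h1 ⟨k q.v, e⟩
  exact ⟨e', by rw [← he', ← he]; group⟩

theorem Ac.pow {x : Γ0} {f : V → V} (h : Ac x f) : ∀ n : ℕ, Ac (x ^ n) f^[n]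
  | 0 => pow_zero x ▸ Ac.one
  | n + 1 => pow_succ x n ▸ (h.pow n).mul h

theorem ac_s1 : Ac s1 fun v k => v (![2, 3, 0, 1] k) := .of (mem_gen (by decide)) (act_s1 fun _ _ => id)

theorem ac_s2 : Ac s2 fun v k => v (![1, 0, 3, 2] k) := .of (mem_gen (by decide)) (act_s2 fun _ _ => id)

theorem ac_s3 : Ac s3 fun v k => Sw (v k) := .of (mem_gen (by decide)) (act_s3 fun _ _ => id)

/-- the complement of `Q` in `S0` -/
def sx (i : Fin 2 × Fin 2 × Fin 2) : Ex := X.s1 ^ i.1.val * (X.s2 ^ i.2.1.val * X.s3 ^ i.2.2.val)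

/-- its action -/
def fx (i : Fin 2 × Fin 2 × Fin 2) (v : V) : V := (fun v k => v (![2, 3, 0, 1] k))^[i.1.val]
  ((fun v k => v (![1, 0, 3, 2] k))^[i.2.1.val] ((fun v k => Sw (v k))^[i.2.2.val] v))

theorem ac_sx (i : Fin 2 × Fin 2 × Fin 2) : Ac ((sx i).ev g) (fx i) :=
  (ac_s1.pow _).mul ((ac_s2.pow _).mul (ac_s3.pow _))

theorem nf {x : Γ0} (hx : x ∈ S0) : ∃ q i, x = φ q * (sx i).ev g := by
  have h1 : ∀ l ∈ [0, 1, 2, 3, 4, 5, 6, 7, 11, 12, 13], ∀ q i, (∃ q' j, g l * (φ q * (sx i).ev g) = φ q' * (sx j).ev g) ∧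
      ∃ q' j, (g l)⁻¹ * (φ q * (sx i).ev g) = φ q' * (sx j).ev g := fun l hl q i => by
    by_cases h : l < 8
    · obtain ⟨p, hp⟩ := φ_range.ge (mem_gen (List.mem_range.2 h))
      exact ⟨⟨p * q, i, by rw [← hp, map_mul, mul_assoc]⟩, p⁻¹ * q, i, by rw [← hp, map_mul, map_inv, mul_assoc]⟩
    · have h2 : ∀ l ∈ [0, 1, 2, 3, 4, 5, 6, 7, 11, 12, 13], ¬ l < 8 → l < 14 ∧
          M.chk [((Ex.l l)⁻¹.wd, (Ex.l l).wd)] = true ∧ ∀ i, ∃ j, M.chk [((Ex.l l * sx i).wd, (sx j).wd)] = true := by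
        decide +kernel
      obtain ⟨h3, h4, h5⟩ := h2 l hl h
      obtain ⟨j, h5⟩ := h5 i
      obtain ⟨q', h6⟩ := nq_C0 (MonoidHom.id Γ0) (mem_gen (List.mem_range.2 h3)) q
      have h7 : g l * (φ q * (sx i).ev g) = φ q' * (sx j).ev g := by
        rw [← rel _ _ h5, ← show g l * φ q * (g l)⁻¹ = φ q' from h6]
        show _ = _ * (g l * _)
        group
      exact ⟨⟨q', j, h7⟩, q', j, by rw [show (g l)⁻¹ = g l from rel _ _ h4, h7]⟩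
  induction hx using closure_induction_left with
  | one => exact ⟨1, 0, by rw [map_one, one_mul]; exact rel 1 (sx 0) (by decide +kernel)⟩
  | mul_left x hx y _ ih =>
    obtain ⟨l, hl, rfl⟩ := List.mem_map.1 hx
    obtain ⟨q, i, rfl⟩ := ih
    exact (h1 l hl q i).1
  | inv_mul_cancel x hx y _ ih =>
    obtain ⟨l, hl, rfl⟩ := List.mem_map.1 hx
    obtain ⟨q, i, rfl⟩ := ih
    exact (h1 l hl q i).2

theorem conj_S0 {u : Γ0} (hu : u * u = 1) : ∃ γ, γ * u * γ⁻¹ ∈ S0 := by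
  have h2 : ¬ 2 ∣ S0.index := by
    have h3 := S0.card_mul_index
    rw [card_S0, card_Γ0] at h3
    omega
  obtain ⟨n, -, hn⟩ := (Nat.dvd_prime_pow Nat.prime_two).1 
    (orderOf_dvd_of_pow_eq_one (x := u) (n := 2 ^ 1) (by rwa [pow_one, sq]))
  obtain ⟨P, hP⟩ := (IsPGroup.of_card ((Nat.card_zpowers u).trans hn)).exists_le_sylow
  obtain ⟨γ, hγ⟩ := MulAction.exists_smul_eq Γ0 P ((IsPGroup.of_card (n := 12) card_S0).toSylow h2)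
  exact ⟨γ, (congrArg Sylow.toSubgroup hγ).le (smul_mem_pointwise_smul _ (MulAut.conj γ) _ (hP (mem_zpowers u)))⟩

theorem fin (i : Fin 2 × Fin 2 × Fin 2) (e : Fin 2) : ∃ γ q, γ * (z ^ e.val * (sx i).ev g) * γ⁻¹ = φ q := by
  have h : ∀ (i : Fin 2 × Fin 2 × Fin 2) (e : Fin 2), ∃ q ∈ [1, zq, aq 0 * aq 1, aq 0 * aq 2, aq 0 * aq 3,
      aq 0 * aq 1 * aq 2 * bq 3], M.chk [((X.cj (2 * (![![![0, 2], ![1, 5]], ![![0, 4], ![3, 6]]] i.1 i.2.1 i.2.2) + e) *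
        (X.z ^ e.val * sx i) * (X.cj (2 * (![![![0, 2], ![1, 5]], ![![0, 4], ![3, 6]]] i.1 i.2.1 i.2.2) + e))⁻¹).wd,
        (qx q).wd)] = true ∨ M.chk [((X.z ^ e.val * sx i).wd, (qx q).wd)] = true := by
    decide +kernel
  obtain ⟨q, -, h | h⟩ := h i e
  · exact ⟨_, q, rel _ _ h⟩
  · exact ⟨1, q, by rw [one_mul, inv_one, mul_one]; exact rel _ _ h⟩

end Inv1

open Inv1 in
theorem inv1 : Inv := by
  intro u hu
  obtain ⟨γ, hγ⟩ := conj_S0 hu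
  obtain ⟨q, i, e⟩ := nf hγ
  by_cases hi : i = 0
  · exact ⟨γ, q, by rw [e, hi, ← rel 1 (sx 0) (by decide +kernel)]; exact mul_one _⟩
  have hs : (sx i).ev g * (sx i).ev g = 1 := rel (sx i * sx i) 1 (by clear e hi; revert i; decide +kernel)
  obtain ⟨t, ht⟩ := ac_sx i q
  have h1 : φ (q * ⟨fx i q.v, t⟩) = φ 1 := by
    rw [map_mul, ← ht, inv_eq_of_mul_eq_one_right hs, ← mul_assoc, ← mul_assoc, mul_assoc (_ * _), ← e, conj_mul, hu,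
      map_one, mul_one, mul_inv_cancel]
  obtain ⟨w, hw⟩ := (by decide +kernel : ∀ i, i ≠ 0 → ∀ v, v + fx i v = 0 → ∃ w, w + v + fx i w = 0) i hi q.v
    (congrArg QM.v (φ_inj h1))
  obtain ⟨t', ht'⟩ := ac_sx i ⟨w, 0⟩
  have h2 : (φ ⟨w, 0⟩)⁻¹ * γ * u * ((φ ⟨w, 0⟩)⁻¹ * γ)⁻¹ = φ (⟨w, 0⟩⁻¹ * q * ⟨fx i w, t'⟩) * (sx i).ev g := by
    rw [map_mul, map_mul, map_inv, ← ht', eq_mul_inv_of_mul_eq e.symm]
    group
  obtain ⟨e', h3⟩ : ∃ e' : Fin 2, φ (⟨w, 0⟩⁻¹ * q * ⟨fx i w, t'⟩) = z ^ e'.val := by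
    rcases QM.v_eq_zero (p := ⟨w, 0⟩⁻¹ * q * ⟨fx i w, t'⟩) hw with h | h <;> rw [h]
    exacts [⟨0, by simp⟩, ⟨1, by simp [φ_z]⟩]
  obtain ⟨δ, p, h4⟩ := fin i e'
  exact ⟨δ * ((φ ⟨w, 0⟩)⁻¹ * γ), p, by rw [← h4, ← h3, ← h2]; group⟩

end CL.P8
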