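/-
Project P8 (S2920): involutions of `Ω₈⁺(2)` are commutators in their centraliser.
-/
import Cfsg.Agent.P8.Inv1

set_option autoImplicit false

namespace CL.P8
open Cfsg Subgroup

namespace Inv2
open Inv1

/-- the action of `d1 ^ i * d2 ^ j * d3 ^ k` -/
def rt (i j k : Fin 3) (v : V) : V :=
  (rot ![1, 1, 0, 0])^[i.val] ((rot ![1, 0, 1, 0])^[j.val] ((rot ![0, 0, 1, 1])^[k.val] v))

theorem ac_rt (i j k : Fin 3) : Ac (d1 ^ i.val * (d2 ^ j.val * d3 ^ k.val)) (rt i j k) :=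
  ((Ac.of (mem_gen (by decide)) (act_d1 fun _ _ => id)).pow _).mul
    (((Ac.of (mem_gen (by decide)) (act_d2 fun _ _ => id)).pow _).mul
      ((Ac.of (mem_gen (by decide)) (act_d3 fun _ _ => id)).pow _))

/-- a part of a vector -/
def msk (A : List (Fin 4)) (v : V) : V := fun l => if l ∈ A then v l else 0

/-- the vector of a suitable commutator -/
def Ok (v : V) : Prop := ∃ t ∈ [(1, 0, 0), (0, 1, 0), (1, 1, 0)], ∃ A ∈ [[0], [1], [2], [0, 1]],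
  v = fx t (msk A v) + msk A v ∧ B (msk A v) v = 0 ∧ coc v v = 0 ∧ v ≠ 0

instance (v : V) : Decidable (Ok v) := by unfold Ok; infer_instance

theorem key : ∀ v : V, v ≠ 0 → coc v v = 0 → ∃ i j k : Fin 3, Ok (rt i j k v) := by decide +kernel

theorem comm {K : Type*} [Group K] {x y c : K} (hx : x * x = 1) (e : c = x * y * x⁻¹ * y⁻¹) (hc : c * c = 1) :
    Commute x c := by
  rw [Commute, SemiconjBy, ← mul_inv_eq_iff_eq_mul]
  refine Eq.trans ?_ (inv_eq_of_mul_eq_one_right hc)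
  rw [e, ← mul_assoc, ← mul_assoc, ← mul_assoc, hx, inv_eq_of_mul_eq_one_right hx]
  simp only [mul_inv_rev, inv_inv, inv_eq_of_mul_eq_one_right hx, one_mul, mul_assoc]

end Inv2

open Inv1 Inv2 in
theorem inv2 (h : Inv) : Inv2 := by
  intro u hu h1
  obtain ⟨γ, q, e⟩ := h u hu
  have hq : q * q = 1 := φ_inj (by rw [map_mul, ← e, conj_mul, hu, map_one, mul_one, mul_inv_cancel])
  by_cases h0 : q.v = 0
  · obtain rfl : q = zq := (QM.v_eq_zero h0).resolve_left fun e' => h1 (by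
      rwa [e', map_one, conj_eq_one_iff] at e)
    rw [φ_z] at e
    refine ⟨γ, a 0, mem_gen (by decide), b 0, mem_gen (by decide), ?_, ?_, ?_⟩ <;> rw [e]
    · exact rel X.z (X.a 0 * X.b 0 * (X.a 0)⁻¹ * (X.b 0)⁻¹) (by decide +kernel)
    · exact (q8s.za 0).symm
    · exact (q8s.zb 0).symm
  obtain ⟨i, j, k, t, -, A, -, h2, h3, h4, h5⟩ := key q.v h0 (congrArg QM.e ((QM.sq q).symm.trans hq))
  obtain ⟨e1, he1⟩ := ac_rt i j k q
  generalize rt i j k q.v = v at *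
  generalize msk A v = w at *
  obtain ⟨e2, he2⟩ := ac_sx t ⟨w, 0⟩
  obtain ⟨m, hm⟩ := (by decide +kernel : ∀ v : V, v ≠ 0 → ∀ e, ∃ m, B m v = e) v h5
    (((⟨fx t w, e2⟩ : QM) * (⟨w, 0⟩ : QM)⁻¹).e - e1)
  have h6 : (⟨m, 0⟩ : QM) * ⟨v, e1⟩ * (⟨m, 0⟩ : QM)⁻¹ = ⟨fx t w, e2⟩ * (⟨w, 0⟩ : QM)⁻¹ := by
    rw [QM.conj]; exact QM.ext h2 (by rw [hm]; ring)
  have h7 : φ ⟨m, 0⟩ * (d1 ^ i.val * (d2 ^ j.val * d3 ^ k.val)) * γ * u *
      (φ ⟨m, 0⟩ * (d1 ^ i.val * (d2 ^ j.val * d3 ^ k.val)) * γ)⁻¹ = φ (⟨fx t w, e2⟩ * (⟨w, 0⟩ : QM)⁻¹) := by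
    rw [← h6, map_mul, map_mul, map_inv, ← he1, ← e]; group
  have hs : (sx t).ev g * (sx t).ev g = 1 := rel (sx t * sx t) 1 (by generalize t = t; revert t; decide +kernel)
  have h8 : φ (⟨fx t w, e2⟩ * (⟨w, 0⟩ : QM)⁻¹) * φ (⟨fx t w, e2⟩ * (⟨w, 0⟩ : QM)⁻¹) = 1 := by
    rw [← map_mul, QM.sq, QM.mul_v, QM.inv_v, ← h2, h4]; exact map_one φ
  refine ⟨_, (sx t).ev g, mul_mem (pow_mem (mem_gen (by decide)) _) (mul_mem (pow_mem (mem_gen (by decide)) _)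
    (pow_mem (mem_gen (by decide)) _)), φ ⟨w, 0⟩, Qg_le (φ_range.le ⟨_, rfl⟩), h7.trans ?_, ?_, ?_⟩
  · rw [map_mul, map_inv, he2]
  · rw [h7]
    exact comm hs (by rw [map_mul, map_inv, he2]) h8
  · rw [h7]
    exact (show Commute _ _ from (QM.comm_iff _ _).2 (by rw [QM.mul_v, QM.inv_v, ← h2, h3])).map φ

end CL.P8
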