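/-
Project P8 (S2920): the Sylow 2-subgroup of `C(E) / E` (helper84).
-/
import Cfsg.Agent.P8.Blk
import Cfsg.Agent.Fus.StronglyEmb

set_option autoImplicit false

namespace CL.P8
open Cfsg Subgroup

variable {G : Type*} [Group G] {ι : Γ0 →* G}

namespace NA

theorem TT_z {x : Γ0} (hx : x ∈ TT) : Commute x z := by
  have : TT ≤ centralizer {z} := gen_le fun i hi => mem_centralizer_singleton_iff.2
    (rel (Ex.l i * X.z) (X.z * Ex.l i) (by revert i; decide +kernel))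
  exact mem_centralizer_singleton_iff.1 (this hx)

theorem T1_le : T1 ≤ TT := gen_le fun i hi => mem_gen (by revert i; decide)

theorem m1 : ∀ i ∈ [2, 6, 3, 7, 21], g i ∈ T1 := fun _ hi => mem_gen hi

theorem z_T1 : z ∈ T1 := by rw [← q8s.aa 2]; exact mul_mem (m1 2 (by simp)) (m1 2 (by simp))

theorem w1_TT : w1 ∈ TT := T1_le (m1 21 (by simp))

theorem mem_TT {q : QM} (h1 : B qe1.v q.v = 0) (h2 : B qe2.v q.v = 0) : φ q ∈ TT := by
  obtain ⟨i, j, h3, h4⟩ : ∃ i j : Fin 2, (qe1 ^ (i : ℕ) * qe2 ^ (j : ℕ) * q).v 0 = 0 ∧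
      (qe1 ^ (i : ℕ) * qe2 ^ (j : ℕ) * q).v 1 = 0 := by revert q; decide +kernel
  have h5 : ∀ p : QM, p.v 0 = 0 → p.v 1 = 0 → φ p ∈ T1 := fun p e0 e1 => by
    rw [QM.eq_prod p, e0, e1]
    simp only [map_mul, map_pow, φ_a, φ_b, q8s.aa 0, Prod.fst_zero, Prod.snd_zero, ZMod.val_zero, pow_zero, one_mul]
    exact mul_mem (mul_mem (mul_mem (pow_mem (m1 2 (by simp)) _) (pow_mem (m1 6 (by simp)) _))
      (mul_mem (pow_mem (m1 3 (by simp)) _) (pow_mem (m1 7 (by simp)) _))) (pow_mem z_T1 _)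
  have h6 := T1_le (h5 _ h3 h4)
  rw [map_mul, map_mul, map_pow, map_pow, φ_e1, φ_e2] at h6
  exact (mul_mem_cancel_left (mul_mem (pow_mem (mem_gen (by simp)) _) (pow_mem (mem_gen (by simp)) _))).1 h6

theorem mem_E' {e : G} (he : e ∈ closure {ι e1, ι e2}) :
    ∃ q ∈ [1, qe1, qe2, qe1 * qe2], e = (ι.comp φ) q := by
  rcases mem_E he with rfl | rfl | rfl | rfl
  exacts [⟨1, by simp, (map_one _).symm⟩, ⟨qe1, by simp, by rw [← φ_e1]; rfl⟩, ⟨qe2, by simp, by rw [← φ_e2]; rfl⟩,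
    ⟨qe1 * qe2, by simp, by rw [← φ_e1, ← φ_e2, ← map_mul φ]; rfl⟩]

theorem psi_E {q : QM} (hq : q ∈ [1, qe1, qe2, qe1 * qe2]) : (ι.comp φ) q ∈ closure {ι e1, ι e2} := by
  have a1 : (ι.comp φ) qe1 ∈ closure {ι e1, ι e2} := subset_closure (Or.inl (congrArg ι φ_e1))
  have a2 : (ι.comp φ) qe2 ∈ closure {ι e1, ι e2} := subset_closure (Or.inr (congrArg ι φ_e2))
  simp only [List.mem_cons, List.not_mem_nil, or_false] at hq
  rcases hq with rfl | rfl | rfl | rfl
  exacts [by rw [map_one]; exact one_mem _, a1, a2, by rw [map_mul]; exact mul_mem a1 a2]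

variable (h : St0 ι)
include h

theorem fixv {x : G} (hz : Commute x (ι z)) {q : QM} (hq : Commute x ((ι.comp φ) q)) : act (ι.comp φ) x q.v = q.v :=
  act_eq h.xq.inj (cz' hz) (by rw [hq.eq, mul_inv_cancel_right])

theorem fixE {x : G} (hx : x ∈ NN ι) (hz : Commute x (ι z)) :
    act (ι.comp φ) x qe1.v = qe1.v ∧ act (ι.comp φ) x qe2.v = qe2.v :=
  ⟨fixv h hz (EE_comm (psi_E (by simp)) hx), fixv h hz (EE_comm (psi_E (by simp)) hx)⟩

theorem comm_B {p q : QM} (e : Commute ((ι.comp φ) p) ((ι.comp φ) q)) : B p.v q.v = 0 :=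
  (QM.comm_iff p q).1 (h.xq.inj (by rw [map_mul, map_mul, e.eq]))

variable (hc : CS ι)
include hc

theorem sigma {x : G} (hx : x ∈ NN ι) (hz : Commute x (ι z)) :
    Bp (ι.comp φ) x 1 ∨ Bp (ι.comp φ) x (Equiv.swap 0 1 * Equiv.swap 2 3) := by
  obtain ⟨σ, h1, h2⟩ := hc.bp x hz
  have h3 : ∀ k, qe1.v (σ k) = 0 ↔ qe1.v k = 0 := fun k => by rw [← h2 qe1.v k, (fixE h hx hz).1]
  obtain rfl | rfl : σ = 1 ∨ σ = Equiv.swap 0 1 * Equiv.swap 2 3 := by
    clear h2; revert σ; decide +kernel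
  exacts [Or.inl h2, Or.inr h2]

theorem rotN {x : G} (hx : x ∈ NN ι) (hz : Commute x (ι z)) (hb : Bp (ι.comp φ) x 1) :
    ∃ t, act (ι.comp φ) x = rot t := by
  refine (hc.rt x hz hb).resolve_right fun ⟨t, e⟩ => ?_
  obtain ⟨h1, h2⟩ := fixE h hx hz
  rw [h.act_mul hz ((C0_z (mem_gen (by simp))).map ι), act_s3 h.inj] at e
  have h3 := congrFun (congrFun e fun k => Sw (qe1.v k)) 0
  have h4 := congrFun (congrFun e fun k => Sw (qe2.v k)) 0
  simp only [show (fun k => Sw (Sw (qe1.v k))) = qe1.v from rfl, show (fun k => Sw (Sw (qe2.v k))) = qe2.v from rfl,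
    h1, h2, rot] at h3 h4
  revert h3 h4
  generalize t 0 = s
  revert s
  decide +kernel

theorem lemU (t : G) (ht : t ∈ NN ι) (hz : Commute t (ι z))
    (hp : ∀ p ∈ [a 2, b 2, a 3, b 3], t * ι p * t⁻¹ * (ι p)⁻¹ ∈ closure {ι e1, ι e2}) :
    t ∈ closure {ι e1, ι e2} ∨ t * ι z ∈ closure {ι e1, ι e2} := by
  obtain ⟨σ, -, hσ⟩ := hc.bp t hz
  have k : ∀ p ∈ [aq 2, bq 2, aq 3, bq 3], Commute t ((ι.comp φ) p) := fun p hp' => by
    obtain ⟨e, he, h1⟩ := mem_E' (ι := ι) (e := t * (ι.comp φ) p * t⁻¹ * ((ι.comp φ) p)⁻¹) (hp (φ p) (by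
      simp only [List.mem_cons, List.not_mem_nil, or_false] at hp' ⊢
      rcases hp' with rfl | rfl | rfl | rfl <;> simp [φ_a, φ_b]))
    have h2 : t * (ι.comp φ) p * t⁻¹ = (ι.comp φ) (e * p) := by rw [map_mul, ← h1, inv_mul_cancel_right]
    have h3 := hσ.sup p.v
    rw [act_eq h.xq.inj (cz' hz) h2] at h3
    obtain rfl : e = 1 := by
      clear h1 h2; revert e p; decide +kernel
    rwa [one_mul, mul_inv_eq_iff_eq_mul] at h2
  have f1 := fixv h hz (k (aq 2) (by simp))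
  have f2 := fixv h hz (k (aq 3) (by simp))
  rcases sigma h hc ht hz with hb | hb
  swap
  · have := hb (aq 2).v 2
    rw [f1] at this
    exact absurd this (by decide +kernel)
  obtain ⟨s, e⟩ := rotN h hc ht hz hb
  obtain ⟨f3, -⟩ := fixE h ht hz
  rw [e] at f1 f2 f3
  obtain rfl : s = 0 := by clear e; revert s; decide +kernel
  obtain ⟨q, rfl⟩ := psi_range ι ▸ h.mem_Q hz e
  have c := fun p hp => comm_B h (k p hp)
  have c1 := comm_B h (EE_comm (psi_E (q := qe1) (by simp)) ht)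
  have c2 := comm_B h (EE_comm (psi_E (q := qe2) (by simp)) ht)
  have : q ∈ [1, qe1, qe2, qe1 * qe2] ∨ q * zq ∈ [1, qe1, qe2, qe1 * qe2] := by
    clear k hb e f1 f2 f3 hσ hp hz ht; revert q; decide +kernel
  exact this.imp psi_E fun m => by rw [← psi_z, ← map_mul]; exact psi_E m

theorem T_le : TT.map ι ≤ NN ι := fun _ ⟨_, hx, e⟩ => e ▸ CE_NN ι (TT_le hx)

/-- `T` is a maximal 2-subgroup of `N ∩ C` -/
theorem maxC {P : Subgroup G} (hP : IsPGroup 2 P) (hT : TT.map ι ≤ P) (hN : P ≤ NN ι) {x : G} (hx : x ∈ P)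
    (hz : Commute x (ι z)) : x ∈ TT.map ι := by
  have k : ∀ x ∈ P, Commute x (ι z) → Bp (ι.comp φ) x 1 → x ∈ TT.map ι := fun x hx hz hb => by
    obtain ⟨t, e⟩ := rotN h hc (hN hx) hz hb
    obtain ⟨n, hn⟩ := hP ⟨x, hx⟩
    have h1 := h.act_pow hz e (2 ^ n)
    rw [show x ^ 2 ^ n = 1 from congrArg Subtype.val hn] at h1
    have h2 := rot_eq_id fun v => (congrFun h1 v).symm.trans (h.xq.act_one v)
    obtain rfl : t = 0 := funext fun k => by
      have := congrFun h2 k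
      simp only [Pi.smul_apply, nsmul_eq_mul, Pi.zero_apply, Nat.cast_pow, mul_eq_zero] at this
      exact this.resolve_left (pow_ne_zero _ (by decide))
    obtain ⟨q, rfl⟩ := psi_range ι ▸ h.mem_Q hz e
    exact ⟨φ q, mem_TT (comm_B h (EE_comm (psi_E (q := qe1) (by simp)) (hN hx)).symm)
      (comm_B h (EE_comm (psi_E (q := qe2) (by simp)) (hN hx)).symm), rfl⟩
  have w : ι w1 ∈ TT.map ι := ⟨_, w1_TT, rfl⟩
  have wz := (TT_z w1_TT).map ι
  rcases sigma h hc (hN hx) hz with hb | hb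
  · exact k x hx hz hb
  · refine (mul_mem_cancel_right w).1 (k _ (mul_mem hx (hT w)) (hz.mul_left wz) ?_)
    convert h.xq.bp_mul (cz' hz) (cz' wz) hb (bp_w1 h.inj) using 1
    decide

variable (hf : Fus ι)
include hf

theorem not_E {t : G} (ht : IsConj (ι z) t) : t ∉ closure {ι e1, ι e2} := fun m => by
  obtain ⟨q, hq, rfl⟩ := mem_E' m
  have := hf.sup h hc (q := q) ht
  clear ht m
  revert q; decide +kernel

/-- `T` is a maximal 2-subgroup of `N` -/
theorem maxN [Finite G] {P : Subgroup G} (hP : IsPGroup 2 P) (hT : TT.map ι ≤ P) (hN : P ≤ NN ι) : P = TT.map ι := by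
  by_contra hne
  obtain ⟨x, hx, hn, hx'⟩ := CL.Fus.exists_mem_normalizer_not_mem hP (lt_of_le_of_ne hT (Ne.symm hne))
  have cT : ∀ s ∈ TT.map ι, Commute s (ι z) := fun _ ⟨_, hs, e⟩ => e ▸ (TT_z hs).map ι
  have m : x * ι z * x⁻¹ ∈ TT.map ι := (mem_normalizer_iff.1 hn _).1 ⟨_, T1_le z_T1, rfl⟩
  have cj : IsConj (ι z) (x * ι z * x⁻¹) := isConj_iff.2 ⟨x, rfl⟩
  rcases lemU h hc _ (T_le h hc m) (cT _ m) (fun p hp => by
    have h1 : ι p ∈ TT.map ι := ⟨p, T1_le (by
      simp only [List.mem_cons, List.not_mem_nil, or_false] at hp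
      rcases hp with rfl | rfl | rfl | rfl <;> exact m1 _ (by simp)), rfl⟩
    have h2 := (cT _ ((mem_normalizer_iff.1 (inv_mem hn) _).1 h1)).eq
    have h3 : x * ι z * x⁻¹ * ι p = ι p * (x * ι z * x⁻¹) := by
      calc _ = x * (ι z * (x⁻¹ * ι p * x⁻¹⁻¹)) * x⁻¹ := by group
        _ = _ := by rw [← h2]; group
    rw [h3, mul_inv_cancel_right, mul_inv_cancel]
    exact one_mem _) with e | e
  · exact not_E h hc hf cj e
  · have zz : ι z * ι z = 1 := by rw [← map_mul, q8s.zz, map_one]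
    have h1 := hf.nz h hc e (by rwa [← mul_assoc, ← (cT _ m).eq, mul_assoc, zz, mul_one])
    refine hx' (maxC h hc hP hT hN hx ?_)
    rw [mul_eq_one_iff_eq_inv, inv_eq_of_mul_eq_one_right zz, mul_inv_eq_iff_eq_mul] at h1
    exact h1

theorem comm_of_mk {x : NN ι} (e : (x : NB ι) * zb ι = zb ι * x) : Commute (x : G) (ι z) := by
  rw [zb, ν_apply, ← QuotientGroup.mk_mul, ← QuotientGroup.mk_mul, eq_comm, QuotientGroup.eq] at e
  have e' : (ι z * x)⁻¹ * (x * ι z) ∈ closure {ι e1, ι e2} := e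
  have c := EE_comm e' x.2
  have h1 := hf.nz h hc e' (isConj_iff.2 ⟨x, by
    rw [mul_inv_eq_iff_eq_mul, mul_assoc, ← c.eq, ← mul_assoc, mul_inv_cancel_left]⟩)
  exact (inv_mul_eq_one.1 h1).symm

omit hf in
theorem solv [Finite G] : IsSolvable (NN ι ⊓ centralizer {ι z} : Subgroup G) := by
  set Y : Subgroup G := NN ι ⊓ centralizer {ι z}
  have cz : ∀ x : Y, Commute (x : G) (ι z) := fun x => mem_centralizer_singleton_iff.1 x.2.2
  let K : Subgroup Y :=
    { carrier := {x | Bp (ι.comp φ) (x : G) 1}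
      one_mem' := h.xq.bp_one
      mul_mem' := fun {x y} hx hy => by simpa using h.xq.bp_mul (cz' (cz x)) (cz' (cz y)) hx hy
      inv_mem' := fun {x} hx => by simpa using h.xq.bp_inv (cz' (cz x)) hx }
  have h1 : derivedSeries Y 1 ≤ K := by
    rw [derivedSeries_one, commutator_def, commutator_le]
    intro x _ y _
    have k : ∀ σ τ, Bp (ι.comp φ) (x : G) σ → Bp (ι.comp φ) (y : G) τ → σ * τ * σ⁻¹ * τ⁻¹ = 1 → x * y * x⁻¹ * y⁻¹ ∈ K :=
      fun σ τ hx hy e => by
        have := h.xq.bp_mul (cz' (cz (x * y * x⁻¹))) (cz' (cz y⁻¹)) (h.xq.bp_mul (cz' (cz (x * y))) (cz' (cz x⁻¹))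
          (h.xq.bp_mul (cz' (cz x)) (cz' (cz y)) hx hy) (h.xq.bp_inv (cz' (cz x)) hx)) (h.xq.bp_inv (cz' (cz y)) hy)
        rwa [e] at this
    rcases sigma h hc x.2.1 (cz x) with hx | hx <;> rcases sigma h hc y.2.1 (cz y) with hy | hy <;>
      exact k _ _ hx hy (by group)
  have h2 : derivedSeries Y 2 ≤ ((ι.comp φ).range).subgroupOf Y := by
    rw [derivedSeries_succ, commutator_le]
    intro x hx y hy
    obtain ⟨s, es⟩ := rotN h hc x.2.1 (cz x) (h1 hx)
    obtain ⟨t, et⟩ := rotN h hc y.2.1 (cz y) (h1 hy)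
    rw [mem_subgroupOf, psi_range]
    refine h.mem_Q (cz _) ?_
    change act _ ((x : G) * y * (x : G)⁻¹ * (y : G)⁻¹) = _
    rw [h.act_mul (((cz x).mul_left (cz y)).mul_left (cz x).inv_left) (cz y).inv_left,
      h.act_mul ((cz x).mul_left (cz y)) (cz x).inv_left, h.act_mul (cz x) (cz y),
      h.act_inv (cz x) es, h.act_inv (cz y) et, es, et]
    exact funext fun v => by simp only [rot_rot]; congr 1; abel
  have hQ : IsPGroup 2 (derivedSeries Y 2) :=
    (((IsPGroup.of_card (n := 9) card_QM).of_surjective _ (ι.comp φ).rangeRestrict_surjective).comap_subtype).to_le h2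
  generalize hD : derivedSeries Y 2 = D at hQ
  have := hQ.isNilpotent
  obtain ⟨n, hn⟩ := (IsNilpotent.to_isSolvable : IsSolvable D).solvable
  have k : ∀ m, derivedSeries Y (2 + m) = (derivedSeries D m).map D.subtype := fun m => by
    induction m with
    | zero => rw [derivedSeries_zero, ← MonoidHom.range_eq_map, range_subtype, ← hD]
    | succ m ih => rw [← add_assoc, derivedSeries_succ, derivedSeries_succ, map_commutator, ih]
  exact ⟨2 + n, by rw [k, hn, Subgroup.map_bot]⟩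

end NA

open NA in
theorem na [Finite G] (h : St0 ι) (hc : CS ι) (hf : Fus ι) : ∃ S : Sylow 2 (NB ι), SylN ι S := by
  have cT : Nat.card (TT.map ι) = 256 := by rw [card_map_of_injective h.inj, card_TT]
  have hT := T_le h hc
  let S' : Sylow 2 (NN ι) := ⟨(TT.map ι).subgroupOf _, (IsPGroup.of_card (n := 8) cT).comap_subtype, fun {P} hP le => by
    have := maxN h hc hf (hP.map (NN ι).subtype) (by
      rw [← map_subgroupOf_eq_of_le hT]; exact map_mono le) (map_subtype_le _)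
    rw [← this, ← comap_subtype, comap_map_eq_self_of_injective (subtype_injective _)]⟩
  let S := S'.mapSurjective (QuotientGroup.mk'_surjective (EE ι))
  have mS : ∀ s, s ∈ (S : Subgroup (NB ι)) ↔ ∃ x ∈ TT, ∃ m, ν ι ⟨x, m⟩ = s := fun s => by
    constructor
    · rintro ⟨x, ⟨y, hy, e⟩, e'⟩
      exact ⟨y, hy, TT_le hy, (congrArg (QuotientGroup.mk' (EE ι))
        (show (⟨ι y, CE_NN ι (TT_le hy)⟩ : NN ι) = x from Subtype.ext e)).trans e'⟩
    · rintro ⟨x, hx, m, e⟩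
      exact ⟨⟨ι x, CE_NN ι m⟩, ⟨x, hx, rfl⟩, e⟩
  have one_iff : ∀ x : CE, ν ι x = 1 ↔ ι x ∈ closure {ι e1, ι e2} := fun x =>
    QuotientGroup.eq_one_iff (N := EE ι) ⟨ι x, CE_NN ι x.2⟩
  have eq : (S : Subgroup (NB ι)) = (TT.subgroupOf CE).map (ν ι) := Subgroup.ext fun s => (mS s).trans
    ⟨fun ⟨x, hx, m, e⟩ => ⟨⟨x, m⟩, hx, e⟩, fun ⟨x, hx, e⟩ => ⟨x, hx, x.2, e⟩⟩
  have zE : ι z ∉ closure {ι e1, ι e2} := not_E h hc hf (IsConj.refl _)
  have z1 : zb ι ≠ 1 := fun e => zE ((one_iff _).1 e)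
  have cen : ∀ s ∈ (S : Subgroup (NB ι)), s * zb ι = zb ι * s := fun s hs => by
    obtain ⟨x, hx, m, rfl⟩ := (mS s).1 hs
    rw [zb, ← map_mul, ← map_mul]; exact congrArg _ (Subtype.ext (TT_z hx))
  have mem : zb ι ∈ (S : Subgroup (NB ι)) := (mS _).2 ⟨z, T1_le z_T1, z_CE, rfl⟩
  let f : T1 →* NB ι := (ν ι).comp (inclusion (T1_le.trans TT_le))
  have fr : f.range = S := by
    refine le_antisymm (fun _ ⟨x, e⟩ => (mS _).2 ⟨x, T1_le x.2, _, e⟩) ?_
    rw [eq, map_le_iff_le_comap, subgroupOf, ← map_le_map_iff_of_injective CE.subtype_injective,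
      map_comap_eq_self (by simpa using TT_le)]
    refine gen_le fun i hi => ?_
    have one : ∀ x (m : x ∈ CE), ι x ∈ closure {ι e1, ι e2} → x ∈ (f.range.comap (ν ι)).map CE.subtype :=
      fun x m e => ⟨⟨x, m⟩, by
        rw [SetLike.mem_coe, mem_comap, (one_iff ⟨x, m⟩).2 e]
        exact one_mem _, rfl⟩
    have two : ∀ x ∈ T1, x ∈ (f.range.comap (ν ι)).map CE.subtype :=
      fun x m => ⟨⟨x, TT_le (T1_le m)⟩, ⟨⟨x, m⟩, rfl⟩, rfl⟩
    rcases List.mem_cons.1 hi with rfl | hi'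
    · exact one _ (TT_le (mem_gen hi)) (subset_closure (Or.inl rfl))
    rcases List.mem_cons.1 hi' with rfl | hi''
    · exact one _ (TT_le (mem_gen hi)) (subset_closure (Or.inr rfl))
    · exact two _ (m1 i hi'')
  have cE : Nat.card (EE ι) ≤ 4 := by
    refine (Nat.card_le_card_of_surjective (fun q : {q // q ∈ [1, qe1, qe2, qe1 * qe2]} =>
      (⟨⟨(ι.comp φ) q, hT ⟨φ q, mem_TT (by revert q; decide +kernel) (by revert q; decide +kernel), rfl⟩⟩,
        psi_E q.2⟩ : EE ι)) fun e => ?_).trans (by rw [Nat.card_eq_fintype_card]; decide +kernel)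
    obtain ⟨q, hq, e'⟩ := mem_E' (ι := ι) e.2
    exact ⟨⟨q, hq⟩, Subtype.ext (Subtype.ext e'.symm)⟩
  have c1 : 64 ≤ Nat.card (S : Subgroup (NB ι)) := by
    have h2 := ((QuotientGroup.mk' (EE ι)).domRestrict (S' : Subgroup (NN ι))).ker.card_mul_index
    rw [index_ker, MonoidHom.domRestrict_range, MonoidHom.ker_domRestrict, QuotientGroup.ker_mk',
      show Nat.card (S' : Subgroup (NN ι)) = 256 from
        (Nat.card_congr (subgroupOfEquivOfLe hT).toEquiv).trans cT] at h2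
    have h3 : Nat.card ((EE ι).subgroupOf (S' : Subgroup (NN ι))) ≤ 4 :=
      (Nat.card_le_card_of_injective (fun x : (EE ι).subgroupOf (S' : Subgroup (NN ι)) => (⟨x.1.1, x.2⟩ : EE ι)) fun _ _ e =>
        Subtype.ext (Subtype.ext (congrArg (fun t : EE ι => t.1) e))).trans cE
    change 64 ≤ Nat.card ((S' : Subgroup (NN ι)).map (QuotientGroup.mk' (EE ι)))
    nlinarith
  have fb : Function.Bijective f.rangeRestrict := by
    refine (Nat.bijective_iff_surjective_and_card _).2 ⟨f.rangeRestrict_surjective, le_antisymm ?_ ?_⟩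
    · rw [card_T1, fr]; exact c1
    · exact Nat.card_le_card_of_surjective _ f.rangeRestrict_surjective
  have e1 : T1 ≃* (S : Subgroup (NB ι)) := (MulEquiv.ofBijective _ fb).trans (MulEquiv.subgroupCongr fr)
  refine ⟨S, eq, fun P => ?_, by rw [← Nat.card_congr e1.toEquiv, card_T1], orderOf_eq_prime ?_ z1, mem, cen,
    fun t ht hcen => ?_, ?_, lemU h hc⟩
  · obtain ⟨Y, hY, ⟨e2⟩⟩ := T1_A8
    have e3 := subgroupOfEquivOfLe hY
    have c2 : Nat.card (Y.subgroupOf (alternatingGroup (Fin 8))) = 2 ^ 6 := by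
      rw [Nat.card_congr e3.toEquiv, ← Nat.card_congr e2.toEquiv, card_T1]; rfl
    have c3 := (Y.subgroupOf (alternatingGroup (Fin 8))).card_mul_index
    have c4 := two_mul_nat_card_alternatingGroup (α := Fin 8)
    rw [Nat.card_perm, Nat.card_fin] at c4
    rw [c2] at c3
    exact ⟨e1.symm.trans (e2.trans (e3.symm.trans
      (Sylow.equiv ((IsPGroup.of_card c2).toSylow (by rw [show Nat.factorial 8 = 40320 from rfl] at c4; omega)) P)))⟩
  · rw [zb, ← map_pow, show (⟨z, z_CE⟩ : CE) ^ 2 = 1 from Subtype.ext ((sq _).trans q8s.zz), map_one]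
  · obtain ⟨x, hx, m, rfl⟩ := (mS t).1 ht
    refine (lemU h hc (ι x) (CE_NN ι m) ((TT_z hx).map ι) fun p hp => ?_).imp
      (fun e => (one_iff _).2 e) fun e => ?_
    · have hp' : p ∈ TT := T1_le (by
        simp only [List.mem_cons, List.not_mem_nil, or_false] at hp
        rcases hp with rfl | rfl | rfl | rfl <;> exact m1 _ (by simp))
      have := hcen _ ((mS _).2 ⟨p, hp', TT_le hp', rfl⟩)
      rw [eq_comm, ← mul_inv_eq_one, mul_inv_rev, ← mul_assoc, ← map_inv, ← map_inv, ← map_mul, ← map_mul, ← map_mul,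
        one_iff] at this
      simpa using this
    · have h1 : ν ι ⟨x, m⟩ * zb ι = 1 := by
        rw [zb, ← map_mul, one_iff]; simpa using e
      have h2 : zb ι * zb ι = 1 := by
        rw [zb, ← map_mul, show (⟨z, z_CE⟩ : CE) * ⟨z, z_CE⟩ = 1 from Subtype.ext q8s.zz, map_one]
      exact mul_right_cancel (h1.trans h2.symm)
  · have : Group.IsSolvable _ := solv h hc
    let p : (NN ι ⊓ centralizer {ι z} : Subgroup G) →* NB ι := (QuotientGroup.mk' (EE ι)).comp (inclusion inf_le_left)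
    have : Group.IsSolvable p.range := solvable_of_surjective p.rangeRestrict_surjective
    refine solvable_of_solvable_injective (f := inclusion (show _ ≤ p.range from fun t ht => ?_)) (inclusion_injective _)
    obtain ⟨x, rfl⟩ := QuotientGroup.mk_surjective t
    exact ⟨⟨x, x.2, mem_centralizer_singleton_iff.2 (comm_of_mk h hc hf (mem_centralizer_singleton_iff.1 ht))⟩, rfl⟩

end CL.P8
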