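/-
Project P8 (S2920): `O₂(C(z)) = Q`.
-/
import Cfsg.Agent.P8.Defs
import Cfsg.Agent.Grp.Cores

set_option autoImplicit false

namespace CL.P8
open Cfsg Subgroup CL.Grp

variable {G : Type*} [Group G] [Finite G] {ι : Γ0 →* G}

namespace QN

omit [Finite G] in
theorem core_le {K : Type*} [Group K] {j : K →* G} (hj : Function.Injective j) {S D : Subgroup K} {C : Subgroup G}
    (hSD : S ≤ D) (hS : IsPGroup 2 S) (hi : ¬ 2 ∣ (S.map j).index) (hD : D.map j ≤ C) :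
    pCoreOf 2 C ≤ (pCoreOf 2 D).map j := by
  have p1 : IsPGroup 2 (S.map j) := hS.map j
  have n0 : D.map j ≤ normalizer (pCoreOf 2 C : Set G) := hD.trans (le_normalizer_pCoreOf 2 C)
  have h1 : pCoreOf 2 C ≤ S.map j := by
    have := (p1.toSylow hi).is_maximal' (p1.to_sup_of_normal_right' (pCoreOf_isPGroup 2 C) ((map_mono hSD).trans n0))
      le_sup_left
    exact le_sup_right.trans this.le
  have h2 : (pCoreOf 2 C).comap j ≤ pCoreOf 2 D := le_pCoreOf (fun x hx => by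
      obtain ⟨y, hy, e⟩ := h1 hx
      exact hSD (hj e ▸ hy))
    ((map_le_iff_le_comap.1 n0).trans (le_normalizer_comap j)) ((pCoreOf_isPGroup 2 C).comap_of_injective j hj)
  intro x hx
  obtain ⟨y, -, rfl⟩ := h1 hx
  exact ⟨y, h2 hx, rfl⟩

theorem span_all (U : V → Prop) (add : ∀ v w, U v → U w → U (v + w)) (h1 : ∀ v, U v → U fun k => v (![2, 3, 0, 1] k))
    (h2 : ∀ v, U v → U fun k => v (![1, 0, 3, 2] k)) (h3 : ∀ v, U v → U (rot ![1, 1, 0, 0] v))
    (h4 : ∀ v, U v → U (rot ![1, 0, 1, 0] v)) {v : V} (hv : v ≠ 0) (h : U v) (k : Fin 4) : U (ea k) ∧ U (eb k) := by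
  obtain ⟨w, hw, w0⟩ : ∃ w, U w ∧ w 0 ≠ 0 := by
    have : v 0 ≠ 0 ∨ v 1 ≠ 0 ∨ v 2 ≠ 0 ∨ v 3 ≠ 0 := by clear h; revert v; decide +kernel
    rcases this with e | e | e | e
    exacts [⟨v, h, e⟩, ⟨_, h2 v h, e⟩, ⟨_, h1 v h, e⟩, ⟨_, h1 _ (h2 v h), e⟩]
  have u1 := add _ _ hw (h3 _ hw)
  have u2 := add _ _ u1 (h4 _ u1)
  have key : ∀ w : V, w 0 ≠ 0 → ∀ u, u = w + rot ![1, 1, 0, 0] w + rot ![1, 0, 1, 0] (w + rot ![1, 1, 0, 0] w) →
      u = ea 0 ∨ rot ![1, 1, 0, 0] u = ea 0 ∨ rot ![1, 1, 0, 0] (rot ![1, 1, 0, 0] u) = ea 0 := by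
    rintro w hw _ rfl
    revert w; decide +kernel
  have a0 : U (ea 0) := by
    rcases key w w0 _ rfl with e | e | e <;> rw [← e]
    exacts [u2, h3 _ u2, h3 _ (h3 _ u2)]
  have b0 : U (eb 0) := by
    convert h3 _ a0 using 1
    decide +kernel
  fin_cases k
  · exact ⟨a0, b0⟩
  · exact ⟨by convert h2 _ a0 using 1; decide +kernel, by convert h2 _ b0 using 1; decide +kernel⟩
  · exact ⟨by convert h1 _ a0 using 1; decide +kernel, by convert h1 _ b0 using 1; decide +kernel⟩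
  · exact ⟨by convert h1 _ (h2 _ a0) using 1; decide +kernel, by convert h1 _ (h2 _ b0) using 1; decide +kernel⟩

theorem xq_of (hi : Function.Injective ι) (hc : IsOfCharacteristicTwo (centralizer ({ι z} : Set G)))
    (hO : pCoreOf 2 (centralizer ({ι z} : Set G)) ≤ (ι.comp φ).range) : XQ (ι.comp φ) := by
  have inj : Function.Injective (ι.comp φ) := hi.comp φ_inj
  rw [← psi_z ι] at hc hO
  set ψ := ι.comp φ with hψ
  set O := pCoreOf 2 (centralizer ({ψ zq} : Set G)) with hO'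
  have mC : ∀ {x : G}, Commute x (ψ zq) → x ∈ centralizer ({ψ zq} : Set G) := fun h => mem_centralizer_singleton_iff.2 h
  have mC' : ∀ {x : G}, x ∈ centralizer ({ψ zq} : Set G) → Commute x (ψ zq) := fun h => mem_centralizer_singleton_iff.1 h
  have cO : ∀ x, Commute x (ψ zq) → (∀ y ∈ O, Commute x y) → x ∈ O := fun x hx h =>
    ⟨⟨x, mC hx⟩, hc fun y hy => Subtype.ext (h y ⟨y, hy, rfl⟩).symm.eq, rfl⟩
  have nO : ∀ x, Commute x (ψ zq) → ∀ y ∈ O, x * y * x⁻¹ ∈ O := fun x hx y hy =>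
    (mem_normalizer_iff.1 (le_normalizer_pCoreOf 2 _ (mC hx)) y).1 hy
  have zO : ψ zq ∈ O := cO _ (.refl _) fun y hy => (mC' (pCoreOf_le 2 _ hy)).symm
  have mv : ∀ {p q : QM}, p.v = q.v → ψ q ∈ O → ψ p ∈ O := fun {p q} e h => by
    rcases QM.eq_or e with rfl | rfl
    · exact h
    · rw [map_mul]; exact mul_mem h zO
  obtain ⟨q, hq, q0⟩ : ∃ q, ψ q ∈ O ∧ q.v ≠ 0 := by
    by_contra hn
    push Not at hn
    refine absurd (hn (aq 0) (cO _ (comm_z ψ _) fun y hy => ?_)) (by decide +kernel)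
    obtain ⟨p, rfl⟩ := hO hy
    rcases QM.v_eq_zero (hn p hy) with rfl | rfl
    · rw [map_one]; exact .one_right _
    · exact comm_z ψ _
  have ac : ∀ x ∈ C0, ∀ v, ψ ⟨v, 0⟩ ∈ O → ψ ⟨act ψ (ι x) v, 0⟩ ∈ O := fun x hx v hv => by
    have hz : Commute (ι x) (ψ zq) := psi_z ι ▸ (C0_z hx).map ι
    obtain ⟨e, h⟩ := act_spec inj hz (nq_C0 ι hx) ⟨v, 0⟩
    exact mv (q := ⟨_, e⟩) rfl (h ▸ nO _ hz _ hv)
  have all := span_all (fun v => ψ ⟨v, 0⟩ ∈ O)
    (fun v w hv hw => mv (q := ⟨v, 0⟩ * ⟨w, 0⟩) rfl (by rw [map_mul]; exact mul_mem hv hw))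
    (fun v hv => by simpa only [hψ, act_s1 hi] using ac s1 (mem_gen (by decide)) v hv)
    (fun v hv => by simpa only [hψ, act_s2 hi] using ac s2 (mem_gen (by decide)) v hv)
    (fun v hv => by simpa only [hψ, act_d1 hi] using ac d1 (mem_gen (by decide)) v hv)
    (fun v hv => by simpa only [hψ, act_d2 hi] using ac d2 (mem_gen (by decide)) v hv) q0 (mv (q := q) rfl hq)
  have mO : ∀ q, ψ q ∈ O := QM.ind (H := O.comap ψ) all
  have nq : ∀ x, Commute x (ψ zq) → Nq ψ x := fun x hx q => let ⟨q', e⟩ := hO (nO x hx _ (mO q)); ⟨q', e.symm⟩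
  refine ⟨inj, nq, fun x hx e => hO ?_⟩
  have zz : ψ zq * ψ zq = 1 := by rw [← map_mul, zq_sq, map_one]
  let Kr : Subgroup G :=
    { carrier := {x | Commute x (ψ zq) ∧ ∀ q, x * ψ q * x⁻¹ = ψ q ∨ x * ψ q * x⁻¹ = ψ q * ψ zq}
      one_mem' := ⟨.one_left _, fun q => .inl (by simp)⟩
      mul_mem' := fun {x y} hx hy => ⟨hx.1.mul_left hy.1, fun q => by
        have e0 : x * y * ψ q * (x * y)⁻¹ = x * (y * ψ q * y⁻¹) * x⁻¹ := by group
        have e1 : x * (ψ q * ψ zq) * x⁻¹ = x * ψ q * x⁻¹ * ψ zq := by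
          rw [mul_assoc _ x⁻¹, hx.1.inv_left.eq]; group
        rw [e0]
        rcases hy.2 q with e | e <;> rw [e]
        · exact hx.2 q
        · rw [e1]
          rcases hx.2 q with e | e <;> rw [e]
          · exact .inr rfl
          · exact .inl (by rw [mul_assoc, zz, mul_one])⟩
      inv_mem' := fun {x} hx => ⟨hx.1.inv_left, fun q => by
        have e0 : ∀ w, x * w * x⁻¹ = ψ q → x⁻¹ * ψ q * x⁻¹⁻¹ = w := fun w e => by rw [← e]; group
        refine (hx.2 q).imp (e0 _) fun e => e0 _ ?_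
        rw [← mul_assoc, mul_assoc _ (ψ zq), ← hx.1.inv_left.eq, ← mul_assoc, e, mul_assoc, zz, mul_one]⟩ }
  refine le_pCoreOf (N := Kr) (fun y hy => mC hy.1) (fun c hc => mem_normalizer_fintype fun y hy => ?_) ?_
    ⟨hx, fun q => ?_⟩
  · have hc := mC' hc
    refine ⟨(hc.mul_left hy.1).mul_left hc.inv_left, fun q => ?_⟩
    obtain ⟨q', e⟩ := nq c⁻¹ hc.inv_left q
    have e0 : c * y * c⁻¹ * ψ q * (c * y * c⁻¹)⁻¹ = c * (y * ψ q' * y⁻¹) * c⁻¹ := by rw [← e]; group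
    rw [e0]
    refine (hy.2 q').imp (fun k => ?_) fun k => ?_
    · rw [k, ← e]; group
    · rw [k, ← e, mul_assoc, mul_assoc _ (ψ zq), ← hc.inv_left.eq]; group
  · rintro ⟨y, hy⟩
    have : y ^ 2 ∈ O := cO _ (hy.1.pow_left 2) fun w hw => by
      obtain ⟨q, rfl⟩ := hO hw
      rw [Commute, SemiconjBy, ← mul_inv_eq_iff_eq_mul,
        show y ^ 2 * ψ q * (y ^ 2)⁻¹ = y * (y * ψ q * y⁻¹) * y⁻¹ by rw [pow_two]; group]
      rcases hy.2 q with k | k
      · rw [k, k]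
      · rw [k, ← mul_assoc, mul_assoc _ (ψ zq), ← hy.1.inv_left.eq, ← mul_assoc, k, mul_assoc, zz, mul_one]
    obtain ⟨n, hn⟩ := pCoreOf_isPGroup 2 _ ⟨_, this⟩
    exact ⟨n + 1, Subtype.ext (by rw [pow_succ', coe_pow, pow_mul]; exact congrArg Subtype.val hn)⟩
  · obtain ⟨f, k⟩ := act_spec inj hx (nq x hx) q
    rw [k, e, ← map_mul]
    exact (QM.eq_or (p := ⟨q.v, f⟩) (q := q) rfl).imp (congrArg _) (congrArg _)

end QN

open QN

theorem qn1 (hi : Function.Injective ι) (ho : ¬ 2 ∣ ι.range.index)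
    (hc : IsOfCharacteristicTwo (centralizer ({ι z} : Set G))) : St ι := by
  refine ⟨⟨hi, xq_of hi hc ?_⟩, ho⟩
  have h2 : ¬ 2 ∣ (S0.map ι).index := by
    have h3 := S0.card_mul_index
    rw [card_S0, card_Γ0] at h3
    rw [index_map_of_injective _ hi, show S0.index = 42525 by omega]
    exact fun e => ((Nat.prime_two.dvd_mul).1 e).elim (by norm_num) ho
  rw [MonoidHom.range_comp, φ_range, ← core_C0]
  refine core_le hi S0_le (IsPGroup.of_card (n := 12) card_S0) h2 ?_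
  rintro _ ⟨x, hx, rfl⟩
  exact mem_centralizer_singleton_iff.2 ((C0_z hx).map ι)

theorem qn2 {j : W0 →* G} (hj : Function.Injective j) (ho : ¬ 2 ∣ j.range.index)
    (hc : IsOfCharacteristicTwo (centralizer ({j (inc z)} : Set G))) : St0 (j.comp inc) := by
  refine ⟨hj.comp inc_inj, xq_of (hj.comp inc_inj) hc ?_⟩
  have h2 : ¬ 2 ∣ (SW.map j).index := by
    have h3 := SW.card_mul_index
    rw [card_SW, card_W0] at h3
    rw [index_map_of_injective _ hj, show SW.index = 42525 by omega]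
    exact fun e => ((Nat.prime_two.dvd_mul).1 e).elim (by norm_num) ho
  rw [MonoidHom.range_comp, φ_range, ← map_map, ← core_CW]
  refine core_le hj (genW_le fun i hi => mem_genW (by revert i; decide)) (IsPGroup.of_card (n := 13) card_SW) h2 ?_
  have : CW ≤ centralizer {gW 16} := genW_le fun i hi => mem_centralizer_singleton_iff.2
    (relW (Ex.l i * Ex.l 16) (Ex.l 16 * Ex.l i) (by revert i; decide +kernel))
  rintro _ ⟨x, hx, rfl⟩
  rw [MonoidHom.comp_apply, inc_z]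
  exact mem_centralizer_singleton_iff.2 ((show Commute x (gW 16) from mem_centralizer_singleton_iff.1 (this hx)).map j)

end CL.P8
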