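/-
Project P8, job RED1: the reduction, the two embeddings.
-/
import Cfsg.Agent.P8.Defs
import Cfsg.Agent.Spor.Fi22A4
import Cfsg.Agent.Loc.FStar
import Cfsg.Agent.Grp.SylowIn
import Cfsg.Prelude.Def_LocalStructure

set_option autoImplicit false

namespace CL.P8
open Cfsg Subgroup

variable {G : Type*} [Group G] [Finite G] {ι : Γ0 →* G}

namespace Red1

theorem cen {x : Γ0} (h : ∀ γ, Commute x γ) : x = 1 :=
  inc_inj ((cent_W0 fun y => (h y).map inc).trans (map_one inc).symm)

theorem card_aut : Nat.card (MulAut Γ0) = 1045094400 :=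
  (Nat.card_congr (MulAut.congr (iso_Γ0 (F := ZMod 2) (ZMod.card 2)).some).toEquiv).trans CL.F22.card_aut_o8

omit [Finite G] in
theorem exists_θ (hi : Function.Injective ι) {H : Subgroup G} (hn : H ≤ normalizer (ι.range : Set G)) :
    ∃ θ : H →* MulAut Γ0, ∀ h γ, ι (θ h γ) = h * ι γ * (h : G)⁻¹ :=
  ⟨((MulAut.congr (MonoidHom.ofInjective hi).symm).toMonoidHom.comp ι.range.normalizerMonoidHom).comp (inclusion hn),
    fun _ _ => congrArg Subtype.val ((MonoidHom.ofInjective hi).apply_symm_apply _)⟩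

omit [Finite G] in
theorem θ_inj (hc : ∀ x, (∀ γ, Commute x (ι γ)) → x = 1) {H : Subgroup G} {θ : H →* MulAut Γ0}
    (hθ : ∀ h γ, ι (θ h γ) = h * ι γ * (h : G)⁻¹) : Function.Injective θ :=
  (injective_iff_map_eq_one θ).2 fun h e => Subtype.ext (hc _ fun γ => by
    have := hθ h γ
    rw [e] at this
    exact mul_inv_eq_iff_eq_mul.1 this.symm)

omit [Finite G] in
theorem θ_in (hi : Function.Injective ι) {H : Subgroup G} {θ : H →* MulAut Γ0}
    (hθ : ∀ h γ, ι (θ h γ) = h * ι γ * (h : G)⁻¹) {γ : Γ0} (m : ι γ ∈ H) : θ ⟨ι γ, m⟩ = MulAut.conj γ :=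
  MulEquiv.ext fun δ => hi (by rw [hθ, MulAut.conj_apply, map_mul, map_mul, map_inv])

theorem index_inc : inc.range.index = 2 := by
  have h := inc.range.card_mul_index
  rw [← Nat.card_congr (MonoidHom.ofInjective inc_inj).toEquiv, card_Γ0, card_W0] at h
  omega

theorem exists_ω : ∃ ω : W0 →* MulAut Γ0, Function.Injective ω ∧ ∀ γ, ω (inc γ) = MulAut.conj γ := by
  have := normal_of_index_eq_two index_inc
  obtain ⟨θ, hθ⟩ := exists_θ inc_inj (H := ⊤) (normalizer_eq_top _).ge
  exact ⟨θ.comp (topEquiv (G := W0)).symm.toMonoidHom, (θ_inj (fun _ => cent_W0) hθ).comp (topEquiv (G := W0)).symm.injective,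
    fun γ => θ_in inc_inj hθ (mem_top _)⟩

omit [Finite G] in
/-- the second embedding -/
theorem aut (hi : Function.Injective ι) (hc : ∀ x, (∀ γ, Commute x (ι γ)) → x = 1)
    (ho : ¬ 2 ∣ (normalizer (ι.range : Set G)).index) (he : 2 ∣ ι.range.index) :
    ∃ (α : MulAut Γ0) (j : W0 →* G), Function.Injective j ∧ j.comp inc = ι.comp α.toMonoidHom ∧ ¬ 2 ∣ j.range.index := by
  set H := normalizer (ι.range : Set G)
  have hH : ι.range ≤ H := le_normalizer
  obtain ⟨θ, hθ⟩ := exists_θ hi (H := H) le_rfl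
  have hθi := θ_inj hc hθ
  obtain ⟨ω, hω, eω⟩ := exists_ω
  obtain ⟨m, hm⟩ : 2 ∣ ι.range.relIndex H := by
    rw [← relIndex_mul_index hH] at he
    exact (Nat.prime_two.dvd_mul.1 he).resolve_right ho
  have c1 : Nat.card H = 348364800 * m := by
    rw [← (ι.range.subgroupOf H).card_mul_index, Nat.card_congr (subgroupOfEquivOfLe hH).toEquiv,
      ← Nat.card_congr (MonoidHom.ofInjective hi).toEquiv, card_Γ0]
    change _ * ι.range.relIndex H = _
    omega
  have c2 : m * θ.range.index = 3 := by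
    have h := θ.range.card_mul_index
    rw [← Nat.card_congr (MonoidHom.ofInjective hθi).toEquiv, c1, card_aut, mul_assoc] at h
    omega
  have : Finite (MulAut Γ0) := Nat.finite_of_card_ne_zero (by rw [card_aut]; norm_num)
  obtain ⟨T, hT⟩ := CL.Grp.exists_isSylowIn 2 θ.range
  have hT' : CL.Grp.IsSylowIn 2 T ⊤ := ⟨le_top, hT.isPGroup, by
    rw [relIndex_top_right, ← relIndex_mul_index hT.le]
    exact fun e => (Nat.prime_two.dvd_mul.1 e).elim hT.not_dvd fun e => by
      have := e.mul_left m; omega⟩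
  have hr : IsPGroup 2 (zpowers (ω r)) := IsPGroup.of_card_dvd_pow (n := 1) (by
    rw [Nat.card_zpowers]
    exact orderOf_dvd_of_pow_eq_one (by rw [← map_pow, show r ^ 2 ^ 1 = 1 from (relW (X.r ^ 2) 1 (by decide +kernel) :), map_one]))
  obtain ⟨α, -, hα⟩ := hT'.exists_conj_le hr le_top
  have ca : ∀ γ, α * MulAut.conj γ * α⁻¹ = θ ⟨ι (α γ), hH ⟨_, rfl⟩⟩ := fun γ => by
    rw [θ_in hi hθ]; ext δ; simp
  have mem : ∀ w, ((MulAut.conj α).toMonoidHom.comp ω) w ∈ θ.range := fun w => by
    refine (genW_le (H := θ.range.comap ((MulAut.conj α).toMonoidHom.comp ω)) fun i hi => ?_) (genW_all.ge (mem_top w))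
    by_cases h15 : i < 15
    · rw [← inc_g h15]
      exact ⟨_, (ca _).symm.trans (by rw [← eω]; rfl)⟩
    · obtain rfl : i = 15 := by have := List.mem_range.1 hi; omega
      exact hT.le (hα (CL.Grp.conj_mem_conj_smul α (mem_zpowers _)))
  let j : W0 →* H := (MonoidHom.ofInjective hθi).symm.toMonoidHom.comp (MonoidHom.codRestrict _ _ mem)
  have hj : ∀ w, θ (j w) = α * ω w * α⁻¹ := fun w =>
    congrArg Subtype.val ((MonoidHom.ofInjective hθi).apply_symm_apply ⟨_, mem w⟩)
  have ji : Function.Injective j := fun v w e => hω (by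
    have := (hj v).symm.trans ((congrArg θ e).trans (hj w))
    simpa using this)
  refine ⟨α, H.subtype.comp j, H.subtype_injective.comp ji, MonoidHom.ext fun γ => ?_, ?_⟩
  · exact congrArg Subtype.val (hθi ((hj (inc γ)).trans (by rw [eω, ca])))
  · rw [MonoidHom.range_comp, index_map_subtype]
    refine fun e => (Nat.prime_two.dvd_mul.1 e).elim (fun e => ?_) ho
    have h := j.range.card_mul_index
    rw [← Nat.card_congr (MonoidHom.ofInjective ji).toEquiv, c1, card_W0] at h
    have := (show j.range.index = m by omega) ▸ e |>.mul_right θ.range.index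
    omega

omit [Finite G] in
theorem ch (hG : IsOfParabolicCharacteristic 2 G) {t : G} (h2 : t * t = 1) (h1 : t ≠ 1) (S : Sylow 2 G)
    (hS : (S : Subgroup G) ≤ centralizer {t}) : IsOfCharacteristicTwo (centralizer ({t} : Set G)) := by
  have ho : orderOf t = 2 := orderOf_eq_prime (by rw [pow_two, h2]) h1
  have e : normalizer (zpowers t : Set G) = centralizer {t} := by
    refine le_antisymm (fun x hx => mem_centralizer_singleton_iff.2 (mul_inv_eq_iff_eq_mul.1 ?_)) ?_
    · obtain ⟨n, hn⟩ := (mem_normalizer_iff.1 hx t).1 (mem_zpowers t)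
      have t2 : ∀ k : ℤ, t ^ (2 * k) = 1 := fun k => by rw [zpow_mul, zpow_two, h2, one_zpow]
      obtain ⟨k, rfl | rfl⟩ := Int.even_or_odd' n
      · exact absurd (by simpa [t2] using hn.symm) h1
      · rw [← hn]; simp only [zpow_add_one, t2, one_mul]
    · rw [← centralizer_closure, ← zpowers_eq_closure]; exact centralizer_le_normalizer _
  have := hG (zpowers t) (IsPGroup.of_card (n := 1) (by rw [Nat.card_zpowers, ho, pow_one])) (by simpa using h1) ⟨S, e ▸ hS⟩
  rwa [e] at this

end Red1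

open Red1

theorem pom {F : Type*} [Field F] [Fintype F] (hF : Fintype.card F = 2) : Nonempty (Γ0 ≃* POmega F (quadFormPlus 4 F)) := by
  obtain ⟨f⟩ := iso_Γ0 hF
  have : center (Omega F (quadFormPlus 4 F)) = ⊥ := eq_bot_iff.2 fun x hx => mem_bot.2 (by
    obtain ⟨y, rfl⟩ := f.surjective x
    rw [cen (x := y) fun γ => f.injective (by rw [map_mul, map_mul]; exact (mem_center_iff.1 hx _).symm), map_one])
  exact ⟨f.trans ((QuotientGroup.quotientMulEquivOfEq this).trans QuotientGroup.quotientBot).symm⟩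

theorem red1 (hG : IsOfParabolicCharacteristic 2 G) (H : Subgroup G) (hidx : ¬ 2 ∣ H.index)
    (hF : ∃ (F : Type) (_ : Field F) (_ : Fintype F), Fintype.card F = 2 ∧
      Nonempty (generalizedFittingSubgroup H ≃* POmega F (quadFormPlus 4 F)))
    (hN : normalizer (((generalizedFittingSubgroup H).map H.subtype : Subgroup G) : Set G) = H) :
    ∃ ι : Γ0 →* G, Pr ι ∧ Tw ι := by
  obtain ⟨F, _, _, hF, ⟨e⟩⟩ := hF
  obtain ⟨f⟩ := pom hF
  let ι : Γ0 →* G := (H.subtype.comp (generalizedFittingSubgroup H).subtype).comp (f.trans e.symm).toMonoidHom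
  have hi : Function.Injective ι := (H.subtype_injective.comp (subtype_injective _)).comp (f.trans e.symm).injective
  have hr : ι.range = (generalizedFittingSubgroup H).map H.subtype := by
    rw [MonoidHom.range_comp, MonoidHom.range_eq_top.2 (f.trans e.symm).surjective, ← MonoidHom.range_eq_map,
      MonoidHom.range_comp, range_subtype]
  rw [← hr] at hN
  have hc : ∀ x, (∀ γ, Commute x (ι γ)) → x = 1 := fun x hx => by
    have h1 : x ∈ H := hN.le (centralizer_le_normalizer _ (by rintro _ ⟨γ, rfl⟩; exact (hx γ).eq.symm))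
    have h2 : (⟨x, h1⟩ : H) ∈ generalizedFittingSubgroup H := CL.Loc.centralizer_fstar_le fun y hy => Subtype.ext (by
      obtain ⟨γ, eγ⟩ := hr.ge (mem_map_of_mem _ hy)
      exact (eγ ▸ hx γ : Commute x (H.subtype y)).eq.symm)
    obtain ⟨γ, rfl⟩ := hr.ge (mem_map_of_mem _ h2)
    rw [cen (x := γ) fun δ => hi (by rw [map_mul, map_mul]; exact hx δ), map_one]
  have zz : ∀ κ : Γ0 →* G, κ z * κ z = 1 := fun κ => by rw [← map_mul, q8s.zz, map_one]
  have z1 : ∀ κ : Γ0 →* G, Function.Injective κ → κ z ≠ 1 := fun κ h e => z_ne (h (e.trans (map_one κ).symm))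
  by_cases he : 2 ∣ ι.range.index
  · obtain ⟨α, j, h1, h2, h3⟩ := aut hi hc (hN ▸ hidx) he
    have h4 : (j.comp inc).range = ι.range := by
      rw [h2, MonoidHom.range_comp, MonoidHom.range_eq_top.2 α.surjective, ← MonoidHom.range_eq_map]
    have h5 : Nat.card (SW.map j) = 2 ^ 13 := by rw [card_map_of_injective h1, card_SW]; rfl
    have h6 : ¬ 2 ∣ (SW.map j).index := by
      have h7 := SW.card_mul_index
      rw [card_SW, card_W0] at h7
      rw [index_map_of_injective _ h1, show SW.index = 42525 by omega]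
      exact fun e => ((Nat.prime_two.dvd_mul).1 e).elim (by norm_num) h3
    have h7 : SW ≤ centralizer {gW 16} := genW_le fun i hi => mem_centralizer_singleton_iff.2
      (relW (Ex.l i * Ex.l 16) (Ex.l 16 * Ex.l i) (by revert i; decide +kernel))
    refine ⟨j.comp inc, ⟨h1.comp inc_inj, fun x hx => hc x fun γ => ?_, ch hG (zz _) (z1 _ (h1.comp inc_inj))
      ((IsPGroup.of_card h5).toSylow h6) ?_, by rwa [h4, hN]⟩, Or.inr ⟨j, h1, rfl, h3⟩⟩
    · obtain ⟨δ, e⟩ := h4.ge ⟨γ, rfl⟩
      exact e ▸ hx δ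
    · rintro _ ⟨s, hs, rfl⟩
      rw [mem_centralizer_singleton_iff, MonoidHom.comp_apply, inc_z, ← map_mul, ← map_mul,
        mem_centralizer_singleton_iff.1 (h7 hs)]
  · have h5 : Nat.card (S0.map ι) = 2 ^ 12 := by rw [card_map_of_injective hi, card_S0]; rfl
    have h6 : ¬ 2 ∣ (S0.map ι).index := by
      have h7 := S0.card_mul_index
      rw [card_S0, card_Γ0] at h7
      rw [index_map_of_injective _ hi, show S0.index = 42525 by omega]
      exact fun e => ((Nat.prime_two.dvd_mul).1 e).elim (by norm_num) he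
    refine ⟨ι, ⟨hi, hc, ch hG (zz _) (z1 _ hi) ((IsPGroup.of_card h5).toSylow h6) ?_, by rwa [hN]⟩, Or.inl he⟩
    rintro _ ⟨s, hs, rfl⟩
    exact mem_centralizer_singleton_iff.2 ((C0_z (S0_le hs)).map ι)

end CL.P8
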