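/-
Project P8 (S2920): the relations of the `Y₅₂₂` presentation.
-/
import Cfsg.Agent.P8.Defs

set_option autoImplicit false

namespace CL.P8
open Cfsg Subgroup

variable {G : Type*} [Group G] {ι : Γ0 →* G}

namespace Rel5

/-- `p * t⁻¹` is an involution -/
def Cm (p t : G) : Prop := (p * t⁻¹) ^ 2 = 1

theorem Cm.r1 {p s t : G} (h1 : Cm p s) (h2 : Cm p t) : Cm p (s * t⁻¹ * s) := by
  unfold Cm at *
  calc (p * (s * t⁻¹ * s)⁻¹) ^ 2 = p * s⁻¹ * ((p * t⁻¹)⁻¹ * (p * s⁻¹) ^ 2 * (p * t⁻¹)⁻¹) * (p * s⁻¹) := by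
        simp only [sq]; group
    _ = p * s⁻¹ * ((p * t⁻¹) ^ 2)⁻¹ * (p * s⁻¹) := by rw [h1]; simp only [sq]; group
    _ = 1 := by rw [h2, inv_one, mul_one, ← sq, h1]

theorem Cm.r2 {p s t m : G} (h : p * m = t * p) (h1 : Cm p s) : Cm p (t * s * m⁻¹) := by
  unfold Cm at *
  rw [show p * (t * s * m⁻¹)⁻¹ = p * m * s⁻¹ * t⁻¹ by group, h, mul_assoc t p, conj_pow, h1, mul_one,
    mul_inv_cancel]

theorem conj {k y t t' : G} (h : k * t * k⁻¹ = t') {n : ℕ} (h1 : (y * t'⁻¹) ^ n = 1) : (k⁻¹ * y * k * t⁻¹) ^ n = 1 := by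
  rw [show k⁻¹ * y * k * t⁻¹ = k⁻¹ * (y * (k * t * k⁻¹)⁻¹) * k⁻¹⁻¹ by group, conj_pow, h, h1, mul_one, mul_inv_cancel]

/-- the nodes in `Γ0` -/
def nd (i : ℕ) : Ex := [X.g67, X.g56, X.g45, X.g34, X.g23, X.g12, X.w1, X.g89, X.z].getD i 1

/-- alternating words as expressions -/
def altX : List ℕ → Ex
  | i :: j :: w => nd i * (nd j)⁻¹ * altX w
  | _ => 1

theorem alt_eq {γ : ℕ → G} (h : ∀ i < 9, γ i = ι ((nd i).ev g)) : ∀ w : List ℕ, (∀ i ∈ w, i < 9) →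
    alt γ w = ι ((altX w).ev g)
  | [], _ => (map_one ι).symm
  | [_], _ => (map_one ι).symm
  | i :: j :: w, hw => by
    show γ i * (γ j)⁻¹ * alt γ w = ι (_ * _⁻¹ * _)
    rw [map_mul, map_mul, map_inv, h i (hw i (by simp)), h j (hw j (by simp)), alt_eq h w fun l hl => hw l (by simp [hl])]

theorem last {k : G} (hk : Kap ι k) {x : Γ0} (hx : x = x1 ∨ x = x2) (hc : Commute (k * ι x1 * k⁻¹) (ι x)) :
    ∀ i < 9, (k⁻¹ * ι x * k * (ι ((nd i).ev g))⁻¹) ^ cox 9 i = 1 := by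
  obtain ⟨y, rfl, hy⟩ : ∃ y : Ex, x = y.ev g ∧ (y = X.x1 ∨ y = X.x2) := hx.elim (fun e => ⟨X.x1, e, Or.inl rfl⟩)
    fun e => ⟨X.x2, e, Or.inr rfl⟩
  have h1 : ∀ a b : Ex, M.chk [(a.wd, b.wd)] = true → ι (a.ev g) = ι (b.ev g) := fun a b h => congrArg ι (rel a b h)
  have h2 : ∀ {τ τm κ κm : Γ0}, k * ι τ * k⁻¹ = ι κ → k * ι τm * k⁻¹ = ι κm → y.ev g * κm = κ * y.ev g →
      k⁻¹ * ι (y.ev g) * k * ι τm = ι τ * (k⁻¹ * ι (y.ev g) * k) := fun {τ τm κ κm} a b c => by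
    have := congrArg ι c
    rw [map_mul, map_mul, ← a, ← b] at this
    calc _ = k⁻¹ * (ι (y.ev g) * (k * ι τm * k⁻¹)) * k := by group
      _ = _ := by rw [this]; group
  have a2 := h2 hk.t2 hk.t2m (rel (y * X.k2m) (X.k2 * y) (by rcases hy with rfl | rfl <;> decide +kernel))
  have a3 := h2 hk.t3 hk.t3m (rel (y * X.k3m) (X.k3 * y) (by rcases hy with rfl | rfl <;> decide +kernel))
  have r1 : ∀ s t u : Ex, M.chk [((s * t⁻¹ * s).wd, u.wd)] = true → Cm (k⁻¹ * ι (y.ev g) * k) (ι (s.ev g)) →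
      Cm (k⁻¹ * ι (y.ev g) * k) (ι (t.ev g)) → Cm (k⁻¹ * ι (y.ev g) * k) (ι (u.ev g)) := fun s t u h a b => by
    have := a.r1 b
    rw [← map_inv, ← map_mul, ← map_mul] at this
    exact h1 _ _ h ▸ this
  have r2 : ∀ s u : Ex, M.chk [((X.t2 * s * X.t2m⁻¹).wd, u.wd)] = true → Cm (k⁻¹ * ι (y.ev g) * k) (ι (s.ev g)) →
      Cm (k⁻¹ * ι (y.ev g) * k) (ι (u.ev g)) := fun s u h a => by
    have := a.r2 a2
    rw [← map_inv, ← map_mul, ← map_mul] at this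
    exact h1 _ _ h ▸ this
  have r3 : ∀ s u : Ex, M.chk [((X.t3 * s * X.t3m⁻¹).wd, u.wd)] = true → Cm (k⁻¹ * ι (y.ev g) * k) (ι (s.ev g)) →
      Cm (k⁻¹ * ι (y.ev g) * k) (ι (u.ev g)) := fun s u h a => by
    have := a.r2 a3
    rw [← map_inv, ← map_mul, ← map_mul] at this
    exact h1 _ _ h ▸ this
  have w1 : Cm (k⁻¹ * ι (y.ev g) * k) (ι (X.w1.ev g)) := conj hk.w1 (by
    rw [← map_inv, ← map_mul, ← map_pow, ← map_one ι]
    exact h1 ((y * X.z⁻¹) ^ (2 : ℕ)) 1 (by rcases hy with rfl | rfl <;> decide +kernel))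
  have x1 : Cm (k⁻¹ * ι (y.ev g) * k) (ι (X.x1.ev g)) := conj (t' := k * ι P8.x1 * k⁻¹) rfl (by
    rw [hc.symm.inv_right.mul_pow, inv_pow, conj_pow, ← map_pow, ← map_pow]
    rw [show y.ev g ^ 2 = 1 from rel (y ^ (2 : ℕ)) 1 (by rcases hy with rfl | rfl <;> decide +kernel),
      show P8.x1 ^ 2 = 1 from rel (X.x1 ^ (2 : ℕ)) 1 (by decide +kernel)]
    simp)
  have z : (k⁻¹ * ι (y.ev g) * k * (ι (X.z.ev g))⁻¹) ^ 3 = 1 := conj hk.z (by
    rw [← map_inv, ← map_mul, ← map_pow, ← map_one ι]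
    exact h1 ((y * X.w4⁻¹) ^ (3 : ℕ)) 1 (by rcases hy with rfl | rfl <;> decide +kernel))
  have g89 := r1 _ _ X.g89 (by decide +kernel) w1 x1
  have g56 := r2 _ X.g56 (by decide +kernel) w1
  have g59 := r2 _ X.g59 (by decide +kernel) x1
  have g69 := r2 _ X.g69 (by decide +kernel) g89
  have g67 := r1 _ _ X.g67 (by decide +kernel) g69 x1
  have g12 := r3 _ X.g12 (by decide +kernel) g56
  have g34 := r3 _ X.g34 (by decide +kernel) w1
  have g39 := r3 _ X.g39 (by decide +kernel) x1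
  have g49 := r3 _ X.g49 (by decide +kernel) g89
  have g29 := r3 _ X.g29 (by decide +kernel) g69
  have g23 := r1 _ _ X.g23 (by decide +kernel) g29 g39
  have g45 := r1 _ _ X.g45 (by decide +kernel) g49 g59
  intro i hi
  interval_cases i
  exacts [g67, g56, g45, g34, g23, g12, w1, g89, z]

end Rel5

open Rel5 in
theorem rel5 (hi : Function.Injective ι) {k : G} (hk : Kap ι k) {x : Γ0} (hx : x = x1 ∨ x = x2)
    (hc : Commute (k * ι x1 * k⁻¹) (ι x)) : ∃ γ : ℕ → G, Y5 γ ∧ γ 0 ≠ γ 1 ∧ ι.range ≤ evS γ := by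
  obtain ⟨γ, h9, h⟩ : ∃ γ : ℕ → G, γ 9 = k⁻¹ * ι x * k ∧ ∀ i < 9, γ i = ι ((nd i).ev g) :=
    ⟨fun i => if i = 9 then k⁻¹ * ι x * k else ι ((nd i).ev g), if_pos rfl, fun i hi => if_neg hi.ne⟩
  have hw : ∀ w : List ℕ, (∀ i ∈ w, i < 9) ∧ M.chk [((altX w).wd, Ex.wd 1)] = true → alt γ w = 1 := fun w hw =>
    (alt_eq h w hw.1).trans ((congrArg ι (rel _ _ hw.2)).trans (map_one ι))
  have h1 := last hk hx hc
  refine ⟨γ, ⟨fun i hi j hj => ?_, hw _ (by decide +kernel), hw _ (by decide +kernel), hw _ (by decide +kernel),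
    hw _ (by decide +kernel)⟩, fun e => ?_, ?_⟩
  · rcases Nat.lt_succ_iff_lt_or_eq.1 hi with hi | rfl <;> rcases Nat.lt_succ_iff_lt_or_eq.1 hj with hj | rfl
    · rw [h i hi, h j hj, ← map_inv, ← map_mul, ← map_pow, ← map_one ι]
      exact congrArg ι (rel ((nd i * (nd j)⁻¹) ^ cox i j) 1 (by revert i j; decide +kernel))
    · rw [h i hi, h9, ← inv_eq_one, ← inv_pow, mul_inv_rev, inv_inv,
        (by decide +kernel : ∀ i < 9, cox i 9 = cox 9 i) i hi]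
      exact h1 i hi
    · rw [h j hj, h9]; exact h1 j hj
    · simp
  · rw [h 0 (by decide), h 1 (by decide)] at e
    exact ne1 (X.g67 * X.g56⁻¹) (by decide +kernel) (mul_inv_eq_one.2 (hi e))
  · have h2 : ∀ i < 9, (nd i).ev g * g67⁻¹ ∈ (evS γ).comap ι := fun i hi => subset_closure ⟨i, by omega, 0, by decide, by
      rw [h i hi, h 0 (by decide), map_mul, map_inv]; rfl⟩
    have h3 := gen_nodes (H := (evS γ).comap ι) (by
      simp only [List.forall_mem_cons]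
      exact ⟨h2 1 (by decide), h2 2 (by decide), h2 3 (by decide), h2 4 (by decide), h2 5 (by decide), h2 6 (by decide),
        h2 7 (by decide), h2 8 (by decide), by simp⟩)
    rintro _ ⟨t, rfl⟩
    exact h3.ge (mem_top t)

end CL.P8
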